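import Cfsg.Agent.AltCentralizer.Points

/-!
The group `blk (swap a b)` and the elements of its normaliser coming from the symmetric group on the
points different from `a` and `b`.
-/

set_option autoImplicit false

namespace CfsgLib.AltCentralizer

variable {G : Type*} [Group G] {ι : Type*} [Fintype ι] [DecidableEq ι] {t : G}

/-- The points different from `a` and `b`. -/
abbrev Pt (a b : ι) := {p : Option ι // p ≠ some a ∧ p ≠ some b}

/-- Extension by zero. -/
def ext (a b : ι) (c : Pt a b → ZMod 2) : Option ι → ZMod 2 :=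
  fun p => if h : p ≠ some a ∧ p ≠ some b then c ⟨p, h⟩ else 0

/-- The vector with coordinates `c` outside `a` and `b`. -/
def cvec (a b : ι) (c : Pt a b → ZMod 2) : ι → ZMod 2 := comb (ext a b c)

/-- The indicator of the points of `ι` different from `a` and `b`. -/
def oneR (a b : ι) : ι → ZMod 2 := fun i => if i = a ∨ i = b then 0 else 1

theorem inBlk_swap {a b : ι} {p : Equiv.Perm ι} (h : InBlk (Equiv.swap a b) p) :
    p = 1 ∨ p = Equiv.swap a b := by
  have hf : ∀ i, i ≠ a → i ≠ b → p i = i := fun i h1 h2 =>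
    (h i).elim id fun e => e.trans (Equiv.swap_apply_of_ne_of_ne h1 h2)
  rcases h a with e | e
  · refine Or.inl (Equiv.ext fun i => ?_)
    rw [Equiv.Perm.one_apply]
    by_cases h1 : i = a
    · rw [h1, e]
    by_cases h2 : i = b
    · rcases h b with e' | e'
      · rw [h2, e']
      · rw [Equiv.swap_apply_right] at e'
        exact absurd (p.injective (e'.trans e.symm)) (fun hh => h1 (h2.trans hh))
    exact hf i h1 h2
  · rw [Equiv.swap_apply_left] at e
    refine Or.inr (Equiv.ext fun i => ?_)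
    by_cases h1 : i = a
    · rw [h1, e, Equiv.swap_apply_left]
    by_cases h2 : i = b
    · rw [h2, Equiv.swap_apply_right]
      rcases h b with e' | e'
      · exact absurd (p.injective (e'.trans e.symm)) (fun hh => h1 (h2.trans hh))
      · rwa [Equiv.swap_apply_right] at e'
    rw [hf i h1 h2, Equiv.swap_apply_of_ne_of_ne h1 h2]

theorem swap_fix_iff {a b : ι} {w : ι → ZMod 2} :
    (∀ i, w (Equiv.swap a b i) = w i) ↔ w a = w b := by
  refine ⟨fun h => by simpa using (h a).symm, fun h i => ?_⟩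
  by_cases h1 : i = a
  · rw [h1, Equiv.swap_apply_left, h]
  by_cases h2 : i = b
  · rw [h2, Equiv.swap_apply_right, h]
  rw [Equiv.swap_apply_of_ne_of_ne h1 h2]

theorem comp_swap {a b : ι} {w : ι → ZMod 2} (h : w a = w b) : w ∘ Equiv.swap a b = w :=
  funext (swap_fix_iff.2 h)

theorem ext_apply {a b : ι} (c : Pt a b → ZMod 2) (p : Pt a b) : ext a b c p.1 = c p := by
  rw [ext, dif_pos p.2]

theorem cvec_add {a b : ι} (c c' : Pt a b → ZMod 2) : cvec a b (c + c') = cvec a b c + cvec a b c' := by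
  rw [cvec, cvec, cvec, ← comb_add]
  congr 1
  funext p
  rw [Pi.add_apply]
  unfold ext
  split <;> simp

theorem cvec_zero {a b : ι} : cvec a b (0 : Pt a b → ZMod 2) = 0 := by
  have h := cvec_add (0 : Pt a b → ZMod 2) 0
  rw [add_zero] at h
  exact left_eq_add.1 h

theorem cvec_injective {a b : ι} : Function.Injective (cvec a b) := by
  intro c c' e
  have h1 : ext a b (c + c') (some a) = 0 := by rw [ext, dif_neg (by simp)]
  have h0 : cvec a b (c + c') = 0 := by rw [cvec_add, e, Frame.zmod_add_self]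
  have hs : ∑ p, ext a b (c + c') p = 0 := by
    have := congrFun h0 a
    rw [cvec, comb, h1, add_zero] at this
    exact this
  have hc : ext a b (c + c') = rep 0 := by
    have h := rep_comb hs
    rw [show comb (ext a b (c + c')) = 0 from h0] at h
    exact h.symm
  funext p
  refine CharTwo.add_eq_zero.1 ?_
  rw [← Pi.add_apply, ← ext_apply (c + c') p, hc]
  obtain ⟨q, hq⟩ := p
  cases q <;> simp [rep]

theorem cvec_apply_ab {a b : ι} (c : Pt a b → ZMod 2) : cvec a b c a = cvec a b c b := by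
  rw [cvec, comb, comb]
  simp [ext]

theorem cvec_single {a b : ι} (p : Pt a b) : cvec a b (Pi.single p 1) = pt p.1 := by
  rw [cvec, ← comb_single]
  congr 1
  funext q
  rw [ext]
  by_cases h : q = p.1
  · subst h; rw [dif_pos p.2, Pi.single_eq_same, Pi.single_eq_same]
  · rw [Pi.single_eq_of_ne h]
    split_ifs with hq
    · exact Pi.single_eq_of_ne (fun e => h (congrArg Subtype.val e)) _
    · rfl

theorem pt_apply_ab {a b : ι} (p : Pt a b) : pt p.1 a = pt p.1 b := by
  rw [← cvec_single]; exact cvec_apply_ab _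

theorem cvec_pair {a b : ι} (p q : Pt a b) : cvec a b (pair p q) = pt p.1 + pt q.1 := by
  rw [pair, cvec_add, cvec_single, cvec_single]

theorem exists_cvec {a b : ι} (hab : a ≠ b) {w : ι → ZMod 2} (hw : w a = w b) :
    ∃ c : Pt a b → ZMod 2, ∑ p, c p = 0 ∧ w = cvec a b c + w a • pair a b := by
  refine ⟨fun p => rep w p.1, ?_, ?_⟩
  · have h := sum_rep w
    rw [← Finset.sum_filter_add_sum_filter_not Finset.univ (fun p => p ≠ some a ∧ p ≠ some b)] at h
    rw [Finset.sum_subtype (Finset.univ.filter fun p : Option ι => p ≠ some a ∧ p ≠ some b)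
      (p := fun p => p ≠ some a ∧ p ≠ some b) (fun p => by simp)] at h
    rw [show (Finset.univ.filter fun p : Option ι => ¬ (p ≠ some a ∧ p ≠ some b)) = {some a, some b} by
      ext p; simp only [Finset.mem_filter, Finset.mem_univ, true_and, Finset.mem_insert, Finset.mem_singleton]; tauto, Finset.sum_pair (by simpa using hab)] at h
    simpa [rep, hw, CharTwo.add_self_eq_zero] using h
  · have hz : ext a b (fun p => rep w p.1) + w a • (Pi.single (some a) 1 + Pi.single (some b) 1) =
        rep w := funext fun p => by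
      rw [Pi.add_apply, Pi.smul_apply, Pi.add_apply, ext]
      by_cases h1 : p = some a
      · subst h1; simp [hab, rep]
      by_cases h2 : p = some b
      · subst h2; simp [hab.symm, rep, hw]
      rw [dif_pos ⟨h1, h2⟩, Pi.single_eq_of_ne h1, Pi.single_eq_of_ne h2, add_zero, smul_zero, add_zero]
    have h := comb_rep w
    rw [← hz, comb_add] at h
    conv_lhs => rw [← h]
    congr 1
    rcases zmod2_cases (w a) with e | e
    · rw [e, zero_smul, zero_smul]; funext i; simp [comb]
    · rw [e, one_smul, one_smul, comb_add, comb_single, comb_single]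
      funext i
      simp only [pt, pair, Pi.add_apply, Pi.one_apply]
      have key : ∀ x y : ZMod 2, 1 + x + (1 + y) = x + y := by decide
      exact key _ _

namespace Setup

variable [Finite G] (S : Setup G ι t)

/-- An element acting on the base group like the lift of `σ` is that lift times a vector. -/
theorem acts_conj {g : G} {π : Equiv.Perm (Option ι)} (hg : S.Acts g π) {σ σ' : Equiv.Perm ι}
    (h : π * σ.optionCongr * π⁻¹ = σ'.optionCongr) (hι : Nonempty ι) :
    ∃ z, g * S.frame.el 0 σ * g⁻¹ = S.frame.el z σ' := by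
  have hy : S.Acts (g * S.frame.el 0 σ * g⁻¹ * (S.frame.el 0 σ')⁻¹) 1 := by
    have h' := ((hg.mul (acts_el (S := S) σ)).mul hg.inv).mul (acts_el (S := S) σ').inv
    rwa [h, mul_inv_cancel] at h'
  set z := g * S.frame.el 0 σ * g⁻¹ * (S.frame.el 0 σ')⁻¹
  have hid : ∀ v, S.frame.L z v = v := fun v => by
    conv_lhs => rw [← comb_rep v, hy.L_comb]
    exact comb_rep v
  have hcv : ∀ v, Commute z (S.frame.vec v) := fun v => by
    have h := hy.1.spec v
    rw [hid] at h
    exact mul_inv_eq_iff_eq_mul.1 h.symm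
  haveI := hι
  obtain ⟨w, hw⟩ := S.frame.mem_E_of_commute (by
    have h := hcv 1
    rwa [S.frame.vec_one] at h) hcv
  refine ⟨w, ?_⟩
  rw [show g * S.frame.el 0 σ * g⁻¹ = z * S.frame.el 0 σ' by rw [inv_mul_cancel_right], ← hw,
    ← S.frame.el_vec, S.frame.el_mul, one_mul]
  congr 1
  simp

/-- An element acting trivially on the base group lies in it. -/
theorem acts_one {g : G} (hg : S.Acts g 1) (hι : Nonempty ι) : ∃ z, g = S.frame.vec z := by
  obtain ⟨z, hz⟩ := S.acts_conj (g := g) hg (σ := 1) (σ' := 1) (by simp) hι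
  have hid : ∀ v, S.frame.L g v = v := fun v => by
    conv_lhs => rw [← comb_rep v, hg.L_comb]
    exact comb_rep v
  have hcv : ∀ v, Commute g (S.frame.vec v) := fun v => by
    have h := hg.1.spec v
    rw [hid] at h
    exact mul_inv_eq_iff_eq_mul.1 h.symm
  haveI := hι
  obtain ⟨w, hw⟩ := S.frame.mem_E_of_commute (by
    have h := hcv 1
    rwa [S.frame.vec_one] at h) hcv
  exact ⟨w, hw.symm⟩

end Setup

/-- The element `S'` for the parameter `ε`. -/
def sel (F : Frame G ι t) (a b : ι) (ε : ZMod 2) : G := F.el (ε • oneR a b) (Equiv.swap a b)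

theorem oneR_comp {a b : ι} {σ : Equiv.Perm ι} (ha : σ a = a) (hb : σ b = b) :
    oneR a b ∘ σ.symm = oneR a b := funext fun i => by
  simp only [oneR, Function.comp_apply]
  exact if_congr (or_congr (by rw [Equiv.symm_apply_eq, ha]) (by rw [Equiv.symm_apply_eq, hb])) rfl rfl

theorem oneR_a (a b : ι) : oneR a b a = 0 := if_pos (Or.inl rfl)

theorem oneR_b (a b : ι) : oneR a b b = 0 := if_pos (Or.inr rfl)

theorem swap_opt {a b : ι} : (Equiv.swap a b).optionCongr = Equiv.swap (some a) (some b) :=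
  Equiv.optionCongr_swap a b

/-- Transpositions of points other than `a`, `b` are induced by elements fixing `S'`. -/
def Setup.Swaps (S : Setup G ι t) (a b : ι) (ε : ZMod 2) : Prop :=
  ∀ p q : Pt a b, p ≠ q → ∃ h, S.Acts h (Equiv.swap p.1 q.1) ∧
    h * sel S.frame a b ε * h⁻¹ = sel S.frame a b ε

theorem Setup.Std.exists_swaps [Finite G] {S : Setup G ι t} (hS : S.Std) (h4 : 4 ≤ Fintype.card ι)
    {a b : ι} (hab : a ≠ b) : ∃ ε, S.Swaps a b ε := by
  classical
  have hι : Nonempty ι := ⟨a⟩
  obtain ⟨i, hi⟩ : ∃ i, i ∉ ({a, b} : Finset ι) := by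
    by_contra hh
    push Not at hh
    have := Finset.card_le_card (show (Finset.univ : Finset ι) ⊆ {a, b} from fun x _ => hh x)
    rw [Finset.card_univ, Finset.card_pair hab] at this
    omega
  simp only [Finset.mem_insert, Finset.mem_singleton, not_or] at hi
  set F := S.frame
  set θ := Equiv.swap a b with hθdef
  set π : Equiv.Perm (Option ι) := Equiv.swap none (some i) with hπ
  have hfix : ∀ x y : ι, x ≠ i → y ≠ i →
      π * (Equiv.swap x y).optionCongr * π⁻¹ = (Equiv.swap x y).optionCongr := by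
    intro x y hx hy
    rw [swap_opt, ← Equiv.swap_apply_apply,
      show π (some x) = some x from Equiv.swap_apply_of_ne_of_ne (by simp) (by simp [hx]),
      show π (some y) = some y from Equiv.swap_apply_of_ne_of_ne (by simp) (by simp [hy])]
  obtain ⟨g, hg⟩ := hS.perm_surj h4 π
  obtain ⟨e₀, he₀⟩ : ∃ z, g * F.el 0 θ * g⁻¹ = F.el z θ := S.acts_conj hg (σ := θ) (σ' := θ) (hfix a b (Ne.symm hi.1) (Ne.symm hi.2)) hι
  have hsq0 : F.el 0 θ * F.el 0 θ = 1 := by
    rw [F.el_mul, hθdef, Equiv.swap_mul_self, Pi.zero_comp, add_zero, F.el_one]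
  have he0θ : e₀ a = e₀ b := by
    have h : F.el e₀ θ * F.el e₀ θ = 1 := by
      rw [← he₀]
      calc g * F.el 0 θ * g⁻¹ * (g * F.el 0 θ * g⁻¹) = g * (F.el 0 θ * F.el 0 θ) * g⁻¹ := by group
        _ = 1 := by rw [hsq0]; group
    rw [F.el_mul] at h
    have := congrFun (F.el_eq_one h).1 a
    simp only [Pi.add_apply, Function.comp_apply, hθdef, Equiv.symm_swap, Equiv.swap_apply_left,
      Pi.zero_apply] at this
    exact CharTwo.add_eq_zero.1 this
  -- constant on the other fixed points
  have hconst : ∀ j k : ι, j ≠ a → j ≠ b → j ≠ i → k ≠ a → k ≠ b → k ≠ i → e₀ j = e₀ k := by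
    intro j k hja hjb hji hka hkb hki
    obtain ⟨z, hz⟩ : ∃ z, g * F.el 0 (Equiv.swap j k) * g⁻¹ = F.el z (Equiv.swap j k) := S.acts_conj hg (σ := Equiv.swap j k) (σ' := Equiv.swap j k) (hfix j k hji hki) hι
    have hsw : θ * Equiv.swap j k = Equiv.swap j k * θ :=
      mul_inv_eq_iff_eq_mul.1 (by
        rw [← Equiv.swap_apply_apply, hθdef, Equiv.swap_apply_of_ne_of_ne hja hjb,
          Equiv.swap_apply_of_ne_of_ne hka hkb])
    have hc : F.el 0 θ * F.el 0 (Equiv.swap j k) = F.el 0 (Equiv.swap j k) * F.el 0 θ := by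
      rw [F.el_mul, F.el_mul, Pi.zero_comp, Pi.zero_comp, hsw]
    have h : F.el e₀ θ * F.el z (Equiv.swap j k) = F.el z (Equiv.swap j k) * F.el e₀ θ := by
      rw [← he₀, ← hz]
      calc g * F.el 0 θ * g⁻¹ * (g * F.el 0 (Equiv.swap j k) * g⁻¹)
          = g * (F.el 0 θ * F.el 0 (Equiv.swap j k)) * g⁻¹ := by group
        _ = g * (F.el 0 (Equiv.swap j k) * F.el 0 θ) * g⁻¹ := by rw [hc]
        _ = _ := by group
    rw [F.el_mul, F.el_mul] at h
    have := congrFun (F.el_inj h).1 j
    simp only [Pi.add_apply, Function.comp_apply, hθdef, Equiv.symm_swap, Equiv.swap_apply_left,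
      Equiv.swap_apply_of_ne_of_ne hja hjb] at this
    rw [add_comm (z j)] at this
    exact add_right_cancel this
  -- the square of `g` forces the common value to vanish
  have hzero : ∀ j : ι, j ≠ a → j ≠ b → j ≠ i → e₀ j = 0 := by
    obtain ⟨z, hz⟩ := S.acts_one (g := g * g) (by
      have := hg.mul hg
      rwa [hπ, Equiv.swap_mul_self] at this) hι
    have h : F.el (z + z ∘ θ.symm) θ = F.el (F.L g e₀ + e₀) θ := by
      have h1 : F.vec z * F.el 0 θ * (F.vec z)⁻¹ = F.el (z + z ∘ θ.symm) θ := by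
        rw [← F.el_vec, F.conj_el]
        simp only [one_mul, inv_one, mul_one, Pi.zero_comp, add_zero]
      rw [← h1, ← hz]
      calc g * g * F.el 0 θ * (g * g)⁻¹ = g * (g * F.el 0 θ * g⁻¹) * g⁻¹ := by group
        _ = g * F.el e₀ θ * g⁻¹ := by rw [he₀]
        _ = g * (F.vec e₀ * F.el 0 θ) * g⁻¹ := by rw [← F.el_vec, F.el_mul, one_mul]; simp
        _ = (g * F.vec e₀ * g⁻¹) * (g * F.el 0 θ * g⁻¹) := by group
        _ = F.vec (F.L g e₀) * F.el e₀ θ := by rw [← hg.1.spec, he₀]
        _ = _ := by rw [← F.el_vec, F.el_mul, one_mul]; rfl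
    have hi' := congrFun (F.el_inj h).1 i
    simp only [Pi.add_apply, Function.comp_apply, hθdef, Equiv.symm_swap,
      Equiv.swap_apply_of_ne_of_ne hi.1 hi.2, CharTwo.add_self_eq_zero] at hi'
    have hL : F.L g e₀ i = ∑ x, e₀ x := by
      have hs : ∑ p, (rep e₀ ∘ π.symm) p = 0 := by
        rw [← sum_rep e₀]; exact Equiv.sum_comp π.symm (rep e₀)
      conv_lhs => rw [← comb_rep e₀, hg.L_comb, comb, hs, zero_add]
      rw [Function.comp_apply, hπ, Equiv.symm_swap, Equiv.swap_apply_right]
      rfl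
    rw [hL] at hi'
    intro j hja hjb hji
    have hsum : ∑ x, e₀ x = e₀ i + ((Fintype.card ι - 3 : ℕ) : ZMod 2) * e₀ j := by
      rw [← Finset.sum_sdiff (Finset.subset_univ ({a, b, i} : Finset ι)),
        Finset.sum_insert (by simp [hab, Ne.symm hi.1]), Finset.sum_pair (Ne.symm hi.2),
        Finset.sum_congr rfl (g := fun _ => e₀ j) (fun x hx => by
          simp only [Finset.mem_sdiff, Finset.mem_univ, Finset.mem_insert, Finset.mem_singleton,
            true_and, not_or] at hx
          exact hconst x j hx.1 hx.2.1 hx.2.2 hja hjb hji),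
        Finset.sum_const, Finset.card_sdiff_of_subset (Finset.subset_univ _), Finset.card_univ,
        nsmul_eq_mul, Finset.card_insert_of_notMem (by simp [hab, Ne.symm hi.1]),
        Finset.card_pair (Ne.symm hi.2), he0θ, ← add_assoc (e₀ b), CharTwo.add_self_eq_zero, zero_add,
        add_comm]
    obtain ⟨m, hm⟩ := S.even
    have hodd : ((Fintype.card ι - 3 : ℕ) : ZMod 2) = 1 :=
      ZMod.natCast_eq_one_iff_odd.2 ⟨m - 2, by omega⟩
    rw [hodd, one_mul] at hsum
    rw [hsum, add_comm (e₀ i) (e₀ j), add_assoc, CharTwo.add_self_eq_zero, add_zero] at hi'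
    exact hi'.symm
  -- correct `g` by the transvection at `a`
  obtain ⟨g₁, hg₁, hconj⟩ : ∃ g₁, S.Acts g₁ π ∧
      g₁ * F.el 0 θ * g₁⁻¹ = F.el (e₀ i • Pi.single i 1) θ := by
    refine ⟨F.vec (e₀ a • Pi.single a 1) * g, ?_, ?_⟩
    · have h := (show S.Acts (F.vec (e₀ a • Pi.single a 1)) 1 from ⟨F.el_vec _ ▸ F.el_nrm _ 1, fun p => by
        rw [← F.el_vec, F.L_el]; rfl⟩).mul hg
      rwa [one_mul] at h
    · rw [show F.vec (e₀ a • Pi.single a 1) * g * F.el 0 θ * (F.vec (e₀ a • Pi.single a 1) * g)⁻¹ =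
        F.vec (e₀ a • Pi.single a 1) * (g * F.el 0 θ * g⁻¹) * (F.vec (e₀ a • Pi.single a 1))⁻¹ by group,
        he₀, ← F.el_vec, F.conj_el]
      simp only [one_mul, inv_one, mul_one]
      congr 1
      funext j
      simp only [Pi.add_apply, Function.comp_apply, Pi.smul_apply, smul_eq_mul, hθdef, Equiv.symm_swap,
        Equiv.Perm.one_symm, Equiv.Perm.one_apply]
      by_cases hja : j = a
      · subst hja
        rw [Equiv.swap_apply_left, Pi.single_eq_same, Pi.single_eq_of_ne hab.symm,
          Pi.single_eq_of_ne (Ne.symm hi.1), mul_one, mul_zero, mul_zero, add_zero, CharTwo.add_self_eq_zero]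
      by_cases hjb : j = b
      · subst hjb
        rw [Equiv.swap_apply_right, Pi.single_eq_same, Pi.single_eq_of_ne hja,
          Pi.single_eq_of_ne (Ne.symm hi.2), mul_one, mul_zero, mul_zero, zero_add, ← he0θ,
          CharTwo.add_self_eq_zero]
      rw [Equiv.swap_apply_of_ne_of_ne hja hjb, Pi.single_eq_of_ne hja, mul_zero, zero_add, add_zero]
      by_cases hji : j = i
      · subst hji; rw [Pi.single_eq_same, mul_one]
      · rw [Pi.single_eq_of_ne hji, mul_zero, hzero j hja hjb hji]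
  refine ⟨e₀ i, ?_⟩
  set ε := e₀ i
  have hsel : sel F a b ε = F.vec (ε • oneR a b) * F.el 0 θ := by
    rw [← F.el_vec, F.el_mul, one_mul, sel]; simp [hθdef]
  have hg₁S : g₁ * sel F a b ε * g₁⁻¹ = sel F a b ε := by
    have hR : F.L g₁ (ε • oneR a b) = ε • (oneR a b + Pi.single i 1) := by
      rcases zmod2_cases ε with e | e
      · rw [e, zero_smul, zero_smul, hg₁.1.L_zero]
      rw [e, one_smul, one_smul]
      conv_lhs => rw [← comb_rep (oneR a b), hg₁.L_comb]
      have hs : ∑ p, (rep (oneR a b) ∘ π.symm) p = 0 := by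
        rw [← sum_rep (oneR a b)]; exact Equiv.sum_comp π.symm (rep (oneR a b))
      funext j
      rw [comb, hs, zero_add, Function.comp_apply, hπ, Equiv.symm_swap, Pi.add_apply]
      by_cases hji : j = i
      · subst hji
        rw [Equiv.swap_apply_right, Pi.single_eq_same]
        show ∑ x, oneR a b x = oneR a b j + 1
        rw [show oneR a b j = 1 from if_neg (by simp [hi.1, hi.2]),
          show ∑ x, oneR a b x = ((Finset.univ.filter fun x => ¬ (x = a ∨ x = b)).card : ZMod 2) by
            rw [← Finset.sum_boole]; exact Finset.sum_congr rfl fun x _ => by by_cases h : x = a ∨ x = b <;> simp [oneR, h],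
          show (1 : ZMod 2) + 1 = 0 from rfl, ZMod.natCast_eq_zero_iff_even,
          show (Finset.univ.filter fun x => ¬ (x = a ∨ x = b)) = Finset.univ \ {a, b} by ext x; simp,
          Finset.card_sdiff_of_subset (Finset.subset_univ _), Finset.card_univ, Finset.card_pair hab]
        obtain ⟨m, hm⟩ := S.even
        exact ⟨m - 1, by omega⟩
      · rw [Equiv.swap_apply_of_ne_of_ne (by simp) (by simp [hji]), Pi.single_eq_of_ne hji, add_zero]
        rfl
    rw [hsel, show g₁ * (F.vec (ε • oneR a b) * F.el 0 θ) * g₁⁻¹ =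
      (g₁ * F.vec (ε • oneR a b) * g₁⁻¹) * (g₁ * F.el 0 θ * g₁⁻¹) by group, ← hg₁.1.spec, hR, hconj,
      ← F.el_vec, F.el_mul, ← F.el_vec (ε • oneR a b), F.el_mul, one_mul]
    congr 1
    rw [smul_add, Pi.zero_comp, add_zero, show (ε • Pi.single i 1 : ι → ZMod 2) ∘ (1 : Equiv.Perm ι).symm =
      ε • Pi.single i 1 from rfl, add_assoc, Frame.zmod_add_self, add_zero]
  -- the transpositions inside `ι`
  have hlift : ∀ x y : ι, x ≠ a → x ≠ b → y ≠ a → y ≠ b →
      S.Acts (F.el 0 (Equiv.swap x y)) (Equiv.swap (some x) (some y)) ∧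
        F.el 0 (Equiv.swap x y) * sel F a b ε * (F.el 0 (Equiv.swap x y))⁻¹ = sel F a b ε := by
    intro x y hxa hxb hya hyb
    have hact := acts_el (S := S) (Equiv.swap x y)
    rw [swap_opt] at hact
    refine ⟨hact, ?_⟩
    have hc : Equiv.swap x y * θ * (Equiv.swap x y)⁻¹ = θ := by
      rw [hθdef, ← Equiv.swap_apply_apply, Equiv.swap_apply_of_ne_of_ne (Ne.symm hxa) (Ne.symm hya),
        Equiv.swap_apply_of_ne_of_ne (Ne.symm hxb) (Ne.symm hyb)]
    rw [show sel F a b ε = F.el (ε • oneR a b) θ from rfl, F.conj_el, hc, Pi.zero_comp, add_zero, zero_add]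
    congr 1
    funext j
    rw [Function.comp_apply, Pi.smul_apply, Pi.smul_apply]
    congr 1
    exact congrFun (oneR_comp (σ := Equiv.swap x y)
      (Equiv.swap_apply_of_ne_of_ne (Ne.symm hxa) (Ne.symm hya))
      (Equiv.swap_apply_of_ne_of_ne (Ne.symm hxb) (Ne.symm hyb))) j
  have hnone : ∀ x : ι, x ≠ a → x ≠ b →
      ∃ h, S.Acts h (Equiv.swap none (some x)) ∧ h * sel F a b ε * h⁻¹ = sel F a b ε := by
    intro x hxa hxb
    by_cases hxi : x = i
    · subst hxi; exact ⟨g₁, hg₁, hg₁S⟩
    obtain ⟨h1, h2⟩ := hlift i x hi.1 hi.2 hxa hxb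
    refine ⟨F.el 0 (Equiv.swap i x) * g₁ * (F.el 0 (Equiv.swap i x))⁻¹, ?_, ?_⟩
    · have h := (h1.mul hg₁).mul h1.inv
      rwa [hπ, ← Equiv.swap_apply_apply, Equiv.swap_apply_left,
        Equiv.swap_apply_of_ne_of_ne (by simp) (by simp)] at h
    · set L := F.el 0 (Equiv.swap i x)
      have h2' : L⁻¹ * sel F a b ε * L = sel F a b ε := by
        calc L⁻¹ * sel F a b ε * L = L⁻¹ * (L * sel F a b ε * L⁻¹) * L := by rw [h2]
          _ = _ := by group
      calc L * g₁ * L⁻¹ * sel F a b ε * (L * g₁ * L⁻¹)⁻¹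
          = L * (g₁ * (L⁻¹ * sel F a b ε * L) * g₁⁻¹) * L⁻¹ := by group
        _ = _ := by rw [h2', hg₁S, h2]
  intro p q hpq
  obtain ⟨_ | x, hp⟩ := p <;> obtain ⟨_ | y, hq⟩ := q
  · exact absurd rfl hpq
  · exact hnone y (fun e => hq.1 (by rw [e])) (fun e => hq.2 (by rw [e]))
  · obtain ⟨h, h1, h2⟩ := hnone x (fun e => hp.1 (by rw [e])) (fun e => hp.2 (by rw [e]))
    exact ⟨h, Equiv.swap_comm (some x) none ▸ h1, h2⟩
  · obtain ⟨h1, h2⟩ := hlift x y (fun e => hp.1 (by rw [e])) (fun e => hp.2 (by rw [e]))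
      (fun e => hq.1 (by rw [e])) (fun e => hq.2 (by rw [e]))
    exact ⟨_, h1, h2⟩

end CfsgLib.AltCentralizer
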