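import Cfsg.Agent.AltCentralizer.BlockSwap

/-!
A conjugate of `t` outside the base group inside `blk (swap a b)`: what its transvections force.
-/

set_option autoImplicit false

namespace CfsgLib.AltCentralizer

variable {G : Type*} [Group G] {ι : Type*} [Fintype ι] [DecidableEq ι] {t : G}

theorem involution_parity {θ : Equiv.Perm ι} (hθ : θ * θ = 1) :
    Nat.card {i // θ i = i} % 2 = Fintype.card ι % 2 := by
  haveI : Fact (Nat.Prime 2) := ⟨Nat.prime_two⟩
  have hpow : IsPGroup 2 (Subgroup.zpowers θ) := fun g => ⟨1, by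
    obtain ⟨i, hi⟩ := Subgroup.mem_zpowers_iff.1 g.2
    refine Subtype.ext ?_
    rw [Subgroup.coe_pow, ← hi, pow_one, ← zpow_natCast, ← zpow_mul, mul_comm, zpow_mul, zpow_natCast,
      pow_two, hθ, one_zpow]; rfl⟩
  have h := hpow.card_modEq_card_fixedPoints ι
  rw [Nat.card_eq_fintype_card (α := ι)] at h
  rw [show MulAction.fixedPoints (Subgroup.zpowers θ) ι = {i | θ i = i} from Set.ext fun i =>
    ⟨fun h => h ⟨θ, Subgroup.mem_zpowers θ⟩,
      fun h g => (Subgroup.zpowers_le.2 (show θ ∈ MulAction.stabilizer _ i from h)) g.2⟩] at h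
  exact h.symm

theorem eq_swap_of_fixed {θ : Equiv.Perm ι} (hθ : θ * θ = 1) (h1 : θ ≠ 1)
    (hR : Fintype.card ι ≤ Nat.card {i // θ i = i} + 3) : ∃ x y, x ≠ y ∧ θ = Equiv.swap x y := by
  classical
  obtain ⟨x, hx⟩ : ∃ x, θ x ≠ x := by
    by_contra hh
    push Not at hh
    exact h1 (Equiv.ext hh)
  refine ⟨x, θ x, hx.symm, Equiv.ext fun i => ?_⟩
  by_cases h : i = x
  · rw [h, Equiv.swap_apply_left]
  by_cases h' : i = θ x
  · rw [h', Equiv.swap_apply_right, sq_apply hθ]
  rw [Equiv.swap_apply_of_ne_of_ne h h']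
  by_contra hi
  have hsub : ({x, θ x, i, θ i} : Finset ι) ⊆ Finset.univ.filter fun j => ¬ θ j = j := by
    intro j hj
    simp only [Finset.mem_insert, Finset.mem_singleton] at hj
    rw [Finset.mem_filter]
    refine ⟨Finset.mem_univ _, ?_⟩
    rcases hj with rfl | rfl | rfl | rfl
    exacts [hx, fun e => hx (θ.injective e), hi, fun e => hi (θ.injective e)]
  have hcard := Finset.card_le_card hsub
  rw [Finset.card_insert_of_notMem, Finset.card_insert_of_notMem, Finset.card_pair (Ne.symm hi)] at hcard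
  · have := Finset.card_filter_add_card_filter_not (s := (Finset.univ : Finset ι)) (fun j => θ j = j)
    rw [Finset.card_univ] at this
    rw [Nat.card_eq_fintype_card, Fintype.card_subtype] at hR
    omega
  · simp only [Finset.mem_insert, Finset.mem_singleton, not_or]
    exact ⟨fun e => h' e.symm, fun e => h (θ.injective e).symm⟩
  · simp only [Finset.mem_insert, Finset.mem_singleton, not_or]
    exact ⟨Ne.symm hx, fun e => h e.symm, fun e => h' (by rw [e, sq_apply hθ])⟩

/-- Conjugation of the coordinates. -/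
def Frame.pullHom (F : Frame G ι t) (a b : ι) (g : G) : (Pt a b → ZMod 2) →+ Additive G :=
  AddMonoidHom.mk' (fun c => Additive.ofMul (g * F.vec (cvec a b c) * g⁻¹)) fun c c' => by
    rw [cvec_add, F.vec_add, show g * (F.vec (cvec a b c) * F.vec (cvec a b c')) * g⁻¹ =
      g * F.vec (cvec a b c) * g⁻¹ * (g * F.vec (cvec a b c') * g⁻¹) by group]
    rfl

theorem Frame.pullHom_injective (F : Frame G ι t) (a b : ι) (g : G) :
    Function.Injective (F.pullHom a b g) := fun _ _ e =>
  cvec_injective (F.vec_inj (mul_left_cancel (mul_right_cancel (Additive.ofMul.injective e))))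

theorem third {κ : Type*} [DecidableEq κ] {s : Finset κ} (hs : 3 ≤ s.card) (p q : κ) :
    ∃ r ∈ s, p ≠ r ∧ q ≠ r := by
  by_contra hh
  push Not at hh
  have hsub : s ⊆ {p, q} := fun r hr => by
    simp only [Finset.mem_insert, Finset.mem_singleton]
    by_contra hn
    push Not at hn
    exact hn.2 (hh r hr (Ne.symm hn.1)).symm
  have := Finset.card_le_card hsub
  have := Finset.card_le_two (a := p) (b := q)
  omega

theorem sum_eq_card {κ : Type*} [Fintype κ] [DecidableEq κ] (c : κ → ZMod 2) :
    ∑ p, c p = ((Finset.univ.filter fun p => c p = 1).card : ZMod 2) := by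
  rw [← Finset.sum_boole]
  exact Finset.sum_congr rfl fun p _ => by
    rcases zmod2_cases (c p) with e | e <;> simp [e]

namespace Setup

variable [Finite G] {S : Setup G ι t} {a b : ι} {ε : ZMod 2}

/-- The element with coordinates `c₀`, `δ` outside the base group. -/
def vS (S : Setup G ι t) (a b : ι) (ε : ZMod 2) (c₀ : Pt a b → ZMod 2) (δ : ZMod 2) : G :=
  S.frame.vec (cvec a b c₀ + δ • pair a b) * sel S.frame a b ε

variable (hab : a ≠ b) (hsw : S.Swaps a b ε) {g : G} {θ : Equiv.Perm ι} {hθ : θ * θ = 1}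
  {c₀ : Pt a b → ZMod 2} {δ : ZMod 2}
  (hB : cj g (S.frame.B a b) = S.frame.blk θ hθ) (hv : g * vS S a b ε c₀ δ * g⁻¹ = t)

include hab hsw hB hv

theorem pair_centre (p q : Pt a b) (hpq : c₀ p = c₀ q) (hne : p ≠ q) :
    ∃ w, IsC θ w ∧ S.frame.pullHom a b g (pair p q) = Additive.ofMul (S.frame.vec w) := by
  obtain ⟨h, hh, hS'⟩ := hsw p q hne
  obtain ⟨-, hT⟩ := swap_tv_pt hab hne hh hS'
  have hfix : h * vS S a b ε c₀ δ * h⁻¹ = vS S a b ε c₀ δ := by
    rw [vS, (swap_conj hab hh hS' c₀ δ).2]
    congr 4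
    funext r
    rw [Function.comp_apply]
    by_cases h1 : r = p
    · rw [h1, Equiv.swap_apply_left, hpq]
    by_cases h2 : r = q
    · rw [h2, Equiv.swap_apply_right, hpq]
    rw [Equiv.swap_apply_of_ne_of_ne h1 h2]
  have h' := (show Ctr _ (vS S a b ε c₀ δ) _ from ⟨h, mul_inv_eq_iff_eq_mul.1 hfix, hT⟩).conj g
  rw [hB, hv] at h'
  obtain ⟨w, hw, e⟩ := S.frame.isC_of_ctr h'
  exact ⟨w, hw, congrArg Additive.ofMul e⟩

theorem side_pull (x : ZMod 2) (hx : 3 ≤ (Finset.univ.filter fun p => c₀ p = x).card) (p q : Pt a b)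
    (hp : c₀ p = x) (hq : c₀ q = x) (hne : p ≠ q) : pair p q ∈ pullT S.frame θ (S.frame.pullHom a b g) := by
  obtain ⟨r, hr, hpr, hqr⟩ := third hx p q
  exact pair_mem_pullT hθ (A := fun p => c₀ p = x)
    (fun p q hp hq => pair_centre hab hsw hB hv p q (hp.trans hq.symm)) hp hq
    (Finset.mem_filter.1 hr).2 hne hpr hqr

/-- When no side has exactly two points, both sides are mapped into the target. -/
theorem sides_pull (h1 : (Finset.univ.filter fun p => c₀ p = 1).card ≠ 2)
    (h0 : (Finset.univ.filter fun p => c₀ p = 0).card ≠ 2) :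
    Sides (fun p => c₀ p = 1) ≤ pullT S.frame θ (S.frame.pullHom a b g) := by
  have key : ∀ x : ZMod 2, (Finset.univ.filter fun p => c₀ p = x).card ≠ 2 → ∀ p q, c₀ p = x → c₀ q = x →
      p ≠ q → pair p q ∈ pullT S.frame θ (S.frame.pullHom a b g) := by
    intro x hx p q hp hq hne
    refine side_pull hab hsw hB hv x ?_ p q hp hq hne
    have hsub : ({p, q} : Finset (Pt a b)) ⊆ Finset.univ.filter fun p => c₀ p = x := by
      intro r hr
      simp only [Finset.mem_insert, Finset.mem_singleton] at hr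
      rcases hr with rfl | rfl <;> exact Finset.mem_filter.2 ⟨Finset.mem_univ _, by assumption⟩
    have := Finset.card_le_card hsub
    rw [Finset.card_pair hne] at this
    omega
  exact sides_le _ _ (key 1 h1) fun p q hp hq hne => key 0 h0 p q (zmod2_ne_one hp) (zmod2_ne_one hq) hne

theorem coord_ne_zero (h4 : 4 ≤ Fintype.card ι) (h1 : θ ≠ 1) : ∃ p, c₀ p = 1 := by
  by_contra hnone
  push Not at hnone
  have hcard := card_pt hab
  haveI : Nonempty (Pt a b) := Fintype.card_pos_iff.1 (by omega)
  have hfilt : (Finset.univ.filter fun p => c₀ p = 0) = Finset.univ :=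
    Finset.filter_eq_self.2 fun p _ => zmod2_ne_one (hnone p)
  have hfilt1 : (Finset.univ.filter fun p => c₀ p = 1) = ∅ :=
    Finset.filter_eq_empty_iff.2 fun p _ => hnone p
  have hle := sides_pull hab hsw hB hv (by rw [hfilt1]; simp) (by rw [hfilt, Finset.card_univ]; omega)
  have h5 := (card_sides (fun p => c₀ p = 1)).2 hnone
  have h6 := card_le_target (S.frame.pullHom_injective a b g) hle
  have hfix := fixed_card_le hθ h1
  by_cases hR : ∃ r, θ r = r
  · have h7 := card_target θ hR
    have h8 : 2 ^ Fintype.card (Pt a b) ≤ 2 ^ Nat.card {i // θ i = i} := by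
      calc 2 ^ Fintype.card (Pt a b) ≤ Nat.card (Sides fun p => c₀ p = 1) * 2 := h5
        _ ≤ Nat.card (Target θ) * 2 := Nat.mul_le_mul_right _ h6
        _ ≤ _ := h7
    have := (Nat.pow_le_pow_iff_right (show 1 < 2 by omega)).1 h8
    omega
  · push Not at hR
    have h7 : Nat.card (Target θ) ≤ 1 := by
      rw [Finite.card_le_one_iff_subsingleton]
      exact ⟨fun u v => Subtype.ext (funext fun i => (u.2.1 i (hR i)).trans (v.2.1 i (hR i)).symm)⟩
    have : 2 ^ 3 ≤ 2 ^ Fintype.card (Pt a b) := Nat.pow_le_pow_right (by omega) (by omega)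
    omega

theorem count_sides (hc : ∑ p, c₀ p = 0) :
    Even (Finset.univ.filter fun p => c₀ p = 1).card ∧
      (Finset.univ.filter fun p => c₀ p = 1).card + (Finset.univ.filter fun p => c₀ p = 0).card =
        Fintype.card (Pt a b) ∧ Odd (Finset.univ.filter fun p => c₀ p = 0).card := by
  have he : Even (Finset.univ.filter fun p => c₀ p = 1).card := by
    rw [← ZMod.natCast_eq_zero_iff_even, ← sum_eq_card, hc]
  have hsum : (Finset.univ.filter fun p => c₀ p = 1).card + (Finset.univ.filter fun p => c₀ p = 0).card =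
      Fintype.card (Pt a b) := by
    rw [show (Finset.univ.filter fun p => c₀ p = 0) = Finset.univ.filter fun p => ¬ c₀ p = 1 from
      Finset.filter_congr fun p _ => by rcases zmod2_cases (c₀ p) with e | e <;> simp [e],
      Finset.card_filter_add_card_filter_not, Finset.card_univ]
  refine ⟨he, hsum, ?_⟩
  have hcard := card_pt hab
  obtain ⟨k, hk⟩ := he
  obtain ⟨m, hm⟩ := S.even
  exact ⟨m - k - 1, by omega⟩

/-- The conjugate group is again attached to a transposition, in degree at least six. -/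
theorem is_swap (h6 : 6 ≤ Fintype.card ι) (h1 : θ ≠ 1) (hc : ∑ p, c₀ p = 0) :
    ∃ x y, x ≠ y ∧ θ = Equiv.swap x y := by
  obtain ⟨he, hsum, hodd⟩ := count_sides hab hsw hB hv hc
  obtain ⟨p₁, hp₁⟩ := coord_ne_zero hab hsw hB hv (by omega) h1
  have hcard := card_pt hab
  refine eq_swap_of_fixed hθ h1 ?_
  haveI : Nonempty (Pt a b) := ⟨p₁⟩
  have hrange : ∀ X : AddSubgroup (Pt a b → ZMod 2), X ≤ pullT S.frame θ (S.frame.pullHom a b g) →
      ∀ k, 2 ^ k ≤ Nat.card X * 2 → 2 ≤ k → k ≤ Nat.card {i // θ i = i} := by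
    intro X hX k hk hk2
    have h6' := card_le_target (S.frame.pullHom_injective a b g) hX
    by_cases hR : ∃ r, θ r = r
    · refine (Nat.pow_le_pow_iff_right (show 1 < 2 by omega)).1 ?_
      calc 2 ^ k ≤ Nat.card X * 2 := hk
        _ ≤ Nat.card (Target θ) * 2 := Nat.mul_le_mul_right _ h6'
        _ ≤ _ := card_target θ hR
    · push Not at hR
      have h7 : Nat.card (Target θ) ≤ 1 := by
        rw [Finite.card_le_one_iff_subsingleton]
        exact ⟨fun u v => Subtype.ext (funext fun i => (u.2.1 i (hR i)).trans (v.2.1 i (hR i)).symm)⟩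
      have : 2 ^ 2 ≤ 2 ^ k := Nat.pow_le_pow_right (by omega) hk2
      omega
  set sB := Finset.univ.filter fun p => c₀ p = 0
  by_cases hA : (Finset.univ.filter fun p => c₀ p = 1).card = 2
  · -- only the side with value zero is usable
    let res : (Pt a b → ZMod 2) →+ ZMod 2 := AddMonoidHom.mk' (fun c => ∑ p ∈ sB, c p)
      fun c c' => by simp only [Pi.add_apply, Finset.sum_add_distrib]
    let X : AddSubgroup (Pt a b → ZMod 2) :=
      { carrier := {c | (∀ p, p ∉ sB → c p = 0) ∧ ∑ p ∈ sB, c p = 0}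
        zero_mem' := ⟨fun _ _ => rfl, by simp⟩
        add_mem' := fun {u v} hu hv => ⟨fun p hp => by simp [hu.1 p hp, hv.1 p hp],
          by simp [Finset.sum_add_distrib, hu.2, hv.2]⟩
        neg_mem' := fun {u} hu => ⟨fun p hp => by simp [hu.1 p hp], by simp [hu.2]⟩ }
    have hX : X ≤ pullT S.frame θ (S.frame.pullHom a b g) := fun c hc => by
      refine mem_of_pairs _ sB (fun p hp q hq hne => ?_) hc.1 hc.2
      exact side_pull hab hsw hB hv 0 (by show 3 ≤ sB.card; omega) p q (Finset.mem_filter.1 hp).2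
        (Finset.mem_filter.1 hq).2 hne
    obtain ⟨r, hr⟩ : sB.Nonempty := Finset.card_pos.1 (by omega)
    have hk : 2 ^ sB.card ≤ Nat.card X * 2 := by
      rw [show 2 ^ sB.card = Nat.card (sB → ZMod 2) by
        rw [Nat.card_fun, Nat.card_zmod, Nat.card_eq_fintype_card, Fintype.card_coe]]
      refine le_of_le_of_eq (?_ : _ ≤ Nat.card (X × ZMod 2)) (by rw [Nat.card_prod, Nat.card_zmod])
      refine Nat.card_le_card_of_injective (fun f =>
        (⟨(fun p => if h : p ∈ sB then f ⟨p, h⟩ else 0) + Pi.single r (∑ p, f p), ?_⟩, ∑ p, f p)) ?_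
      · refine ⟨fun p hp => ?_, ?_⟩
        · rw [Pi.add_apply, dif_neg hp, Pi.single_eq_of_ne fun e : p = r => hp (e ▸ hr), add_zero]
        · simp only [Pi.add_apply, Finset.sum_add_distrib, Finset.sum_pi_single', if_pos hr]
          rw [← Finset.sum_attach, Finset.univ_eq_attach,
            Finset.sum_congr rfl fun (x : {p // p ∈ sB}) (_ : x ∈ sB.attach) => dif_pos x.2]
          exact CharTwo.add_self_eq_zero _
      · intro f f' e
        obtain ⟨e1, e2⟩ := Prod.mk.injEq .. |>.mp e
        have e3 := congrArg Subtype.val e1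
        simp only [e2, add_left_inj] at e3
        funext p
        have := congrFun e3 p.1
        simpa [p.2] using this
    have hb := hrange X hX sB.card hk (by omega)
    have := involution_parity hθ
    obtain ⟨m, hm⟩ := S.even
    omega
  · have hle := sides_pull hab hsw hB hv hA (fun h => by
      exact Nat.not_even_iff_odd.2 hodd ⟨1, h⟩)
    have h5 := (card_sides (fun p => c₀ p = 1)).1
    have := hrange _ hle (Fintype.card (Pt a b) - 1) (by
      have e : 2 ^ Fintype.card (Pt a b) = 2 ^ (Fintype.card (Pt a b) - 1) * 2 := by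
        rw [← pow_succ, Nat.sub_add_cancel (by omega)]
      omega) (by omega)
    omega

end Setup

end CfsgLib.AltCentralizer
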