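import Cfsg.Agent.AltCentralizer.BlockBound

/-!
Elements centralising `t` that conjugate `blk (swap a b)` to a block group; conjugates of `t` inside
the base group; moving conjugates of `t` by transpositions of points.
-/

set_option autoImplicit false

namespace CfsgLib.AltCentralizer

variable {G : Type*} [Group G] {ι : Type*} [Fintype ι] [DecidableEq ι] {t : G}

theorem pair_comp (σ : Equiv.Perm ι) (x y : ι) : pair x y ∘ σ.symm = pair (σ x) (σ y) := by
  funext i
  simp only [pair, Function.comp_apply, Pi.add_apply]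
  have key : ∀ z, (Pi.single z 1 : ι → ZMod 2) (σ.symm i) = (Pi.single (σ z) 1 : ι → ZMod 2) i := fun z => by
    by_cases h : i = σ z
    · rw [h, Equiv.symm_apply_apply, Pi.single_eq_same, Pi.single_eq_same]
    · rw [Pi.single_eq_of_ne h, Pi.single_eq_of_ne fun e => h (by rw [← e, Equiv.apply_symm_apply])]
  rw [key, key]

namespace Frame

variable (F : Frame G ι t) {a b : ι}

theorem cj_lift_le {x y : ι} (σ : Equiv.Perm ι) (hx : σ x = a) (hy : σ y = b) :
    cj (F.el 0 σ) (F.B x y) ≤ F.B a b := by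
  intro z hz
  obtain ⟨w, p, hw, hp, e⟩ := mem_cj.1 hz
  have hz' : z = F.el 0 σ * F.el w p * (F.el 0 σ)⁻¹ := by rw [← e]; group
  rw [hz', F.conj_el, Pi.zero_comp, add_zero, zero_add]
  have hs : σ * Equiv.swap x y * σ⁻¹ = Equiv.swap a b := by
    rw [← Equiv.swap_apply_apply, hx, hy]
  refine el_mem_blk.2 ⟨swap_fix_iff.2 ?_, ?_⟩
  · rw [Function.comp_apply, Function.comp_apply, σ.symm_apply_eq.2 hx.symm, σ.symm_apply_eq.2 hy.symm]
    exact swap_fix_iff.1 hw
  · rcases inBlk_swap hp with rfl | rfl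
    · rw [mul_one, mul_inv_cancel]; exact InBlk.one _
    · rw [hs]; exact InBlk.refl _

theorem cj_lift {x y : ι} (σ : Equiv.Perm ι) (hx : σ x = a) (hy : σ y = b) :
    cj (F.el 0 σ) (F.B x y) = F.B a b := by
  refine le_antisymm (F.cj_lift_le σ hx hy) ?_
  have h := F.cj_lift_le (a := x) (b := y) (x := a) (y := b) σ⁻¹
    (by rw [← hx]; exact σ.symm_apply_apply x) (by rw [← hy]; exact σ.symm_apply_apply y)
  intro z hz
  rw [mem_cj]
  refine h (mem_cj.2 ?_)
  have e : F.el 0 σ⁻¹ = (F.el 0 σ)⁻¹ := by rw [F.el_inv, Pi.zero_comp]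
  rw [e]
  simpa [mul_assoc] using hz

theorem conj_mem_swap {k : G} {θ : Equiv.Perm ι} {hθ : θ * θ = 1} (hk : Commute k t)
    (hB : cj k (F.B a b) = F.blk θ hθ) (hne : θ ≠ 1) : ∃ x y, θ = Equiv.swap x y ∧
      ∀ z ∈ F.B a b, k * z * k⁻¹ ∈ F.blk θ hθ := by
  obtain ⟨o, ho, v, σ, e⟩ := F.cent_eq k⁻¹ hk.inv_left
  have hmem : k⁻¹ * F.el 0 θ * k ∈ F.B a b :=
    mem_cj.1 (hB.symm ▸ el_mem_blk.2 ⟨fun _ => rfl, InBlk.refl θ⟩)
  have hI : o * F.el v σ * F.el 0 θ * (o * F.el v σ)⁻¹ ∈ F.B a b := by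
    rw [show o * F.el v σ = k⁻¹ from e.symm, inv_inv]; exact hmem
  have h := F.conj_eq ho v σ (F.el_mem_Im 0 θ) (blk_le_Im hI)
  rw [h, F.conj_el] at hI
  obtain ⟨-, hp⟩ := el_mem_blk.1 hI
  rcases inBlk_swap hp with h1 | h1
  · exact absurd (by
      rw [mul_inv_eq_one] at h1
      exact mul_eq_left.1 h1) hne
  · refine ⟨σ⁻¹ a, σ⁻¹ b, ?_, fun z hz => hB ▸ conj_mem_cj hz⟩
    rw [Equiv.swap_apply_apply, ← h1]
    group

/-- An element centralising `t` and normalising `blk (swap a b)` centralises `vec (pair a b)`. -/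
theorem fix_pair (hab : a ≠ b) {k : G} (hk : Commute k t) (hB : cj k (F.B a b) = F.B a b) :
    k * F.vec (pair a b) * k⁻¹ = F.vec (pair a b) := by
  obtain ⟨o, ho, v, σ, rfl⟩ := F.cent_eq k hk
  rw [show o * (F.vec v * F.lift σ) = o * F.el v σ from rfl] at hB ⊢
  have h1 : o * F.el v σ * F.vec (pair a b) * (o * F.el v σ)⁻¹ ∈ F.B a b :=
    hB ▸ conj_mem_cj (F.vec_mem_B.2 (pair_ab hab))
  have h2 : o * F.el v σ * F.el 0 (Equiv.swap a b) * (o * F.el v σ)⁻¹ ∈ F.B a b :=
    hB ▸ conj_mem_cj (el_mem_blk.2 ⟨fun _ => rfl, InBlk.refl _⟩)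
  have e2 := F.conj_eq ho v σ (F.el_mem_Im _ _) (blk_le_Im h2)
  rw [F.conj_eq ho v σ (F.vec_mem_Im _) (blk_le_Im h1), F.conj_vec]
  rw [e2, F.conj_el] at h2
  obtain ⟨-, hp⟩ := el_mem_blk.1 h2
  congr 1
  rcases inBlk_swap hp with h3 | h3
  · exfalso
    rw [mul_inv_eq_one, mul_eq_left] at h3
    exact hab (by simpa using (congrFun (congrArg (⇑) h3) a).symm)
  · rw [← Equiv.swap_apply_apply] at h3
    have e : ∀ i, i = a ∨ i = b → (σ i = a ∨ σ i = b) := by
      intro i hi
      by_contra hn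
      push Not at hn
      have h4 := congrFun (congrArg (⇑) h3) (σ i)
      rw [Equiv.swap_apply_of_ne_of_ne hn.1 hn.2] at h4
      rcases hi with rfl | rfl
      · rw [Equiv.swap_apply_left] at h4; exact hab (σ.injective h4).symm
      · rw [Equiv.swap_apply_right] at h4; exact hab (σ.injective h4)
    rw [pair_comp]
    rcases e a (Or.inl rfl) with ha | ha <;> rcases e b (Or.inr rfl) with hb | hb
    · exact absurd (σ.injective (ha.trans hb.symm)) hab
    · rw [ha, hb]
    · rw [ha, hb, pair_comm]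
    · exact absurd (σ.injective (ha.trans hb.symm)) hab

end Frame

namespace Setup

variable [Finite G] {S : Setup G ι t} {a b : ι} {ε : ZMod 2}

/-- A conjugate of `t` among the fixed vectors is one of the points. -/
theorem Std.orbit_vec (hS : S.Std) (h4 : 4 ≤ Fintype.card ι) (hab : a ≠ b) {w : ι → ZMod 2}
    (hw : w a = w b) (hc : IsConj t (S.frame.vec w)) : ∃ p : Pt a b, w = pt p.1 := by
  have h := (hS.conj_iff h4 1 w).1 (by rw [S.frame.vec_one]; exact hc)
  have h1 : pts (1 : ι → ZMod 2) = Finset.univ.erase none := by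
    ext p
    rw [pts, Finset.mem_filter, rep_one S.even]
    cases p <;> simp
  rw [h1, Finset.card_erase_of_mem (Finset.mem_univ _), Finset.card_univ, Fintype.card_option,
    Nat.add_sub_cancel] at h
  obtain ⟨p, hp⟩ := Finset.card_eq_one.1 (show ((Finset.univ : Finset (Option ι)) \ pts w).card = 1 by
    rw [Finset.card_sdiff_of_subset (Finset.subset_univ _), Finset.card_univ, Fintype.card_option, ← h]
    omega)
  have hrep : rep w = fun q => if q = p then 0 else 1 := funext fun q => by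
    by_cases hq : q = p
    · rw [if_pos hq]
      refine zmod2_ne_one fun e => ?_
      have hm : q ∈ (Finset.univ : Finset (Option ι)) \ pts w := by rw [hp, hq]; simp
      exact (Finset.mem_sdiff.1 hm).2 (Finset.mem_filter.2 ⟨Finset.mem_univ _, e⟩)
    · rw [if_neg hq]
      by_contra e
      exact hq (Finset.mem_singleton.1 (hp ▸ Finset.mem_sdiff.2
        ⟨Finset.mem_univ _, fun h' => e (Finset.mem_filter.1 h').2⟩))
  have hcomb : comb (rep w) = pt p := by rw [hrep, comb_compl S.even]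
  refine ⟨⟨p, ?_, ?_⟩, ?_⟩
  · rintro rfl
    have ha := congrFun hrep (some a)
    have hb := congrFun hrep (some b)
    rw [if_pos rfl] at ha
    rw [if_neg (by simpa using hab.symm)] at hb
    simp only [rep] at ha hb
    rw [hw, hb] at ha
    exact one_ne_zero ha
  · rintro rfl
    have ha := congrFun hrep (some a)
    have hb := congrFun hrep (some b)
    rw [if_neg (by simpa using hab)] at ha
    rw [if_pos rfl] at hb
    simp only [rep] at ha hb
    rw [hw, hb] at ha
    exact zero_ne_one ha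
  · exact (comb_rep w).symm.trans hcomb

/-- Conjugates of `t` under the normaliser of the block group. -/
def InOrb (S : Setup G ι t) (a b : ι) (x : G) : Prop :=
  ∃ g, cj g (S.frame.B a b) = S.frame.B a b ∧ g * t * g⁻¹ = x

variable (hab : a ≠ b)

theorem InOrb.self : S.InOrb a b t := ⟨1, cj_one _, by group⟩

theorem InOrb.step {x h : G} (hx : S.InOrb a b x) (hh : cj h (S.frame.B a b) = S.frame.B a b) :
    S.InOrb a b (h * x * h⁻¹) := by
  obtain ⟨g, hg, rfl⟩ := hx
  exact ⟨h * g, nrmB_mul hh hg, by group⟩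

theorem InOrb.mem {x : G} (hx : S.InOrb a b x) : x ∈ S.frame.B a b := by
  obtain ⟨g, hg, rfl⟩ := hx
  exact hg ▸ conj_mem_cj (S.frame.t_mem_blk _ _)

theorem InOrb.isConj {x : G} (hx : S.InOrb a b x) : IsConj t x := by
  obtain ⟨g, -, e⟩ := hx
  exact isConj_iff.2 ⟨g, e⟩

include hab

theorem toggle (c : Pt a b → ZMod 2) (δ : ZMod 2) :
    S.frame.vec (Pi.single a 1) * vS S a b ε c δ * (S.frame.vec (Pi.single a 1))⁻¹ = vS S a b ε c (δ + 1) := by
  have hc : S.frame.vec (Pi.single a 1) * S.frame.vec (cvec a b c + δ • pair a b) *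
      (S.frame.vec (Pi.single a 1))⁻¹ = S.frame.vec (cvec a b c + δ • pair a b) :=
    mul_inv_eq_iff_eq_mul.2 (S.frame.vec_commute_vec _ _).eq
  rw [vS, show ∀ x y h : G, h * (x * y) * h⁻¹ = h * x * h⁻¹ * (h * y * h⁻¹) from fun x y h => by group,
    hc, S.frame.tau_conj hab, S.frame.sel_comm (S.frame.vec_mem_B.2 (pair_ab hab)) |>.symm, vS,
    ← mul_assoc, ← S.frame.vec_add, add_smul, one_smul, add_assoc]

/-- Transporting a conjugate of `t` outside the base group by point transpositions. -/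
theorem InOrb.move (hsw : S.Swaps a b ε) {c : Pt a b → ZMod 2} {δ : ZMod 2}
    (hx : S.InOrb a b (vS S a b ε c δ)) {p q : Pt a b} :
    S.InOrb a b (vS S a b ε (c ∘ Equiv.swap p q) δ) := by
  by_cases hpq : p = q
  · subst hpq
    rw [Equiv.swap_self]
    exact hx
  obtain ⟨h, hh, hS'⟩ := hsw p q hpq
  have := hx.step (swap_tv_pt hab hpq hh hS').1
  rwa [vS, (swap_conj hab hh hS' c δ).2] at this

theorem InOrb.toggle' {c : Pt a b → ZMod 2} {δ : ZMod 2} (hx : S.InOrb a b (vS S a b ε c δ))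
    (δ' : ZMod 2) : S.InOrb a b (vS S a b ε c δ') := by
  rcases eq_or_ne δ δ' with rfl | h
  · exact hx
  have e : δ' = δ + 1 := (show ∀ x y : ZMod 2, x ≠ y → y = x + 1 by decide) δ δ' h
  rw [e, ← toggle hab]
  exact hx.step (tau_nrm hab)

/-- Every element of the block group has coordinates. -/
theorem coords {x : G} (hx : x ∈ S.frame.B a b) (ε : ZMod 2) :
    ∃ c δ, ∑ p, c p = 0 ∧
      (x = S.frame.vec (cvec a b c + δ • pair a b) ∨ x = vS S a b ε c δ) := by
  obtain ⟨w, hw, h⟩ := S.frame.mem_B hx ε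
  obtain ⟨c, hc, e⟩ := exists_cvec hab hw
  refine ⟨c, w a, hc, ?_⟩
  rw [vS, ← e]
  exact h

theorem vS_inj {c c' : Pt a b → ZMod 2} {δ δ' : ZMod 2} (hc : ∑ p, c p = 0) (hc' : ∑ p, c' p = 0)
    (h : vS S a b ε c δ = vS S a b ε c' δ') : c = c' ∧ δ = δ' :=
  coord_unique hab hc hc' (S.frame.vec_inj (mul_right_cancel h))

end Setup

end CfsgLib.AltCentralizer
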