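import Cfsg.Agent.AltCentralizer.Block

/-!
Coordinates in `blk (swap a b)` and the transvections coming from transpositions of points.
-/

set_option autoImplicit false

namespace CfsgLib.AltCentralizer

variable {G : Type*} [Group G] {ι : Type*} [Fintype ι] [DecidableEq ι] {t : G}

/-- The block group. -/
abbrev Frame.B (F : Frame G ι t) (a b : ι) : Subgroup G :=
  F.blk (Equiv.swap a b) (Equiv.swap_mul_self a b)

theorem comb_all (he : Even (Fintype.card ι)) : comb (fun _ : Option ι => (1 : ZMod 2)) = 0 := funext fun i => by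
  rw [comb, Finset.sum_const, Finset.card_univ, Fintype.card_option, nsmul_eq_mul, mul_one, Nat.cast_add,
    ZMod.natCast_eq_zero_iff_even.2 he, zero_add, Nat.cast_one, Pi.zero_apply]
  decide

theorem pair_eq_pt (a b : ι) : pair a b = pt (some a) + pt (some b) := by
  funext i
  simp only [pt, pair, Pi.add_apply, Pi.one_apply]
  have key : ∀ x y : ZMod 2, 1 + x + (1 + y) = x + y := by decide
  exact (key _ _).symm

theorem pair_eq_comb (a b : ι) :
    pair a b = comb (Pi.single (some a) 1 + Pi.single (some b) 1) := by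
  rw [comb_add, comb_single, comb_single, pair_eq_pt]

theorem rep_one (he : Even (Fintype.card ι)) :
    rep (1 : ι → ZMod 2) = fun p => if p = none then 0 else 1 := funext fun p => by
  cases p with
  | none =>
    simp only [rep, Pi.one_apply, Finset.sum_const, Finset.card_univ, nsmul_eq_mul, mul_one, if_true]
    exact ZMod.natCast_eq_zero_iff_even.2 he
  | some i => simp [rep]

theorem comb_compl (he : Even (Fintype.card ι)) (p : Option ι) :
    comb (fun q => if q = p then (0 : ZMod 2) else 1) = pt p := by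
  have h : (fun q => if q = p then (0 : ZMod 2) else 1) = (fun _ => 1) + Pi.single p 1 := funext fun q => by
    rw [Pi.add_apply]
    by_cases hq : q = p
    · rw [if_pos hq, hq, Pi.single_eq_same]; decide
    · rw [if_neg hq, Pi.single_eq_of_ne hq, add_zero]
  rw [h, comb_add, comb_all he, zero_add, comb_single]

theorem card_pt {a b : ι} (hab : a ≠ b) : Fintype.card (Pt a b) + 1 = Fintype.card ι := by
  have h4 : 2 ≤ Fintype.card ι := by
    have := Finset.card_le_univ ({a, b} : Finset ι)
    rwa [Finset.card_pair hab] at this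
  rw [Fintype.card_subtype,
    show (Finset.univ.filter fun p : Option ι => p ≠ some a ∧ p ≠ some b) =
      Finset.univ \ {some a, some b} by ext p; simp,
    Finset.card_sdiff_of_subset (Finset.subset_univ _), Finset.card_univ, Fintype.card_option,
    Finset.card_pair (by simpa using hab)]
  omega

theorem sum_ext {a b : ι} (c : Pt a b → ZMod 2) : ∑ p, ext a b c p = ∑ p, c p := by
  rw [← Finset.sum_filter_add_sum_filter_not Finset.univ (fun p : Option ι => p ≠ some a ∧ p ≠ some b),
    Finset.sum_eq_zero (s := Finset.univ.filter fun p : Option ι => ¬ (p ≠ some a ∧ p ≠ some b))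
      (fun p hp => by rw [ext, dif_neg (Finset.mem_filter.1 hp).2]), add_zero,
    Finset.sum_subtype (Finset.univ.filter fun p : Option ι => p ≠ some a ∧ p ≠ some b)
      (p := fun p => p ≠ some a ∧ p ≠ some b) (fun p => by simp)]
  exact Finset.sum_congr rfl fun p _ => ext_apply c p

theorem pair_ab {a b : ι} (hab : a ≠ b) : pair a b a = pair a b b := by
  rw [pair_apply_left hab, pair_comm, pair_apply_left hab.symm]

theorem fixed_add {a b : ι} (hab : a ≠ b) (c : Pt a b → ZMod 2) (δ : ZMod 2) :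
    (cvec a b c + δ • pair a b) a = (cvec a b c + δ • pair a b) b := by
  rw [Pi.add_apply, Pi.add_apply, cvec_apply_ab, Pi.smul_apply, Pi.smul_apply, pair_ab hab]

theorem coord_unique {a b : ι} (hab : a ≠ b) {c c' : Pt a b → ZMod 2} {δ δ' : ZMod 2}
    (hc : ∑ p, c p = 0) (hc' : ∑ p, c' p = 0)
    (h : cvec a b c + δ • pair a b = cvec a b c' + δ' • pair a b) : c = c' ∧ δ = δ' := by
  have hval : ∀ (c : Pt a b → ZMod 2) (δ : ZMod 2), ∑ p, c p = 0 →
      (cvec a b c + δ • pair a b) a = δ := fun c δ hc => by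
    rw [Pi.add_apply, Pi.smul_apply, pair_apply_left hab, smul_eq_mul, mul_one, cvec, comb, sum_ext, hc,
      zero_add, ext, dif_neg (by simp), zero_add]
  have hδ : δ = δ' := by rw [← hval c δ hc, h, hval c' δ' hc']
  subst hδ
  exact ⟨cvec_injective (add_right_cancel h), rfl⟩

namespace Frame

variable (F : Frame G ι t) {a b : ι} {ε : ZMod 2}

theorem sel_mem : sel F a b ε ∈ F.B a b := by
  refine el_mem_blk.2 ⟨swap_fix_iff.2 ?_, InBlk.refl _⟩
  rw [Pi.smul_apply, Pi.smul_apply, oneR_a, oneR_b]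

theorem sel_sq : sel F a b ε * sel F a b ε = 1 := blk_sq _ F.sel_mem

theorem vec_mem_B {w : ι → ZMod 2} : F.vec w ∈ F.B a b ↔ w a = w b := vec_mem_blk.trans swap_fix_iff

theorem sel_comm {x : G} (hx : x ∈ F.B a b) : x * sel F a b ε = sel F a b ε * x :=
  blk_comm _ hx _ F.sel_mem

/-- The two kinds of elements of the block group. -/
theorem mem_B {x : G} (hx : x ∈ F.B a b) (ε : ZMod 2) :
    ∃ w, w a = w b ∧ (x = F.vec w ∨ x = F.vec w * sel F a b ε) := by
  obtain ⟨w, p, hw, hp, rfl⟩ := hx
  rcases inBlk_swap hp with rfl | rfl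
  · exact ⟨w, swap_fix_iff.1 hw, Or.inl (F.el_vec w)⟩
  · refine ⟨w + ε • oneR a b, ?_, Or.inr ?_⟩
    · rw [Pi.add_apply, Pi.add_apply, Pi.smul_apply, Pi.smul_apply, oneR_a, oneR_b, swap_fix_iff.1 hw]
    · rw [sel, ← F.el_vec, F.el_mul, one_mul]
      congr 1
      rw [show (ε • oneR a b) ∘ (1 : Equiv.Perm ι).symm = ε • oneR a b from rfl, add_assoc, zmod_add_self,
        add_zero]

theorem vec_ne_vec_mul_sel (hab : a ≠ b) {w w' : ι → ZMod 2} : F.vec w ≠ F.vec w' * sel F a b ε := by
  intro e
  rw [sel, ← F.el_vec, ← F.el_vec w', F.el_mul, one_mul] at e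
  exact hab (by
    have := congrFun (congrArg (⇑) (F.el_inj e).2) a
    rwa [Equiv.Perm.one_apply, Equiv.swap_apply_left] at this)

theorem vec_commute_vec (u w : ι → ZMod 2) : Commute (F.vec u) (F.vec w) := by
  show F.vec u * F.vec w = _
  rw [← F.vec_add, ← F.vec_add, add_comm]

/-- The transvection `vec (e a)`. -/
theorem tau_conj (hab : a ≠ b) :
    F.vec (Pi.single a 1) * sel F a b ε * (F.vec (Pi.single a 1))⁻¹ = sel F a b ε * F.vec (pair a b) := by
  rw [sel, ← F.el_vec, ← F.el_vec (pair a b), F.conj_el, F.el_mul]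
  simp only [one_mul, inv_one, mul_one, Equiv.symm_swap]
  congr 1
  rw [comp_swap (pair_ab hab), show (ε • oneR a b) ∘ (1 : Equiv.Perm ι).symm = ε • oneR a b from rfl,
    pair, add_comm (Pi.single a 1 : ι → ZMod 2) (ε • oneR a b), add_assoc]
  congr 2
  funext i
  rw [Function.comp_apply]
  by_cases h1 : i = a
  · rw [h1, Equiv.swap_apply_left, Pi.single_eq_of_ne hab.symm, Pi.single_eq_of_ne hab]
  by_cases h2 : i = b
  · rw [h2, Equiv.swap_apply_right, Pi.single_eq_same, Pi.single_eq_same]
  rw [Equiv.swap_apply_of_ne_of_ne h1 h2, Pi.single_eq_of_ne h1, Pi.single_eq_of_ne h2]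

end Frame

namespace Setup

variable [Finite G] {S : Setup G ι t} {a b : ι} {ε : ZMod 2}

theorem L_pair {h : G} {p q : Pt a b} (hh : S.Acts h (Equiv.swap p.1 q.1)) :
    S.frame.L h (pair a b) = pair a b := by
  rw [pair_eq_pt, hh.1.L_add, hh.2, hh.2, Equiv.swap_apply_of_ne_of_ne p.2.1.symm q.2.1.symm,
    Equiv.swap_apply_of_ne_of_ne p.2.2.symm q.2.2.symm]

theorem L_cvec {h : G} {p q : Pt a b} (hh : S.Acts h (Equiv.swap p.1 q.1)) (c : Pt a b → ZMod 2) :
    S.frame.L h (cvec a b c) = cvec a b (c ∘ Equiv.swap p q) := by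
  rw [cvec, hh.L_comb, cvec, Equiv.symm_swap]
  congr 1
  funext r
  rw [Function.comp_apply]
  by_cases hr : r ≠ some a ∧ r ≠ some b
  · by_cases h1 : r = p.1
    · subst h1
      rw [Equiv.swap_apply_left, ext_apply, ext_apply, Function.comp_apply, Equiv.swap_apply_left]
    by_cases h2 : r = q.1
    · subst h2
      rw [Equiv.swap_apply_right, ext_apply, ext_apply, Function.comp_apply, Equiv.swap_apply_right]
    rw [Equiv.swap_apply_of_ne_of_ne h1 h2, ext, dif_pos hr, ext, dif_pos hr, Function.comp_apply,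
      Equiv.swap_apply_of_ne_of_ne (fun e => h1 (congrArg Subtype.val e))
        (fun e => h2 (congrArg Subtype.val e))]
  · have hout : ∀ s : Pt a b, r ≠ s.1 := fun s e => hr (e ▸ s.2)
    rw [Equiv.swap_apply_of_ne_of_ne (hout p) (hout q), ext, dif_neg hr, ext, dif_neg hr]

variable (hab : a ≠ b)

include hab

theorem swap_conj {h : G} {p q : Pt a b} (hh : S.Acts h (Equiv.swap p.1 q.1))
    (hS' : h * sel S.frame a b ε * h⁻¹ = sel S.frame a b ε) (c : Pt a b → ZMod 2) (δ : ZMod 2) :
    h * S.frame.vec (cvec a b c + δ • pair a b) * h⁻¹ =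
        S.frame.vec (cvec a b (c ∘ Equiv.swap p q) + δ • pair a b) ∧
      h * (S.frame.vec (cvec a b c + δ • pair a b) * sel S.frame a b ε) * h⁻¹ =
        S.frame.vec (cvec a b (c ∘ Equiv.swap p q) + δ • pair a b) * sel S.frame a b ε := by
  have h1 : h * S.frame.vec (cvec a b c + δ • pair a b) * h⁻¹ =
      S.frame.vec (cvec a b (c ∘ Equiv.swap p q) + δ • pair a b) := by
    rw [← hh.1.spec, hh.1.L_add, L_cvec hh]
    congr 2
    rcases zmod2_cases δ with rfl | rfl
    · rw [zero_smul, hh.1.L_zero]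
    · rw [one_smul, L_pair hh]
  refine ⟨h1, ?_⟩
  rw [show ∀ x : G, h * (x * sel S.frame a b ε) * h⁻¹ = h * x * h⁻¹ * (h * sel S.frame a b ε * h⁻¹) from
    fun x => by group, h1, hS']

theorem swap_tv_pt {h : G} {p q : Pt a b} (hpq : p ≠ q) (hh : S.Acts h (Equiv.swap p.1 q.1))
    (hS' : h * sel S.frame a b ε * h⁻¹ = sel S.frame a b ε) :
    cj h (S.frame.B a b) = S.frame.B a b ∧
      Tv (S.frame.B a b) h (S.frame.vec (cvec a b (pair p q))) := by
  have hcase : ∀ (c : Pt a b → ZMod 2), c ∘ Equiv.swap p q = c ∨ c ∘ Equiv.swap p q = c + pair p q := by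
    intro c
    rcases eq_or_ne (c p) (c q) with e | e
    · refine Or.inl (funext fun r => ?_)
      rw [Function.comp_apply]
      by_cases h1 : r = p
      · rw [h1, Equiv.swap_apply_left, e]
      by_cases h2 : r = q
      · rw [h2, Equiv.swap_apply_right, e]
      rw [Equiv.swap_apply_of_ne_of_ne h1 h2]
    · refine Or.inr (funext fun r => ?_)
      have hone : ∀ x y : ZMod 2, x ≠ y → x = y + 1 := by decide
      rw [Function.comp_apply, Pi.add_apply]
      by_cases h1 : r = p
      · rw [h1, Equiv.swap_apply_left, pair_apply_left hpq, hone _ _ e.symm]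
      by_cases h2 : r = q
      · rw [h2, Equiv.swap_apply_right, pair_comm, pair_apply_left hpq.symm, hone _ _ e]
      rw [Equiv.swap_apply_of_ne_of_ne h1 h2, pair_apply_of_ne h1 h2, add_zero]
  have hmove : ∀ x ∈ S.frame.B a b, h * x * h⁻¹ = x ∨
      h * x * h⁻¹ = x * S.frame.vec (cvec a b (pair p q)) := by
    intro x hx
    obtain ⟨w, hw, hx'⟩ := S.frame.mem_B hx ε
    obtain ⟨c, -, hc⟩ := exists_cvec hab hw
    obtain ⟨h1, h2⟩ := swap_conj hab hh hS' c (w a)
    rw [← hc] at h1 h2
    rcases hcase c with e | e <;> rw [e] at h1 h2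
    · rw [← hc] at h1 h2
      rcases hx' with rfl | rfl
      exacts [Or.inl h1, Or.inl h2]
    · rw [cvec_add, add_right_comm, ← hc, S.frame.vec_add] at h1 h2
      rcases hx' with rfl | rfl
      · exact Or.inr h1
      · refine Or.inr (h2.trans ?_)
        rw [mul_assoc (S.frame.vec w), mul_assoc (S.frame.vec w)]
        congr 1
        exact S.frame.sel_comm (S.frame.vec_mem_B.2 (cvec_apply_ab _))
  have hcm : S.frame.vec (cvec a b (pair p q)) ∈ S.frame.B a b :=
    S.frame.vec_mem_B.2 (cvec_apply_ab _)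
  have hsub : ∀ x ∈ S.frame.B a b, h * x * h⁻¹ ∈ S.frame.B a b := fun x hx => by
    rcases hmove x hx with e | e <;> rw [e]
    exacts [hx, mul_mem hx hcm]
  refine ⟨?_, hmove, hcm, S.frame.vec (cvec a b (Pi.single p 1)),
    S.frame.vec_mem_B.2 (cvec_apply_ab _), fun e => ?_⟩
  · refine Subgroup.eq_of_le_of_card_ge ?_ (card_cj h _).ge
    intro x hx
    rw [show x = h * (h⁻¹ * x * h) * h⁻¹ by group]
    exact hsub _ (mem_cj.1 hx)
  · rw [← hh.1.spec, L_cvec hh] at e
    have := congrFun (cvec_injective (S.frame.vec_inj e)) p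
    rw [Function.comp_apply, Equiv.swap_apply_left, Pi.single_eq_same,
      Pi.single_eq_of_ne hpq.symm] at this
    exact zero_ne_one this

omit hab in
theorem nrmB_mul {g h : G} (hg : cj g (S.frame.B a b) = S.frame.B a b)
    (hh : cj h (S.frame.B a b) = S.frame.B a b) : cj (g * h) (S.frame.B a b) = S.frame.B a b := by
  rw [cj_mul, hh, hg]

theorem tau_nrm :
    cj (S.frame.vec (Pi.single a 1)) (S.frame.B a b) = S.frame.B a b := by
  have ha : Equiv.swap a b a ≠ a := by rw [Equiv.swap_apply_left]; exact hab.symm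
  have hT := S.frame.block_tv (hθ := Equiv.swap_mul_self a b) ha
  refine Subgroup.eq_of_le_of_card_ge ?_ (card_cj _ _).ge
  intro x hx
  rw [show x = S.frame.vec (Pi.single a 1) * ((S.frame.vec (Pi.single a 1))⁻¹ * x * S.frame.vec (Pi.single a 1)) *
    (S.frame.vec (Pi.single a 1))⁻¹ by group]
  rcases hT.1 _ (mem_cj.1 hx) with e | e <;> rw [e]
  exacts [mem_cj.1 hx, mul_mem (mem_cj.1 hx) hT.2.1]

end Setup

end CfsgLib.AltCentralizer
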