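import Cfsg.Agent.AltCentralizer.Elementary

/-!
Transvections induced on the groups `blk θ` by the centraliser of `t`, and their centres.
-/

set_option autoImplicit false

namespace CfsgLib.AltCentralizer

variable {ι κ : Type*} {G : Type*} [Group G]

/-- `h` induces on `S` a transvection with centre `c`. -/
def Tv (S : Subgroup G) (h c : G) : Prop :=
  (∀ x ∈ S, h * x * h⁻¹ = x ∨ h * x * h⁻¹ = x * c) ∧ c ∈ S ∧ ∃ x ∈ S, h * x * h⁻¹ ≠ x

/-- `c` is the centre of a transvection of `S` induced by an element centralising `v`. -/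
def Ctr (S : Subgroup G) (v c : G) : Prop := ∃ h, Commute h v ∧ Tv S h c

/-- Conjugate subgroup. -/
def cj (g : G) (S : Subgroup G) : Subgroup G := S.map (MulAut.conj g).toMonoidHom

theorem mem_cj {g x : G} {S : Subgroup G} : x ∈ cj g S ↔ g⁻¹ * x * g ∈ S := by
  constructor
  · rintro ⟨y, hy, rfl⟩
    simpa [MulAut.conj_apply, mul_assoc] using hy
  · exact fun h => ⟨_, h, by simp [MulAut.conj_apply, mul_assoc]⟩

theorem cj_mul (g h : G) (S : Subgroup G) : cj (g * h) S = cj g (cj h S) := by
  ext x; rw [mem_cj, mem_cj, mem_cj]; simp [mul_assoc]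

theorem cj_one (S : Subgroup G) : cj (1 : G) S = S := by ext x; rw [mem_cj]; simp

theorem conj_mem_cj {g x : G} {S : Subgroup G} (h : x ∈ S) : g * x * g⁻¹ ∈ cj g S :=
  mem_cj.2 (by simpa [mul_assoc] using h)

theorem card_cj (g : G) (S : Subgroup G) : Nat.card (cj g S) = Nat.card S :=
  (Nat.card_congr (S.equivMapOfInjective _ (MulAut.conj g).injective).toEquiv).symm

theorem cj_inv_of_eq {g : G} {S : Subgroup G} (h : cj g S = S) : cj g⁻¹ S = S := by
  conv_lhs => rw [← h, ← cj_mul, inv_mul_cancel, cj_one]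

theorem Tv.conj {S : Subgroup G} {h c : G} (hT : Tv S h c) (g : G) :
    Tv (cj g S) (g * h * g⁻¹) (g * c * g⁻¹) := by
  have e : ∀ y, g * h * g⁻¹ * (g * y * g⁻¹) * (g * h * g⁻¹)⁻¹ = g * (h * y * h⁻¹) * g⁻¹ :=
    fun y => by group
  refine ⟨fun x hx => ?_, conj_mem_cj hT.2.1, ?_⟩
  · obtain ⟨y, hy, rfl⟩ : ∃ y ∈ S, x = g * y * g⁻¹ := ⟨_, mem_cj.1 hx, by group⟩
    rw [e]
    rcases hT.1 y hy with h' | h' <;> rw [h']
    · exact Or.inl rfl
    · exact Or.inr (by group)
  · obtain ⟨x, hx, hne⟩ := hT.2.2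
    refine ⟨_, conj_mem_cj (g := g) hx, ?_⟩
    rw [e]
    exact fun h' => hne (mul_left_cancel (mul_right_cancel h'))

theorem Ctr.conj {S : Subgroup G} {v c : G} (hC : Ctr S v c) (g : G) :
    Ctr (cj g S) (g * v * g⁻¹) (g * c * g⁻¹) := by
  obtain ⟨h, hv, hT⟩ := hC
  refine ⟨_, ?_, hT.conj g⟩
  show g * h * g⁻¹ * (g * v * g⁻¹) = g * v * g⁻¹ * (g * h * g⁻¹)
  calc _ = g * (h * v) * g⁻¹ := by group
    _ = g * (v * h) * g⁻¹ := by rw [hv.eq]
    _ = _ := by group

section Vectors

variable [DecidableEq ι]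

/-- The vector with ones at `a` and `b`. -/
def pair (a b : ι) : ι → ZMod 2 := Pi.single a 1 + Pi.single b 1

theorem pair_comm (a b : ι) : pair a b = pair b a := add_comm _ _

theorem pair_self (a : ι) : pair a a = 0 := funext fun _ => CharTwo.add_self_eq_zero _

theorem pair_add (a b c : ι) : pair a b + pair b c = pair a c := by
  funext i
  simp only [pair, Pi.add_apply]
  rw [add_assoc, ← add_assoc ((Pi.single b 1 : ι → ZMod 2) i), CharTwo.add_self_eq_zero, zero_add]

theorem pair_apply_left {a b : ι} (h : a ≠ b) : pair a b a = 1 := by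
  rw [pair, Pi.add_apply, Pi.single_eq_same, Pi.single_eq_of_ne h, add_zero]

theorem pair_apply_of_ne {a b i : ι} (ha : i ≠ a) (hb : i ≠ b) : pair a b i = 0 := by
  rw [pair, Pi.add_apply, Pi.single_eq_of_ne ha, Pi.single_eq_of_ne hb, add_zero]

theorem eq_or_eq_of_pair {a b i : ι} (h : pair a b i = 1) : i = a ∨ i = b := by
  by_contra hne
  push Not at hne
  rw [pair_apply_of_ne hne.1 hne.2] at h
  exact zero_ne_one h

/-- The vectors that occur as centres. -/
def IsC (θ : Equiv.Perm ι) (w : ι → ZMod 2) : Prop :=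
  ∃ a b, a ≠ b ∧ (θ a = b ∨ (θ a = a ∧ θ b = b)) ∧ w = pair a b

theorem IsC.comm {θ : Equiv.Perm ι} (hθ : θ * θ = 1) {a b : ι}
    (h : θ a = b ∨ (θ a = a ∧ θ b = b)) : θ b = a ∨ (θ b = b ∧ θ a = a) :=
  h.imp (fun e => by rw [← e, sq_apply hθ]) And.symm

/-- Centres forming a triangle are supported on the fixed points. -/
theorem IsC.supp_of_triangle {θ : Equiv.Perm ι} (hθ : θ * θ = 1) {w₁ w₂ : ι → ZMod 2} (h₁ : IsC θ w₁)
    (h₂ : IsC θ w₂) (h₃ : IsC θ (w₁ + w₂)) {i : ι} (hi : θ i ≠ i) : w₁ i = 0 := by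
  obtain ⟨a, b, hab, hab', rfl⟩ := h₁
  by_contra hne
  have hia : i = a ∨ i = b := eq_or_eq_of_pair ((Fin.eq_one_of_ne_zero _ hne : _))
  have hθab : θ a = b := hab'.resolve_right fun e => hia.elim (fun h => hi (h ▸ e.1)) fun h => hi (h ▸ e.2)
  have ha : θ a ≠ a := hθab ▸ hab.symm
  have hb : θ b ≠ b := by rw [← hθab, sq_apply hθ]; exact ha.symm
  obtain ⟨c, d, hcd, hcd', rfl⟩ := h₂
  obtain ⟨x, y, hxy, -, hsum⟩ := h₃
  have key : ∀ c d : ι, c ≠ d → (θ c = d ∨ (θ c = c ∧ θ d = d)) → pair a b + pair c d = pair x y →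
      c ≠ a ∧ c ≠ b := by
    intro c d hcd hcd' hs
    constructor <;> rintro rfl
    · have hd : d = b := (hcd'.resolve_right fun e => ha e.1).symm.trans hθab
      subst hd
      rw [zmod_pair_self] at hs
      exact one_ne_zero ((pair_apply_left hxy).symm.trans (congrFun hs x).symm)
    · have hd : d = a := (hcd'.resolve_right fun e => hb e.1).symm.trans (by rw [← hθab, sq_apply hθ])
      subst hd
      rw [pair_comm c, zmod_pair_self] at hs
      exact one_ne_zero ((pair_apply_left hxy).symm.trans (congrFun hs x).symm)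
  obtain ⟨hca, hcb⟩ := key c d hcd hcd' hsum
  obtain ⟨hda, hdb⟩ := key d c hcd.symm (IsC.comm hθ hcd') (by rwa [pair_comm d c])
  have e1 : pair x y a = 1 := by
    rw [← hsum, Pi.add_apply, pair_apply_left hab, pair_apply_of_ne hca.symm hda.symm, add_zero]
  have e2 : pair x y b = 1 := by
    rw [← hsum, Pi.add_apply, pair_comm a, pair_apply_left hab.symm, pair_apply_of_ne hcb.symm hdb.symm,
      add_zero]
  have e3 : pair x y c = 1 := by
    rw [← hsum, Pi.add_apply, pair_apply_left hcd, pair_apply_of_ne hca hcb, zero_add]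
  rcases eq_or_eq_of_pair e1 with h1 | h1 <;> rcases eq_or_eq_of_pair e2 with h2 | h2 <;>
    rcases eq_or_eq_of_pair e3 with h3 | h3
  all_goals first
    | exact hab (h1.trans h2.symm)
    | exact hca (h3.trans h1.symm)
    | exact hcb (h3.trans h2.symm)
where
  zmod_pair_self {a b : ι} : pair a b + pair a b = 0 := funext fun i => by
    rw [Pi.add_apply, CharTwo.add_self_eq_zero, Pi.zero_apply]

variable [Fintype ι]

/-- Vectors supported on fixed points with even weight. -/
def Target (θ : Equiv.Perm ι) : AddSubgroup (ι → ZMod 2) where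
  carrier := {w | (∀ i, θ i ≠ i → w i = 0) ∧ ∑ i, w i = 0}
  zero_mem' := ⟨fun _ _ => rfl, by simp⟩
  add_mem' := fun {u v} hu hv => ⟨fun i hi => by simp [hu.1 i hi, hv.1 i hi], by
    simp only [Pi.add_apply, Finset.sum_add_distrib, hu.2, hv.2, add_zero]⟩
  neg_mem' := fun {u} hu => ⟨fun i hi => by simp [hu.1 i hi], by simp [hu.2]⟩

theorem pair_sum (a b : ι) : ∑ i, pair a b i = 0 := by
  simp only [pair, Pi.add_apply, Finset.sum_add_distrib, Finset.sum_pi_single', Finset.mem_univ,
    if_true]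
  exact CharTwo.add_self_eq_zero 1

theorem IsC.mem_target_of_triangle {θ : Equiv.Perm ι} (hθ : θ * θ = 1) {w₁ w₂ : ι → ZMod 2}
    (h₁ : IsC θ w₁) (h₂ : IsC θ w₂) (h₃ : IsC θ (w₁ + w₂)) : w₁ ∈ Target θ := by
  refine ⟨fun i hi => h₁.supp_of_triangle hθ h₂ h₃ hi, ?_⟩
  obtain ⟨a, b, -, -, rfl⟩ := h₁
  exact pair_sum a b

theorem card_target (θ : Equiv.Perm ι) (hne : ∃ i, θ i = i) :
    Nat.card (Target θ) * 2 ≤ 2 ^ Nat.card {i // θ i = i} := by
  classical
  obtain ⟨r, hr⟩ := hne
  refine le_of_eq_of_le (show _ = Nat.card (Target θ × ZMod 2) by rw [Nat.card_prod, Nat.card_zmod]) ?_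
  rw [show 2 ^ Nat.card {i // θ i = i} = Nat.card ({i // θ i = i} → ZMod 2) by
    rw [Nat.card_fun, Nat.card_zmod]]
  refine Nat.card_le_card_of_injective
    (fun x : Target θ × ZMod 2 => fun i : {i // θ i = i} =>
      (x.1 : ι → ZMod 2) i.1 + (Pi.single r x.2 : ι → ZMod 2) i.1) ?_
  rintro ⟨⟨u, hu⟩, s⟩ ⟨⟨u', hu'⟩, s'⟩ e
  have hfun : u + Pi.single r s = u' + Pi.single r s' := funext fun i => by
    by_cases hi : θ i = i
    · exact congrFun e ⟨i, hi⟩
    · have hir : i ≠ r := fun h => hi (h ▸ hr)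
      simp [Pi.single_eq_of_ne hir, hu.1 i hi, hu'.1 i hi]
  have hs : s = s' := by
    have := congrArg (fun w : ι → ZMod 2 => ∑ i, w i) hfun
    simp only [Pi.add_apply, Finset.sum_add_distrib, hu.2, hu'.2, zero_add, Finset.sum_pi_single',
      Finset.mem_univ, if_true] at this
    exact this
  subst hs
  obtain rfl := add_right_cancel hfun
  rfl

theorem fixed_card_le {θ : Equiv.Perm ι} (hθ : θ * θ = 1) (h1 : θ ≠ 1) :
    Nat.card {i // θ i = i} + 2 ≤ Fintype.card ι := by
  classical
  obtain ⟨a, ha⟩ : ∃ a, θ a ≠ a := by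
    by_contra hh
    push Not at hh
    exact h1 (Equiv.ext hh)
  rw [Nat.card_eq_fintype_card, Fintype.card_subtype, ← Finset.card_pair ha.symm,
    ← Finset.card_union_of_disjoint]
  · exact Finset.card_le_univ _
  rw [Finset.disjoint_left]
  intro i hi hi'
  simp only [Finset.mem_filter, Finset.mem_univ, true_and] at hi
  simp only [Finset.mem_insert, Finset.mem_singleton] at hi'
  rcases hi' with rfl | rfl
  · exact ha hi
  · exact ha (θ.injective hi)

end Vectors

section Sides

variable [Fintype κ] [DecidableEq κ]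

/-- Vectors with even weight on both sides. -/
def Sides (A : κ → Prop) [DecidablePred A] : AddSubgroup (κ → ZMod 2) where
  carrier := {c | ∑ i ∈ Finset.univ.filter A, c i = 0 ∧ ∑ i ∈ Finset.univ.filter (fun i => ¬ A i), c i = 0}
  zero_mem' := ⟨by simp, by simp⟩
  add_mem' := fun {u v} hu hv => ⟨by simp [Finset.sum_add_distrib, hu.1, hv.1],
    by simp [Finset.sum_add_distrib, hu.2, hv.2]⟩
  neg_mem' := fun {u} hu => ⟨by simp [hu.1], by simp [hu.2]⟩

theorem mem_of_pairs (T : AddSubgroup (κ → ZMod 2)) (s : Finset κ)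
    (hT : ∀ p ∈ s, ∀ q ∈ s, p ≠ q → pair p q ∈ T) {c : κ → ZMod 2}
    (hsupp : ∀ i, i ∉ s → c i = 0) (hsum : ∑ i ∈ s, c i = 0) : c ∈ T := by
  classical
  rcases s.eq_empty_or_nonempty with rfl | ⟨a, ha⟩
  · rw [show c = 0 from funext fun i => hsupp i (Finset.notMem_empty i)]; exact T.zero_mem
  have e : c = ∑ i ∈ s, c i • pair i a := funext fun j => by
    rw [Finset.sum_apply]
    simp only [Pi.smul_apply, smul_eq_mul, pair, Pi.add_apply, mul_add, Finset.sum_add_distrib]
    rw [← Finset.sum_mul, hsum, zero_mul, add_zero]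
    by_cases hj : j ∈ s
    · rw [Finset.sum_eq_single_of_mem j hj fun i _ hi => by
        rw [Pi.single_eq_of_ne (Ne.symm hi), mul_zero], Pi.single_eq_same, mul_one]
    · rw [hsupp j hj, Finset.sum_eq_zero fun i hi => by
        rw [Pi.single_eq_of_ne (fun h : j = i => hj (h ▸ hi)), mul_zero]]
  rw [e]
  refine T.sum_mem fun i hi => ?_
  rcases eq_or_ne (c i) 0 with hc | hc
  · rw [hc, zero_smul]; exact T.zero_mem
  rw [show c i = 1 from Fin.eq_one_of_ne_zero _ hc, one_smul]
  by_cases hia : i = a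
  · rw [hia, pair_self]; exact T.zero_mem
  · exact hT i hi a ha hia

theorem sides_le (A : κ → Prop) [DecidablePred A] (T : AddSubgroup (κ → ZMod 2))
    (hA : ∀ p q, A p → A q → p ≠ q → pair p q ∈ T)
    (hB : ∀ p q, ¬ A p → ¬ A q → p ≠ q → pair p q ∈ T) : Sides A ≤ T := by
  intro c hc
  rw [show c = (fun i => if A i then c i else 0) + (fun i => if A i then 0 else c i) from
    funext fun i => by by_cases h : A i <;> simp [h]]
  refine T.add_mem ?_ ?_
  · refine mem_of_pairs T (Finset.univ.filter A)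
      (fun p hp q hq => hA p q (by simpa using hp) (by simpa using hq))
      (fun i hi => if_neg (by simpa using hi)) ?_
    rw [Finset.sum_congr rfl fun i hi => if_pos (by simpa using hi)]
    exact hc.1
  · refine mem_of_pairs T (Finset.univ.filter fun i => ¬ A i)
      (fun p hp q hq => hB p q (by simpa using hp) (by simpa using hq))
      (fun i hi => if_pos (by simpa using hi)) ?_
    rw [Finset.sum_congr rfl fun i hi => if_neg (by simpa using hi)]
    exact hc.2

theorem card_sides [Nonempty κ] (A : κ → Prop) [DecidablePred A] :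
    2 ^ Fintype.card κ ≤ Nat.card (Sides A) * 4 ∧
      ((∀ i, ¬ A i) → 2 ^ Fintype.card κ ≤ Nat.card (Sides A) * 2) := by
  classical
  obtain ⟨k⟩ := (inferInstance : Nonempty κ)
  have hcard : 2 ^ Fintype.card κ = Nat.card (κ → ZMod 2) := by
    rw [Nat.card_fun, Nat.card_zmod, Nat.card_eq_fintype_card]
  have h2 : Nat.card (ZMod 2) = 2 := Nat.card_zmod 2
  constructor
  · rw [hcard, show 4 = Nat.card (ZMod 2 × ZMod 2) by rw [Nat.card_prod, h2], ← Nat.card_prod]
    let a : κ := if h : ∃ i, A i then h.choose else k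
    let b : κ := if h : ∃ i, ¬ A i then h.choose else k
    refine Nat.card_le_card_of_injective (fun c =>
      (⟨c + Pi.single a (∑ i ∈ Finset.univ.filter A, c i) +
        Pi.single b (∑ i ∈ Finset.univ.filter (fun i => ¬ A i), c i), ?_⟩,
        (∑ i ∈ Finset.univ.filter A, c i, ∑ i ∈ Finset.univ.filter (fun i => ¬ A i), c i))) ?_
    · have hA : (∀ i, ¬ A i) → Finset.univ.filter A = ∅ := fun h =>
        Finset.filter_eq_empty_iff.2 fun i _ => h i
      have hB : (∀ i, A i) → (Finset.univ.filter fun i => ¬ A i) = ∅ := fun h =>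
        Finset.filter_eq_empty_iff.2 fun i _ => not_not.2 (h i)
      constructor
      · by_cases h : ∃ i, A i
        · have ha : A a := by simp only [a, dif_pos h]; exact h.choose_spec
          simp only [Pi.add_apply, Finset.sum_add_distrib, Finset.sum_pi_single', Finset.mem_filter,
            Finset.mem_univ, true_and, if_pos ha, CharTwo.add_self_eq_zero, zero_add]
          split_ifs with hb
          · by_cases h' : ∃ i, ¬ A i
            · exact absurd hb (by simp only [b, dif_pos h']; exact h'.choose_spec)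
            · push Not at h'; rw [hB h', Finset.sum_empty]
          · rfl
        · push Not at h
          rw [hA h, Finset.sum_empty]
      · by_cases h : ∃ i, ¬ A i
        · have hb : ¬ A b := by simp only [b, dif_pos h]; exact h.choose_spec
          simp only [Pi.add_apply, Finset.sum_add_distrib, Finset.sum_pi_single', Finset.mem_filter,
            Finset.mem_univ, true_and, if_pos hb]
          rw [add_right_comm, CharTwo.add_self_eq_zero, zero_add]
          split_ifs with ha
          · rfl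
          · by_cases h' : ∃ i, A i
            · exact absurd (by simp only [a, dif_pos h']; exact h'.choose_spec) ha
            · push Not at h'; rw [hA h', Finset.sum_empty]
        · push Not at h
          rw [hB h, Finset.sum_empty]
    · intro c c' e
      obtain ⟨e1, e2⟩ := Prod.mk.injEq .. |>.mp e
      obtain ⟨e3, e4⟩ := Prod.mk.injEq .. |>.mp e2
      have := congrArg Subtype.val e1
      simp only [e3, e4] at this
      exact add_right_cancel (add_right_cancel this)
  · intro hnone
    have hA : Finset.univ.filter A = ∅ := Finset.filter_eq_empty_iff.2 fun i _ => hnone i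
    have hall : (Finset.univ.filter fun i => ¬ A i) = Finset.univ :=
      Finset.filter_eq_self.2 fun i _ => hnone i
    rw [hcard]
    refine le_of_le_of_eq (?_ : _ ≤ Nat.card (Sides A × ZMod 2)) (by rw [Nat.card_prod, h2])
    refine Nat.card_le_card_of_injective (fun c => (⟨c + Pi.single k (∑ i, c i), ?_⟩, ∑ i, c i)) ?_
    · refine ⟨by rw [hA, Finset.sum_empty], ?_⟩
      rw [hall]
      simp only [Pi.add_apply, Finset.sum_add_distrib, Finset.sum_pi_single', Finset.mem_univ,
        if_true, CharTwo.add_self_eq_zero]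
    · intro c c' e
      obtain ⟨e1, e2⟩ := Prod.mk.injEq .. |>.mp e
      have := congrArg Subtype.val e1
      simp only [e2] at this
      exact add_right_cancel this

variable [Fintype ι] [DecidableEq ι] {t : G} (F : Frame G ι t)

/-- The preimage of the target under a homomorphism to `G`. -/
def pullT (θ : Equiv.Perm ι) (Φ : (κ → ZMod 2) →+ Additive G) : AddSubgroup (κ → ZMod 2) where
  carrier := {c | ∃ w ∈ Target θ, Φ c = Additive.ofMul (F.vec w)}
  zero_mem' := ⟨0, (Target θ).zero_mem, by rw [map_zero, F.vec_zero]; rfl⟩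
  add_mem' := by
    rintro u v ⟨w, hw, hu⟩ ⟨w', hw', hv⟩
    exact ⟨w + w', add_mem hw hw', by rw [map_add, hu, hv, F.vec_add]; rfl⟩
  neg_mem' := by
    rintro u ⟨w, hw, hu⟩
    refine ⟨w, hw, ?_⟩
    rw [show -u = u from neg_eq_of_add_eq_zero_left (funext fun i => CharTwo.add_self_eq_zero _), hu]

variable {F}

/-- A side with at least three points is mapped into the target. -/
theorem pair_mem_pullT {θ : Equiv.Perm ι} (hθ : θ * θ = 1) {Φ : (κ → ZMod 2) →+ Additive G}
    {A : κ → Prop}
    (hC : ∀ p q, A p → A q → p ≠ q → ∃ w, IsC θ w ∧ Φ (pair p q) = Additive.ofMul (F.vec w))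
    {p q r : κ} (hp : A p) (hq : A q) (hr : A r) (hpq : p ≠ q) (hpr : p ≠ r) (hqr : q ≠ r) :
    pair p q ∈ pullT F θ Φ := by
  obtain ⟨w, hw, e⟩ := hC p q hp hq hpq
  obtain ⟨w', hw', e'⟩ := hC q r hq hr hqr
  obtain ⟨w'', hw'', e''⟩ := hC p r hp hr hpr
  have h : w'' = w + w' := by
    apply F.vec_inj
    apply Additive.ofMul.injective
    rw [← e'', ← pair_add p q r, map_add, e, e', F.vec_add]
    rfl
  exact ⟨w, hw.mem_target_of_triangle hθ hw' (h ▸ hw''), e⟩

theorem card_le_target {θ : Equiv.Perm ι} {Φ : (κ → ZMod 2) →+ Additive G}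
    (hinj : Function.Injective Φ) {X : AddSubgroup (κ → ZMod 2)} (hX : X ≤ pullT F θ Φ) :
    Nat.card X ≤ Nat.card (Target θ) := by
  classical
  choose wf hwf hwe using fun x : X => hX x.2
  refine Nat.card_le_card_of_injective (fun x => (⟨wf x, hwf x⟩ : Target θ)) fun x y e => ?_
  refine Subtype.ext (hinj ?_)
  rw [hwe, hwe, show wf x = wf y from congrArg Subtype.val e]

end Sides

namespace Frame

variable [Fintype ι] [DecidableEq ι] {t : G} (F : Frame G ι t)

theorem conj_el (v w : ι → ZMod 2) (σ p : Equiv.Perm ι) :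
    F.el v σ * F.el w p * (F.el v σ)⁻¹ =
      F.el (v + w ∘ σ.symm + v ∘ (σ * p * σ⁻¹).symm) (σ * p * σ⁻¹) := by
  rw [F.el_inv, F.el_mul, F.el_mul]
  congr 1

theorem swap_tv {θ : Equiv.Perm ι} {hθ : θ * θ = 1} {a b : ι} (hab : a ≠ b) (ha : θ a = a)
    (hb : θ b = b) : Tv (F.blk θ hθ) (F.lift (Equiv.swap a b)) (F.vec (pair a b)) := by
  have hpairfix : ∀ i, pair a b (θ i) = pair a b i := fun i => by
    by_cases h1 : i = a
    · rw [h1, ha]
    by_cases h2 : i = b
    · rw [h2, hb]
    rw [pair_apply_of_ne h1 h2, pair_apply_of_ne (fun e => h1 (θ.injective (e.trans ha.symm)))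
      fun e => h2 (θ.injective (e.trans hb.symm))]
  refine ⟨?_, vec_mem_blk.2 hpairfix, F.vec (Pi.single a 1), vec_mem_blk.2 fun i => ?_, fun e => ?_⟩
  · rintro _ ⟨w, p, hw, hp, rfl⟩
    have hpa : ∀ i, θ i = i → p i = i := fun i hi => (hp i).elim id fun e => e.trans hi
    have hcomm : Equiv.swap a b * p * (Equiv.swap a b)⁻¹ = p := by
      rw [mul_inv_eq_iff_eq_mul]
      refine Equiv.ext fun i => ?_
      rw [Equiv.Perm.mul_apply, Equiv.Perm.mul_apply]
      by_cases h1 : i = a
      · rw [h1, hpa a ha, Equiv.swap_apply_left, hpa b hb]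
      by_cases h2 : i = b
      · rw [h2, hpa b hb, Equiv.swap_apply_right, hpa a ha]
      rw [Equiv.swap_apply_of_ne_of_ne h1 h2, Equiv.swap_apply_of_ne_of_ne
        (fun e => h1 (p.injective (e.trans (hpa a ha).symm)))
        fun e => h2 (p.injective (e.trans (hpa b hb).symm))]
    rw [← F.el_lift, F.conj_el, hcomm, ← F.el_vec (pair a b), F.el_mul, mul_one, zero_add,
      Pi.zero_comp, add_zero, Equiv.symm_swap, fix_blk (by
        intro i; exact hpairfix i) hp]
    rcases eq_or_ne (w a) (w b) with h | h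
    · left
      congr 1
      funext i
      rw [Function.comp_apply]
      by_cases h1 : i = a
      · rw [h1, Equiv.swap_apply_left, h]
      by_cases h2 : i = b
      · rw [h2, Equiv.swap_apply_right, h]
      rw [Equiv.swap_apply_of_ne_of_ne h1 h2]
    · right
      have hone : ∀ x y : ZMod 2, x ≠ y → x = y + 1 := by decide
      congr 1
      funext i
      rw [Function.comp_apply, Pi.add_apply]
      by_cases h1 : i = a
      · rw [h1, Equiv.swap_apply_left, pair_apply_left hab, hone _ _ h.symm]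
      by_cases h2 : i = b
      · rw [h2, Equiv.swap_apply_right, pair_comm, pair_apply_left hab.symm, hone _ _ h]
      rw [Equiv.swap_apply_of_ne_of_ne h1 h2, pair_apply_of_ne h1 h2, add_zero]
  · by_cases h : i = a
    · rw [h, ha]
    rw [Pi.single_eq_of_ne h, Pi.single_eq_of_ne fun e => h (θ.injective (e.trans ha.symm))]
  · rw [← F.el_lift, F.conj_vec] at e
    have := congrFun (F.vec_inj e) b
    rw [Function.comp_apply, Equiv.symm_swap, Equiv.swap_apply_right, Pi.single_eq_same,
      Pi.single_eq_of_ne hab.symm] at this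
    exact one_ne_zero this

theorem block_tv {θ : Equiv.Perm ι} {hθ : θ * θ = 1} {a : ι} (ha : θ a ≠ a) :
    Tv (F.blk θ hθ) (F.vec (Pi.single a 1)) (F.vec (pair a (θ a))) := by
  have hfix : ∀ i, pair a (θ a) (θ i) = pair a (θ a) i := fun i => by
    by_cases h1 : i = a
    · rw [h1, pair_apply_left ha.symm, pair_comm, pair_apply_left ha]
    by_cases h2 : i = θ a
    · rw [h2, sq_apply hθ, pair_apply_left ha.symm, pair_comm, pair_apply_left ha]
    rw [pair_apply_of_ne h1 h2, pair_apply_of_ne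
      (fun e => h2 (by rw [← e, sq_apply hθ])) fun e => h1 (θ.injective e)]
  refine ⟨?_, vec_mem_blk.2 hfix, F.el 0 θ, el_mem_blk.2 ⟨fun _ => rfl, InBlk.refl θ⟩, fun e => ?_⟩
  · rintro _ ⟨w, p, hw, hp, rfl⟩
    rw [← F.el_vec, F.conj_el, ← F.el_vec (pair a (θ a)), F.el_mul, fix_blk hfix hp]
    simp only [one_mul, inv_one, mul_one]
    have e1 : Pi.single a (1 : ZMod 2) + w ∘ (1 : Equiv.Perm ι).symm + Pi.single a 1 ∘ p.symm =
        w + (Pi.single a 1 + Pi.single a 1 ∘ p.symm) := by
      rw [show w ∘ (1 : Equiv.Perm ι).symm = w from rfl]; abel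
    rw [e1]
    rcases hp a with h | h
    · left
      rw [show Pi.single a (1 : ZMod 2) ∘ p.symm = Pi.single a 1 from funext fun i => by
        by_cases h1 : i = a
        · rw [h1, Function.comp_apply, p.symm_apply_eq.2 h.symm]
        · rw [Function.comp_apply, Pi.single_eq_of_ne h1, Pi.single_eq_of_ne fun e => h1 (by
            rw [← h, ← e, Equiv.apply_symm_apply])], zmod_add_self, add_zero]
    · right
      rw [show Pi.single a (1 : ZMod 2) ∘ p.symm = Pi.single (θ a) 1 from funext fun i => by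
        by_cases h1 : i = θ a
        · rw [h1, Function.comp_apply, p.symm_apply_eq.2 h.symm, Pi.single_eq_same, Pi.single_eq_same]
        · rw [Function.comp_apply, Pi.single_eq_of_ne h1, Pi.single_eq_of_ne fun e => h1 (by
            rw [← h, ← e, Equiv.apply_symm_apply])]]
      rfl
  · rw [← F.el_vec, F.conj_el] at e
    simp only [one_mul, inv_one, mul_one] at e
    have := congrFun (F.el_inj e).1 a
    simp only [Pi.add_apply, Function.comp_apply, Pi.zero_apply, fix_symm hθ,
      Pi.single_eq_same, Pi.single_eq_of_ne ha, add_zero] at this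
    exact one_ne_zero this

theorem ctr_pair {θ : Equiv.Perm ι} {hθ : θ * θ = 1} {a b : ι} (hab : a ≠ b)
    (h : θ a = b ∨ (θ a = a ∧ θ b = b)) : Ctr (F.blk θ hθ) t (F.vec (pair a b)) := by
  rcases h with rfl | ⟨ha, hb⟩
  · exact ⟨_, F.commute_t_of_mem (F.vec_mem_Im _), F.block_tv hab.symm⟩
  · exact ⟨_, F.el_lift _ ▸ F.el_commute_t 0 _, F.swap_tv hab ha hb⟩

/-- The centres in `blk θ` for `t`. -/
theorem isC_of_ctr {θ : Equiv.Perm ι} {hθ : θ * θ = 1} {c : G} (hC : Ctr (F.blk θ hθ) t c) :
    ∃ w, IsC θ w ∧ c = F.vec w := by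
  obtain ⟨h, hht, hT, hcS, x₀, hx₀, hne⟩ := hC
  obtain ⟨o, ho, v, σ, rfl⟩ := F.cent_eq h hht
  obtain ⟨cw, cp, hcw, hcp, rfl⟩ := hcS
  have hact : ∀ w p, (∀ i, w (θ i) = w i) → InBlk θ p →
      F.el (v + w ∘ σ.symm + v ∘ (σ * p * σ⁻¹).symm) (σ * p * σ⁻¹) = F.el w p ∨
      F.el (v + w ∘ σ.symm + v ∘ (σ * p * σ⁻¹).symm) (σ * p * σ⁻¹) = F.el (w + cw) (p * cp) := by
    intro w p hw hp
    have hf : F.el w p ∈ F.blk θ hθ := el_mem_blk.2 ⟨hw, hp⟩
    have key : F.el w p * F.el cw cp = F.el (w + cw) (p * cp) := by rw [F.el_mul, fix_blk hcw hp]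
    have hmem : o * F.el v σ * F.el w p * (o * F.el v σ)⁻¹ ∈ F.Im := by
      rcases hT _ hf with e | e <;> rw [show o * (F.vec v * F.lift σ) = o * F.el v σ from rfl] at e <;>
        rw [e]
      · exact F.el_mem_Im w p
      · exact mul_mem (F.el_mem_Im w p) (F.el_mem_Im cw cp)
    rw [← F.conj_el, ← F.conj_eq ho v σ (F.el_mem_Im w p) hmem, ← key]
    exact hT _ hf
  -- the permutation part of the centre is trivial
  have hcp1 : cp = 1 := by
    by_contra hcp1
    have hfix : ∀ w, (∀ i, w (θ i) = w i) → w ∘ σ.symm = w := fun w hw => by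
      rcases hact w 1 hw (InBlk.one θ) with e | e
      · have e1 := (F.el_inj e).1
        rw [mul_one, mul_inv_cancel, show v ∘ (1 : Equiv.Perm ι).symm = v from rfl, add_comm v,
          add_assoc, zmod_add_self, add_zero] at e1
        exact e1
      · have e1 := (F.el_inj e).2
        rw [mul_one, mul_inv_cancel, one_mul] at e1
        exact absurd e1.symm hcp1
    have hσ : InBlk θ σ := fun i => by
      have h := congrFun (hfix (fun j => if j = i ∨ j = θ i then 1 else 0) fun j => by
        by_cases hj : j = i ∨ j = θ i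
        · rw [if_pos hj, if_pos (hj.symm.imp (fun e => by rw [e, sq_apply hθ]) fun e => by rw [e])]
        · rw [if_neg hj, if_neg fun e => hj (e.symm.imp (fun e => θ.injective e)
            fun e => by rw [← e, sq_apply hθ])]) (σ i)
      simp only [Function.comp_apply, Equiv.symm_apply_apply, true_or, if_true] at h
      by_contra hcon
      rw [if_neg hcon] at h
      exact one_ne_zero h
    obtain ⟨w, p, hw, hp, rfl⟩ := hx₀
    have hpc : σ * p * σ⁻¹ = p := by rw [hσ.comm hθ hp, mul_inv_cancel_right]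
    rcases hact w p hw hp with e | e
    · exact hne ((F.conj_eq ho v σ (F.el_mem_Im w p) (by
        rcases hT _ (el_mem_blk.2 ⟨hw, hp⟩) with e' | e' <;>
          rw [show o * (F.vec v * F.lift σ) = o * F.el v σ from rfl] at e' <;> rw [e']
        · exact F.el_mem_Im w p
        · exact mul_mem (F.el_mem_Im w p) (F.el_mem_Im cw cp))).trans ((F.conj_el v w σ p).trans e))
    · have := (F.el_inj e).2
      rw [hpc, eq_comm, mul_eq_left] at this
      exact hcp1 this
  subst hcp1
  simp only [mul_one] at hact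
  -- so `σ` commutes with every block permutation
  have hcom : ∀ p, InBlk θ p → σ * p * σ⁻¹ = p := fun p hp => by
    rcases hact 0 p (fun _ => rfl) hp with e | e <;> exact (F.el_inj e).2
  have hact' : ∀ w p, (∀ i, w (θ i) = w i) → InBlk θ p →
      v + w ∘ σ.symm + v ∘ p.symm = w ∨ v + w ∘ σ.symm + v ∘ p.symm = w + cw := fun w p hw hp => by
    rcases hact w p hw hp with e | e <;> rw [hcom p hp] at e
    exacts [Or.inl (F.el_inj e).1, Or.inr (F.el_inj e).1]
  have hθσ : ∀ i, σ (θ i) = θ (σ i) := fun i => by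
    have h := hcom θ (InBlk.refl θ)
    rw [mul_inv_eq_iff_eq_mul] at h
    exact congrFun (congrArg (⇑) h) i
  have hmoved : ∀ i, θ i ≠ i → σ i = i ∨ σ i = θ i := by
    intro i hi
    have hp : InBlk θ (Equiv.swap i (θ i)) := fun j => by
      by_cases h1 : j = i
      · exact Or.inr (by rw [h1, Equiv.swap_apply_left])
      by_cases h2 : j = θ i
      · exact Or.inr (by rw [h2, Equiv.swap_apply_right, sq_apply hθ])
      exact Or.inl (Equiv.swap_apply_of_ne_of_ne h1 h2)
    have h := hcom _ hp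
    rw [mul_inv_eq_iff_eq_mul] at h
    have h1 := congrFun (congrArg (⇑) h) i
    rw [Equiv.Perm.mul_apply, Equiv.Perm.mul_apply, Equiv.swap_apply_left] at h1
    by_contra hcon
    push Not at hcon
    rw [Equiv.swap_apply_of_ne_of_ne hcon.1 hcon.2] at h1
    exact hi (σ.injective h1)
  rw [F.el_vec]
  by_cases hA : ∃ a, θ a = a ∧ σ a ≠ a
  · obtain ⟨a, ha, hσa⟩ := hA
    have hb : θ (σ a) = σ a := by rw [← hθσ, ha]
    refine ⟨pair a (σ a), ⟨a, σ a, hσa.symm, Or.inr ⟨ha, hb⟩, rfl⟩, congrArg F.vec ?_⟩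
    have hw : ∀ i, (Pi.single a 1 : ι → ZMod 2) (θ i) = (Pi.single a 1 : ι → ZMod 2) i := fun i => by
      by_cases h : i = a
      · rw [h, ha]
      rw [Pi.single_eq_of_ne h, Pi.single_eq_of_ne fun e => h (θ.injective (e.trans ha.symm))]
    have hs : (Pi.single a 1 : ι → ZMod 2) ∘ σ.symm = Pi.single (σ a) 1 := funext fun i => by
      by_cases h : i = σ a
      · rw [h, Function.comp_apply, Equiv.symm_apply_apply, Pi.single_eq_same, Pi.single_eq_same]
      rw [Function.comp_apply, Pi.single_eq_of_ne h, Pi.single_eq_of_ne fun e => h (by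
        rw [← e, Equiv.apply_symm_apply])]
    rcases hact' _ 1 hw (InBlk.one θ) with e | e
    · rw [show v ∘ (1 : Equiv.Perm ι).symm = v from rfl, add_comm v, add_assoc, zmod_add_self,
        add_zero, hs] at e
      have := congrFun e a
      rw [Pi.single_eq_same, Pi.single_eq_of_ne hσa.symm] at this
      exact absurd this zero_ne_one
    · rw [show v ∘ (1 : Equiv.Perm ι).symm = v from rfl, add_comm v, add_assoc, zmod_add_self,
        add_zero, hs] at e
      rw [pair, e, ← add_assoc, zmod_add_self, zero_add]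
  push Not at hA
  have hσ : InBlk θ σ := fun i => by
    by_cases hi : θ i = i
    · exact Or.inl (hA i hi)
    · exact hmoved i hi
  have hv : ∃ i, v i ≠ v (θ i) := by
    by_contra hall
    push Not at hall
    obtain ⟨w, p, hw, hp, rfl⟩ := hx₀
    have hmem : o * F.el v σ * F.el w p * (o * F.el v σ)⁻¹ ∈ F.Im := by
      rcases hT _ (el_mem_blk.2 ⟨hw, hp⟩) with e' | e' <;>
        rw [show o * (F.vec v * F.lift σ) = o * F.el v σ from rfl] at e' <;> rw [e']
      · exact F.el_mem_Im w p
      · exact mul_mem (F.el_mem_Im w p) (F.el_mem_Im cw _)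
    refine hne ((F.conj_eq ho v σ (F.el_mem_Im w p) hmem).trans ((F.conj_el v w σ p).trans ?_))
    rw [hcom p hp, fix_blk hw hσ, fix_blk (fun i => (hall i).symm) hp]
    congr 1
    rw [add_comm v, add_assoc, zmod_add_self, add_zero]
  obtain ⟨i, hi⟩ := hv
  have hiθ : θ i ≠ i := fun e => hi (by rw [e])
  refine ⟨pair i (θ i), ⟨i, θ i, hiθ.symm, Or.inl rfl, rfl⟩, congrArg F.vec ?_⟩
  have hp : InBlk θ (Equiv.swap i (θ i)) := fun j => by
    by_cases h1 : j = i
    · exact Or.inr (by rw [h1, Equiv.swap_apply_left])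
    by_cases h2 : j = θ i
    · exact Or.inr (by rw [h2, Equiv.swap_apply_right, sq_apply hθ])
    exact Or.inl (Equiv.swap_apply_of_ne_of_ne h1 h2)
  have hone : ∀ x y : ZMod 2, x ≠ y → x + y = 1 := by decide
  have e : v + v ∘ (Equiv.swap i (θ i)).symm = pair i (θ i) := funext fun j => by
    rw [Pi.add_apply, Function.comp_apply, Equiv.symm_swap]
    by_cases h1 : j = i
    · rw [h1, Equiv.swap_apply_left, hone _ _ hi, pair_apply_left hiθ.symm]
    by_cases h2 : j = θ i
    · rw [h2, Equiv.swap_apply_right, hone _ _ hi.symm, pair_comm, pair_apply_left hiθ]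
    rw [Equiv.swap_apply_of_ne_of_ne h1 h2, pair_apply_of_ne h1 h2, CharTwo.add_self_eq_zero]
  rcases hact' 0 _ (fun _ => rfl) hp with e' | e'
  · rw [Pi.zero_comp, add_zero, e] at e'
    have := congrFun e' i
    rw [pair_apply_left hiθ.symm] at this
    exact absurd this one_ne_zero
  · rw [Pi.zero_comp, add_zero, zero_add, e] at e'
    exact e'.symm

end Frame

end CfsgLib.AltCentralizer
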