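import Cfsg.Agent.AltCentralizer.Frame

/-!
The elementary abelian subgroups of maximal order of the model.
-/

set_option autoImplicit false

namespace CfsgLib.AltCentralizer

variable {ι : Type*}

/-- `p` preserves every block `{i, θ i}`. -/
def InBlk (θ p : Equiv.Perm ι) : Prop := ∀ i, p i = i ∨ p i = θ i

theorem InBlk.refl (θ : Equiv.Perm ι) : InBlk θ θ := fun _ => Or.inr rfl

theorem InBlk.one (θ : Equiv.Perm ι) : InBlk θ 1 := fun _ => Or.inl rfl

theorem sq_apply {θ : Equiv.Perm ι} (hθ : θ * θ = 1) (i : ι) : θ (θ i) = i := by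
  rw [← Equiv.Perm.mul_apply, hθ, Equiv.Perm.one_apply]

theorem InBlk.comm_theta {θ p : Equiv.Perm ι} (hθ : θ * θ = 1) (hp : InBlk θ p) (i : ι) :
    p (θ i) = θ (p i) := by
  rcases hp i with h | h <;> rcases hp (θ i) with h' | h'
  · rw [h, h']
  · have e : p (θ i) = i := h'.trans (sq_apply hθ i)
    have : θ i = i := p.injective (e.trans h.symm)
    rw [h, e, this]
  · have : θ i = i := p.injective (h'.trans h.symm)
    rw [h', h, this, this]
  · rw [h, h']

theorem InBlk.mul {θ p q : Equiv.Perm ι} (hθ : θ * θ = 1) (hp : InBlk θ p) (hq : InBlk θ q) :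
    InBlk θ (p * q) := fun i => by
  rw [Equiv.Perm.mul_apply]
  rcases hq i with h | h <;> rw [h]
  · exact hp i
  · rcases hp (θ i) with h' | h'
    · exact Or.inr h'
    · exact Or.inl (h'.trans (sq_apply hθ i))

theorem InBlk.self_mul {θ p : Equiv.Perm ι} (hθ : θ * θ = 1) (hp : InBlk θ p) : p * p = 1 :=
  Equiv.ext fun i => by
    rw [Equiv.Perm.mul_apply, Equiv.Perm.one_apply]
    rcases hp i with h | h
    · rw [h, h]
    · rw [h, InBlk.comm_theta hθ hp i, h, sq_apply hθ]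

theorem InBlk.inv {θ p : Equiv.Perm ι} (hθ : θ * θ = 1) (hp : InBlk θ p) : InBlk θ p⁻¹ := by
  rwa [inv_eq_of_mul_eq_one_right (hp.self_mul hθ)]

theorem InBlk.comm {θ p q : Equiv.Perm ι} (hθ : θ * θ = 1) (hp : InBlk θ p) (hq : InBlk θ q) :
    p * q = q * p := Equiv.ext fun i => by
  rw [Equiv.Perm.mul_apply, Equiv.Perm.mul_apply]
  rcases hp i with h | h <;> rcases hq i with h' | h'
  · rw [h', h, h']
  · rw [h', h, InBlk.comm_theta hθ hp i, h, h']
  · rw [h', h, InBlk.comm_theta hθ hq i, h']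
  · rw [h', h, InBlk.comm_theta hθ hp i, InBlk.comm_theta hθ hq i, h', h]

theorem fix_symm {θ : Equiv.Perm ι} (hθ : θ * θ = 1) (i : ι) : θ.symm i = θ i :=
  θ.symm_apply_eq.2 (sq_apply hθ i).symm

theorem fix_blk {θ p : Equiv.Perm ι} {w : ι → ZMod 2} (hw : ∀ i, w (θ i) = w i) (hp : InBlk θ p) :
    w ∘ p.symm = w := funext fun i => by
  rw [Function.comp_apply]
  rcases hp (p.symm i) with h | h <;> rw [Equiv.apply_symm_apply] at h
  · rw [← h]
  · conv_rhs => rw [h, hw]

namespace Frame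

variable {G : Type*} [Group G] [Fintype ι] [DecidableEq ι] {t : G} (F : Frame G ι t)

/-- The elementary abelian group attached to an involutive permutation. -/
def blk (θ : Equiv.Perm ι) (hθ : θ * θ = 1) : Subgroup G where
  carrier := {g | ∃ w p, (∀ i, w (θ i) = w i) ∧ InBlk θ p ∧ g = F.el w p}
  one_mem' := ⟨0, 1, fun _ => rfl, InBlk.one θ, F.el_one.symm⟩
  mul_mem' := by
    rintro _ _ ⟨v, p, hv, hp, rfl⟩ ⟨w, q, hw, hq, rfl⟩
    refine ⟨v + w, p * q, fun i => ?_, hp.mul hθ hq, ?_⟩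
    · rw [Pi.add_apply, Pi.add_apply, hv, hw]
    · rw [F.el_mul, fix_blk hw hp]
  inv_mem' := by
    rintro _ ⟨v, p, hv, hp, rfl⟩
    refine ⟨v, p⁻¹, hv, hp.inv hθ, ?_⟩
    rw [F.el_inv]
    have h := fix_blk hv (hp.inv hθ)
    rw [show (p⁻¹ : Equiv.Perm ι).symm = p from rfl] at h
    rw [h]

variable {F} {θ : Equiv.Perm ι} {hθ : θ * θ = 1}

theorem blk_le_Im : F.blk θ hθ ≤ F.Im := by
  rintro _ ⟨w, p, -, -, rfl⟩; exact F.el_mem_Im w p

theorem el_mem_blk {w : ι → ZMod 2} {p : Equiv.Perm ι} :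
    F.el w p ∈ F.blk θ hθ ↔ (∀ i, w (θ i) = w i) ∧ InBlk θ p := by
  refine ⟨?_, fun h => ⟨w, p, h.1, h.2, rfl⟩⟩
  rintro ⟨v, q, hv, hq, h⟩
  obtain ⟨rfl, rfl⟩ := F.el_inj h
  exact ⟨hv, hq⟩

theorem vec_mem_blk {w : ι → ZMod 2} : F.vec w ∈ F.blk θ hθ ↔ ∀ i, w (θ i) = w i := by
  rw [← F.el_vec w, el_mem_blk]
  exact ⟨fun h => h.1, fun h => ⟨h, InBlk.one θ⟩⟩

theorem blk_comm : ∀ a ∈ F.blk θ hθ, ∀ b ∈ F.blk θ hθ, a * b = b * a := by
  rintro _ ⟨v, p, hv, hp, rfl⟩ _ ⟨w, q, hw, hq, rfl⟩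
  rw [F.el_mul, F.el_mul, fix_blk hw hp, fix_blk hv hq, add_comm, hp.comm hθ hq]

theorem blk_sq : ∀ a ∈ F.blk θ hθ, a * a = 1 := by
  rintro _ ⟨v, p, hv, hp, rfl⟩
  rw [F.el_mul, fix_blk hv hp, zmod_add_self, hp.self_mul hθ, F.el_one]

theorem blk_one : F.blk 1 (one_mul 1) = F.E := by
  ext g
  constructor
  · rintro ⟨w, p, -, hp, rfl⟩
    obtain rfl : p = 1 := Equiv.ext fun i => (hp i).elim id id
    rw [F.el_vec]; exact F.vec_mem_E w
  · rintro ⟨w, rfl⟩
    exact vec_mem_blk.2 fun i => rfl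

variable (F)

theorem card_E : Nat.card F.E = 2 ^ Fintype.card ι := by
  have h : Nat.card (Set.range F.vec) = Nat.card (ι → ZMod 2) :=
    Nat.card_range_of_injective fun a b => F.vec_inj
  rw [show Nat.card F.E = Nat.card (Set.range F.vec) from rfl, h, Nat.card_fun, Nat.card_zmod,
    Nat.card_eq_fintype_card]

theorem E_comm : ∀ a ∈ F.E, ∀ b ∈ F.E, a * b = b * a := by
  rintro _ ⟨v, rfl⟩ _ ⟨w, rfl⟩
  rw [← F.vec_add, ← F.vec_add, add_comm]

theorem E_sq : ∀ a ∈ F.E, a * a = 1 := by rintro _ ⟨v, rfl⟩; exact F.vec_mul_self v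

theorem t_mem_blk (θ : Equiv.Perm ι) (hθ : θ * θ = 1) : t ∈ F.blk θ hθ := by
  have h : F.vec 1 ∈ F.blk θ hθ := vec_mem_blk.2 fun _ => rfl
  rwa [F.vec_one] at h

end Frame

theorem two_mul_le_two_pow (a : ℕ) : 2 * a ≤ 2 ^ a ∧ (3 ≤ a → 2 * a < 2 ^ a) := by
  induction a with
  | zero => exact ⟨by simp, by omega⟩
  | succ a ih =>
    rcases (show a = 0 ∨ a = 1 ∨ a = 2 ∨ 3 ≤ a by omega) with rfl | rfl | rfl | h
    · simp
    · simp
    · norm_num
    · have := ih.2 h
      rw [pow_succ]; omega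

open MulAction in
/-- Maximal elementary abelian groups of permutations with their fixed vectors. -/
theorem exists_theta [Fintype ι] [DecidableEq ι] (P : Subgroup (Equiv.Perm ι))
    (hc : ∀ p ∈ P, ∀ q ∈ P, p * q = q * p) (V0 : Set (ι → ZMod 2))
    (hV0 : ∀ w ∈ V0, ∀ p ∈ P, ∀ i, w (p i) = w i)
    (hcard : 2 ^ Fintype.card ι ≤ Nat.card P * V0.ncard) :
    ∃ θ, θ * θ = 1 ∧ (∀ p, p ∈ P ↔ InBlk θ p) ∧ ∀ w, w ∈ V0 ↔ ∀ i, w (θ i) = w i := by
  classical
  haveI : Fintype (orbitRel.Quotient P ι) := Fintype.ofFinite _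
  set Q := orbitRel.Quotient P ι
  let mk : ι → Q := fun i => Quotient.mk'' i
  let a : Q → ℕ := fun q => (Finset.univ.filter fun i => mk i = q).card
  have hsum : ∑ q, a q = Fintype.card ι :=
    (Finset.card_eq_sum_card_fiberwise fun i _ => Finset.mem_univ (mk i)).symm
  have horb : ∀ {i j : ι}, mk i = mk j → ∃ p ∈ P, p j = i := fun {i j} h => by
    obtain ⟨g, hg⟩ := orbitRel_apply.1 (Quotient.exact' h)
    exact ⟨g, g.2, hg⟩
  have hmk : ∀ (p : P) (i : ι), mk ((p : Equiv.Perm ι) i) = mk i := fun p i =>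
    Quotient.sound' (orbitRel_apply.2 ⟨p, rfl⟩)
  have hout : ∀ i : ι, mk (mk i).out = mk i := fun i => Quotient.out_eq' _
  -- the value on representatives determines an element of `P`
  let f : P → ∀ q : Q, {i // mk i = q} := fun p q => ⟨(p : Equiv.Perm ι) q.out, by
    rw [hmk]; exact Quotient.out_eq' q⟩
  have hf : Function.Injective f := fun p p' h => Subtype.ext (Equiv.ext fun i => by
    obtain ⟨r, hr, hri⟩ := horb (hout i)
    have h1 : (p : Equiv.Perm ι) (mk i).out = (p' : Equiv.Perm ι) (mk i).out :=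
      congrArg Subtype.val (congrFun h (mk i))
    rw [← hri, ← Equiv.Perm.mul_apply, ← Equiv.Perm.mul_apply, hc p p.2 r hr, hc p' p'.2 r hr,
      Equiv.Perm.mul_apply, Equiv.Perm.mul_apply] at h1
    exact r.injective h1)
  have hcf : Fintype.card (∀ q : Q, {i // mk i = q}) = ∏ q, a q := by
    rw [Fintype.card_pi]
    exact Finset.prod_congr rfl fun q _ => Fintype.card_subtype _
  let lftq : (Q → ZMod 2) → (ι → ZMod 2) := fun u i => u (mk i)
  have hV : V0 ⊆ Set.range lftq := fun w hw => ⟨fun q => w q.out, funext fun i => by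
    obtain ⟨r, hr, hri⟩ := horb (hout i)
    show w (mk i).out = w i
    rw [← hri, hV0 w hw r hr]⟩
  have hlft : (Set.range lftq).ncard ≤ 2 ^ Fintype.card Q := by
    rw [← Nat.card_coe_set_eq]
    refine (Finite.card_range_le lftq).trans ?_
    rw [Nat.card_fun, Nat.card_zmod, Nat.card_eq_fintype_card]
  have hP : Nat.card P ≤ ∏ q, a q := by
    rw [← hcf, ← Nat.card_eq_fintype_card (α := ∀ q : Q, {i // mk i = q})]
    exact Nat.card_le_card_of_injective f hf
  have hVle : V0.ncard ≤ 2 ^ Fintype.card Q := (Set.ncard_le_ncard hV (Set.toFinite _)).trans hlft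
  have hprod : (∏ q, a q) * 2 ^ Fintype.card Q = ∏ q, 2 * a q := by
    rw [Finset.prod_mul_distrib, Finset.prod_const, Finset.card_univ, mul_comm]
  have htot : ∏ q, 2 ^ a q = 2 ^ Fintype.card ι := by rw [Finset.prod_pow_eq_pow_sum, hsum]
  have hapos : ∀ q, 0 < a q := fun q => Finset.card_pos.2 ⟨q.out, by
    simp only [Finset.mem_filter, Finset.mem_univ, true_and]; exact Quotient.out_eq' q⟩
  have hle : ∏ q, 2 * a q ≤ 2 ^ Fintype.card ι :=
    htot ▸ Finset.prod_le_prod' fun q _ => (two_mul_le_two_pow (a q)).1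
  have hPmul : Nat.card P * V0.ncard ≤ (∏ q, a q) * 2 ^ Fintype.card Q := Nat.mul_le_mul hP hVle
  have hsmall : ∀ q, a q ≤ 2 := fun q => by
    by_contra hq
    have : ∏ q, 2 * a q < ∏ q, 2 ^ a q := Finset.prod_lt_prod (fun q _ => by have := hapos q; omega)
      (fun q _ => (two_mul_le_two_pow (a q)).1)
      ⟨q, Finset.mem_univ q, (two_mul_le_two_pow (a q)).2 (by omega)⟩
    omega
  have hpos : 0 < ∏ q, a q := Finset.prod_pos fun q _ => hapos q
  have hV0pos : 0 < V0.ncard := by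
    by_contra h0
    rw [show V0.ncard = 0 by omega, mul_zero] at hcard
    have := Nat.two_pow_pos (Fintype.card ι)
    omega
  have hPeq : Nat.card P = ∏ q, a q := le_antisymm hP (by
    by_contra hlt
    have : Nat.card P * V0.ncard < (∏ q, a q) * 2 ^ Fintype.card Q :=
      Nat.mul_lt_mul_of_lt_of_le (not_le.1 hlt) hVle (Nat.two_pow_pos _)
    omega)
  have hsurj : Function.Surjective f := by
    haveI : Fintype P := Fintype.ofFinite _
    refine ((Fintype.bijective_iff_injective_and_card f).2 ⟨hf, ?_⟩).2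
    rw [hcf, ← hPeq, Nat.card_eq_fintype_card]
  have hoth : ∀ q : Q, ∃ j : {i // mk i = q}, ∀ i, mk i = q → i = q.out ∨ i = j := by
    intro q
    by_cases hone : ∀ i, mk i = q → i = q.out
    · exact ⟨⟨q.out, Quotient.out_eq' q⟩, fun i hi => Or.inl (hone i hi)⟩
    push Not at hone
    obtain ⟨j, hj, hjne⟩ := hone
    refine ⟨⟨j, hj⟩, fun i hi => ?_⟩
    by_contra hcon
    push Not at hcon
    have h3 : ({q.out, j, i} : Finset ι).card ≤ a q := Finset.card_le_card fun x hx => by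
      simp only [Finset.mem_insert, Finset.mem_singleton] at hx
      simp only [Finset.mem_filter, Finset.mem_univ, true_and]
      rcases hx with rfl | rfl | rfl
      exacts [Quotient.out_eq' q, hj, hi]
    rw [Finset.card_insert_of_notMem (by simp [hjne.symm, Ne.symm hcon.1]), Finset.card_pair
      (fun e => hcon.2 e.symm)] at h3
    have := hsmall q
    omega
  choose oth hoth using hoth
  obtain ⟨⟨θ, hθP⟩, hθ⟩ := hsurj oth
  have hθout : ∀ q : Q, θ q.out = oth q := fun q => congrArg Subtype.val (congrFun hθ q)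
  have hsq : ∀ i, θ i ≠ i → ∀ j, mk j = mk i → j = i ∨ j = θ i := by
    intro i hne j hj
    have hmi : mk (θ i) = mk i := hmk ⟨θ, hθP⟩ i
    rcases hoth (mk i) i rfl with e | e <;> rcases hoth (mk i) (θ i) hmi with e' | e' <;>
      rcases hoth (mk i) j hj with e'' | e''
    all_goals first
      | exact Or.inl (e''.trans e.symm)
      | exact Or.inr (e''.trans e'.symm)
      | exact absurd (e'.trans e.symm) hne
  have hfixed : ∀ i, θ i = i → ∀ j, mk j = mk i → j = i := by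
    intro i hi j hj
    obtain ⟨r, hr, hri⟩ := horb (hout i)
    have h1 : θ (mk i).out = (mk i).out := by
      rw [← hri, ← Equiv.Perm.mul_apply, hc θ hθP r hr, Equiv.Perm.mul_apply, hi]
    rw [hθout] at h1
    rcases hoth (mk i) j hj with e | e <;> rcases hoth (mk i) i rfl with e' | e'
    all_goals first
      | exact e.trans e'.symm
      | exact e.trans (h1.symm.trans e'.symm)
      | exact e.trans (h1.trans e'.symm)
  have hpθ : ∀ p ∈ P, InBlk θ p := fun p hp i => by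
    by_cases hi : θ i = i
    · exact Or.inl (hfixed i hi _ (hmk ⟨p, hp⟩ i))
    · exact hsq i hi _ (hmk ⟨p, hp⟩ i)
  have hθθ : θ * θ = 1 := Equiv.ext fun i => by
    rw [Equiv.Perm.mul_apply, Equiv.Perm.one_apply]
    by_cases hi : θ i = i
    · rw [hi, hi]
    · exact (hsq i hi _ ((hmk ⟨θ, hθP⟩ (θ i)).trans (hmk ⟨θ, hθP⟩ i))).resolve_right
        fun e => hi (θ.injective e)
  have hPiff : ∀ p, p ∈ P ↔ InBlk θ p := fun p => ⟨hpθ p, fun hp => by
    have hmkp : ∀ i, mk (p i) = mk i := fun i => by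
      rcases hp i with e | e <;> rw [e]
      exact hmk ⟨θ, hθP⟩ i
    obtain ⟨⟨p', hp'⟩, hpp⟩ := hsurj fun q => ⟨p q.out, by rw [hmkp]; exact Quotient.out_eq' q⟩
    suffices h : p' = p by rw [← h]; exact hp'
    ext i
    have h1 : p' (mk i).out = p (mk i).out := congrArg Subtype.val (congrFun hpp (mk i))
    obtain ⟨r, hr, hri⟩ := horb (hout i)
    rw [← hri, ← Equiv.Perm.mul_apply, ← Equiv.Perm.mul_apply, hc p' hp' r hr,
      InBlk.comm hθθ hp (hpθ r hr), Equiv.Perm.mul_apply, Equiv.Perm.mul_apply] at h1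
    exact r.injective h1⟩
  refine ⟨θ, hθθ, hPiff, fun w => ⟨fun hw i => hV0 w hw θ hθP i, fun hw => ?_⟩⟩
  have hVeq : V0 = Set.range lftq := by
    refine Set.eq_of_subset_of_ncard_le hV (hlft.trans ?_) (Set.toFinite _)
    by_contra hlt
    have : Nat.card P * V0.ncard < (∏ q, a q) * 2 ^ Fintype.card Q :=
      Nat.mul_lt_mul_of_le_of_lt hP (not_le.1 hlt) hpos
    omega
  rw [hVeq]
  refine ⟨fun q => w q.out, funext fun i => ?_⟩
  show w (mk i).out = w i
  by_cases hi : θ i = i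
  · rw [hfixed i hi _ (hout i)]
  · rcases hsq i hi _ (hout i) with e | e <;> rw [e]
    exact hw i

namespace Frame

variable {G : Type*} [Group G] [Fintype ι] [DecidableEq ι] {t : G} {F : Frame G ι t}

/-- Every elementary abelian subgroup of the model of order `2 ^ |ι|` is a `blk`. -/
theorem eq_blk {S : Subgroup G} (hS : S ≤ F.Im) (hc : ∀ a ∈ S, ∀ b ∈ S, a * b = b * a)
    (hsq : ∀ a ∈ S, a * a = 1) (hcard : Nat.card S = 2 ^ Fintype.card ι) :
    ∃ θ, ∃ hθ : θ * θ = 1, S = F.blk θ hθ := by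
  classical
  choose wf pf hwp using fun s : S => hS s.2
  let f : S →* Equiv.Perm ι := MonoidHom.mk' pf fun s s' => by
    have h := hwp (s * s')
    rw [Subgroup.coe_mul, hwp s, hwp s', F.el_mul] at h
    exact (F.el_inj h).2.symm
  have hfe : ∀ {v p} (h : F.el v p ∈ S), f ⟨_, h⟩ = p := fun {v p} h => (F.el_inj (hwp ⟨_, h⟩)).2.symm
  let P := f.range
  let V0 : Set (ι → ZMod 2) := {w | F.vec w ∈ S}
  have hPc : ∀ p ∈ P, ∀ q ∈ P, p * q = q * p := by
    rintro _ ⟨s, rfl⟩ _ ⟨s', rfl⟩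
    rw [← map_mul, ← map_mul]
    exact congrArg f (Subtype.ext (hc s s.2 s' s'.2))
  have hV0 : ∀ w ∈ V0, ∀ p ∈ P, ∀ i, w (p i) = w i := by
    rintro w hw _ ⟨s, rfl⟩ i
    have h := hc s s.2 _ hw
    rw [hwp s, ← F.el_vec w, F.el_mul, F.el_mul] at h
    have h1 := congrFun (F.el_inj h).1 (pf s i)
    simp only [Pi.add_apply, Function.comp_apply, Equiv.symm_apply_apply] at h1
    change w (pf s i) = w i
    change wf s (pf s i) + w i = w (pf s i) + wf s (pf s i) at h1
    rw [add_comm (w _)] at h1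
    exact (add_left_cancel h1).symm
  have hcard' : 2 ^ Fintype.card ι ≤ Nat.card P * V0.ncard := by
    rw [← hcard, ← f.ker.card_mul_index, Subgroup.index_ker, mul_comm]
    refine Nat.mul_le_mul le_rfl ?_
    rw [← Nat.card_coe_set_eq]
    refine Nat.card_le_card_of_injective (fun s : f.ker => (⟨wf s.1, ?_⟩ : V0)) fun s s' e => ?_
    · show F.vec (wf s.1) ∈ S
      have h := hwp s.1
      rw [show pf s.1 = 1 from MonoidHom.mem_ker.1 s.2, F.el_vec] at h
      exact h ▸ s.1.2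
    · refine Subtype.ext (Subtype.ext ?_)
      rw [hwp s.1, hwp s'.1, show pf s.1 = 1 from MonoidHom.mem_ker.1 s.2,
        show pf s'.1 = 1 from MonoidHom.mem_ker.1 s'.2, show wf s.1 = wf s'.1 from congrArg Subtype.val e]
  obtain ⟨θ, hθ, hP, hV⟩ := exists_theta P hPc V0 hV0 hcard'
  refine ⟨θ, hθ, le_antisymm ?_ ?_⟩
  · intro g hg
    obtain ⟨v, p, rfl⟩ := hS hg
    obtain ⟨⟨_, hs⟩, hθs⟩ := (hP θ).2 (InBlk.refl θ)
    obtain ⟨u, q, rfl⟩ := hS hs
    obtain rfl : q = θ := (hfe hs).symm.trans hθs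
    have hu : ∀ i, u (q i) = u i := fun i => by
      have h := hsq _ hs
      rw [F.el_mul] at h
      have h1 := congrFun (F.el_eq_one h).1 (q i)
      simp only [Pi.add_apply, Function.comp_apply, Equiv.symm_apply_apply, Pi.zero_apply] at h1
      exact CharTwo.add_eq_zero.1 h1
    have hp : InBlk q p := (hP p).1 ⟨⟨_, hg⟩, hfe hg⟩
    refine el_mem_blk.2 ⟨fun i => ?_, hp⟩
    have h := hc _ hg _ hs
    rw [F.el_mul, F.el_mul, fix_blk hu hp] at h
    have h1 := congrFun (F.el_inj h).1 (q i)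
    simp only [Pi.add_apply, Function.comp_apply, Equiv.symm_apply_apply] at h1
    rw [add_comm] at h1
    exact (add_left_cancel h1)
  · rintro _ ⟨w, p, hw, hp, rfl⟩
    obtain ⟨⟨_, hs⟩, hps⟩ := (hP p).2 hp
    obtain ⟨u, q, rfl⟩ := hS hs
    obtain rfl : q = p := (hfe hs).symm.trans hps
    have hu : ∀ i, u (θ i) = u i := by
      obtain ⟨⟨_, hs'⟩, hθs⟩ := (hP θ).2 (InBlk.refl θ)
      obtain ⟨z, q', rfl⟩ := hS hs'
      obtain rfl : q' = θ := (hfe hs').symm.trans hθs
      intro i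
      have hz : ∀ i, z (q' i) = z i := fun i => by
        have h := hsq _ hs'
        rw [F.el_mul] at h
        have h1 := congrFun (F.el_eq_one h).1 (q' i)
        simp only [Pi.add_apply, Function.comp_apply, Equiv.symm_apply_apply, Pi.zero_apply] at h1
        exact CharTwo.add_eq_zero.1 h1
      have h := hc _ hs _ hs'
      rw [F.el_mul, F.el_mul, fix_blk hz hp] at h
      have h1 := congrFun (F.el_inj h).1 (q' i)
      simp only [Pi.add_apply, Function.comp_apply, Equiv.symm_apply_apply] at h1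
      rw [add_comm] at h1
      exact (add_left_cancel h1)
    have hw' : F.vec (w + u) ∈ S := (hV _).2 fun i => by rw [Pi.add_apply, Pi.add_apply, hw, hu]
    have := mul_mem hw' hs
    rwa [← F.el_vec, F.el_mul, one_mul, show u ∘ (1 : Equiv.Perm ι).symm = u from rfl, add_assoc,
      zmod_add_self, add_zero] at this

end Frame

end CfsgLib.AltCentralizer
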