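import Mathlib

/-!
Coordinates for the centraliser of an involution `t` shaped like the centraliser of a product of
`|ι|` transpositions in an alternating group of degree `2 |ι| + 2` or `2 |ι| + 3`.
-/

set_option autoImplicit false

namespace CfsgLib.AltCentralizer

/-- Coordinates on the centraliser of `t`. -/
structure Frame (G : Type*) [Group G] (ι : Type*) [Fintype ι] [DecidableEq ι] (t : G) where
  vec : (ι → ZMod 2) → G
  lift : Equiv.Perm ι →* G
  O : Subgroup G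
  vec_add : ∀ u v, vec (u + v) = vec u * vec v
  lift_vec : ∀ σ v, lift σ * vec v = vec (v ∘ σ.symm) * lift σ
  vec_one : vec 1 = t
  inj : ∀ v σ, vec v * lift σ ∈ O → v = 0 ∧ σ = 1
  oddO : Odd (Nat.card O)
  normO : ∀ v σ, ∀ o ∈ O, vec v * lift σ * o * (vec v * lift σ)⁻¹ ∈ O
  centO : ∀ o ∈ O, ∀ i, Commute o (vec (Pi.single i 1)) → o = 1
  commO : ∀ o ∈ O, Commute o t
  cent_eq : ∀ g, Commute g t → ∃ o ∈ O, ∃ v σ, g = o * (vec v * lift σ)

namespace Frame

variable {G : Type*} [Group G] {ι : Type*} [Fintype ι] [DecidableEq ι] {t : G} (F : Frame G ι t)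

/-- The element with vector part `v` and permutation part `σ`. -/
def el (v : ι → ZMod 2) (σ : Equiv.Perm ι) : G := F.vec v * F.lift σ

theorem zmod_add_self (v : ι → ZMod 2) : v + v = 0 := funext fun i => CharTwo.add_self_eq_zero (v i)

theorem vec_zero : F.vec 0 = 1 := by
  have h := F.vec_add 0 0
  rw [add_zero] at h
  exact mul_eq_left.1 h.symm

theorem vec_mul_self (v : ι → ZMod 2) : F.vec v * F.vec v = 1 := by
  rw [← F.vec_add, zmod_add_self, F.vec_zero]

theorem vec_inv (v : ι → ZMod 2) : (F.vec v)⁻¹ = F.vec v :=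
  inv_eq_of_mul_eq_one_right (F.vec_mul_self v)

theorem el_vec (v : ι → ZMod 2) : F.el v 1 = F.vec v := by rw [el, map_one, mul_one]

theorem el_lift (σ : Equiv.Perm ι) : F.el 0 σ = F.lift σ := by rw [el, F.vec_zero, one_mul]

theorem el_one : F.el 0 1 = 1 := by rw [F.el_vec, F.vec_zero]

theorem el_mul (v w : ι → ZMod 2) (σ τ : Equiv.Perm ι) :
    F.el v σ * F.el w τ = F.el (v + w ∘ σ.symm) (σ * τ) := by
  rw [el, el, el, F.vec_add, map_mul, mul_assoc, ← mul_assoc (F.lift σ), F.lift_vec]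
  simp only [mul_assoc]

theorem el_inv (v : ι → ZMod 2) (σ : Equiv.Perm ι) : (F.el v σ)⁻¹ = F.el (v ∘ σ) σ⁻¹ := by
  refine inv_eq_of_mul_eq_one_right ?_
  rw [F.el_mul, mul_inv_cancel, Function.comp_assoc, Equiv.self_comp_symm, Function.comp_id,
    zmod_add_self, F.el_one]

theorem el_eq_one {v : ι → ZMod 2} {σ : Equiv.Perm ι} (h : F.el v σ = 1) : v = 0 ∧ σ = 1 :=
  F.inj v σ (by rw [← el, h]; exact F.O.one_mem)

theorem el_inj {v w : ι → ZMod 2} {σ τ : Equiv.Perm ι} (h : F.el v σ = F.el w τ) : v = w ∧ σ = τ := by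
  have h1 : F.el v σ * (F.el w τ)⁻¹ = 1 := by rw [h, mul_inv_cancel]
  rw [F.el_inv, F.el_mul] at h1
  obtain ⟨h2, h3⟩ := F.el_eq_one h1
  obtain rfl : σ = τ := mul_inv_eq_one.1 h3
  rw [Function.comp_assoc, Equiv.self_comp_symm, Function.comp_id] at h2
  exact ⟨funext fun i => by
    have := congrFun h2 i
    simpa [add_eq_zero_iff_eq_neg] using this, rfl⟩

theorem vec_inj {v w : ι → ZMod 2} (h : F.vec v = F.vec w) : v = w :=
  (F.el_inj (show F.el v 1 = F.el w 1 by rw [F.el_vec, F.el_vec, h])).1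

theorem conj_vec (v w : ι → ZMod 2) (σ : Equiv.Perm ι) :
    F.el v σ * F.vec w * (F.el v σ)⁻¹ = F.vec (w ∘ σ.symm) := by
  rw [← F.el_vec w, F.el_inv, F.el_mul, F.el_mul, mul_one, mul_inv_cancel, F.el_vec,
    Function.comp_assoc, Equiv.self_comp_symm, Function.comp_id, add_comm v, add_assoc,
    zmod_add_self, add_zero]

theorem comp_one (σ : Equiv.Perm ι) : (1 : ι → ZMod 2) ∘ σ = 1 := rfl

theorem el_commute_t (v : ι → ZMod 2) (σ : Equiv.Perm ι) : Commute (F.el v σ) t := by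
  have h := F.conj_vec v 1 σ
  rw [comp_one σ.symm, F.vec_one] at h
  exact mul_inv_eq_iff_eq_mul.1 h

/-- The image of the model. -/
def Im : Subgroup G where
  carrier := {g | ∃ v σ, g = F.el v σ}
  one_mem' := ⟨0, 1, F.el_one.symm⟩
  mul_mem' := by
    rintro _ _ ⟨v, σ, rfl⟩ ⟨w, τ, rfl⟩
    exact ⟨_, _, F.el_mul v w σ τ⟩
  inv_mem' := by
    rintro _ ⟨v, σ, rfl⟩
    exact ⟨_, _, F.el_inv v σ⟩

theorem el_mem_Im (v : ι → ZMod 2) (σ : Equiv.Perm ι) : F.el v σ ∈ F.Im := ⟨v, σ, rfl⟩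

theorem vec_mem_Im (v : ι → ZMod 2) : F.vec v ∈ F.Im := F.el_vec v ▸ F.el_mem_Im v 1

theorem commute_t_of_mem {g : G} (h : g ∈ F.Im) : Commute g t := by
  obtain ⟨v, σ, rfl⟩ := h; exact F.el_commute_t v σ

/-- The base group. -/
def E : Subgroup G where
  carrier := Set.range F.vec
  one_mem' := ⟨0, F.vec_zero⟩
  mul_mem' := by rintro _ _ ⟨v, rfl⟩ ⟨w, rfl⟩; exact ⟨_, F.vec_add v w⟩
  inv_mem' := by rintro _ ⟨v, rfl⟩; exact ⟨v, (F.vec_inv v).symm⟩

theorem vec_mem_E (v : ι → ZMod 2) : F.vec v ∈ F.E := ⟨v, rfl⟩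

theorem E_le : F.E ≤ F.Im := by rintro _ ⟨v, rfl⟩; exact F.vec_mem_Im v

theorem eq_one_of_mem {g : G} (hO : g ∈ F.O) (hI : g ∈ F.Im) : g = 1 := by
  obtain ⟨v, σ, rfl⟩ := hI
  obtain ⟨rfl, rfl⟩ := F.inj v σ hO
  exact F.el_one

/-- Modulo `O`, conjugation is computed in the model. -/
theorem conj_eq {o : G} (ho : o ∈ F.O) (v : ι → ZMod 2) (σ : Equiv.Perm ι) {f : G} (hf : f ∈ F.Im)
    (h : o * F.el v σ * f * (o * F.el v σ)⁻¹ ∈ F.Im) :
    o * F.el v σ * f * (o * F.el v σ)⁻¹ = F.el v σ * f * (F.el v σ)⁻¹ := by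
  set g := F.el v σ * f * (F.el v σ)⁻¹ with hg
  have hgI : g ∈ F.Im := mul_mem (mul_mem (F.el_mem_Im v σ) hf) (inv_mem (F.el_mem_Im v σ))
  have e : o * F.el v σ * f * (o * F.el v σ)⁻¹ = o * g * o⁻¹ := by rw [hg]; group
  rw [e] at h ⊢
  obtain ⟨w, τ, hgw⟩ := hgI
  have h1 : g * o⁻¹ * g⁻¹ ∈ F.O := by rw [hgw]; exact F.normO w τ _ (inv_mem ho)
  have h2 := F.eq_one_of_mem (show o * g * o⁻¹ * g⁻¹ ∈ F.O by
    have := mul_mem ho h1
    simpa [mul_assoc] using this) (mul_mem h (inv_mem (hgw ▸ F.el_mem_Im w τ)))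
  exact mul_inv_eq_one.1 h2

theorem commute_O_of_mem {o : G} (ho : o ∈ F.O) {f : G} (hf : f ∈ F.Im) (h : o * f * o⁻¹ ∈ F.Im) :
    Commute o f := by
  have h' := F.conj_eq ho 0 1 hf (by rwa [F.el_one, mul_one])
  rw [F.el_one, mul_one, one_mul, inv_one, mul_one] at h'
  exact mul_inv_eq_iff_eq_mul.1 h'

/-- The base group is self-centralising. -/
theorem mem_E_of_commute [Nonempty ι] {g : G} (ht : Commute g t) (h : ∀ v, Commute g (F.vec v)) : g ∈ F.E := by
  obtain ⟨o, ho, v, σ, rfl⟩ := F.cent_eq g ht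
  have key : ∀ w, w ∘ σ.symm = w := fun w => by
    have e : o * F.el v σ * F.vec w * (o * F.el v σ)⁻¹ = F.vec w := mul_inv_eq_iff_eq_mul.2 (h w).eq
    have h1 := F.conj_eq ho v σ (F.vec_mem_Im w) (e.symm ▸ F.vec_mem_Im w)
    rw [e, F.conj_vec] at h1
    exact (F.vec_inj h1).symm
  obtain rfl : σ = 1 := by
    ext i
    by_contra hne
    have h1 := congrFun (key (Pi.single i 1)) (σ i)
    rw [Function.comp_apply, Equiv.symm_apply_apply, Pi.single_eq_same, Pi.single_eq_of_ne (show σ i ≠ i from hne)] at h1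
    exact one_ne_zero h1
  rw [map_one, mul_one] at h ⊢
  obtain ⟨i⟩ := (inferInstance : Nonempty ι)
  have hoc : Commute o (F.vec (Pi.single i 1)) := by
    have h1 : Commute (F.vec v) (F.vec (Pi.single i 1)) := by
      show F.vec v * _ = _
      rw [← F.vec_add, ← F.vec_add, add_comm]
    have h2 := (h (Pi.single i 1)).mul_left (h1.inv_left)
    rwa [mul_inv_cancel_right] at h2
  rw [F.centO o ho i hoc, one_mul]
  exact F.vec_mem_E v

/-- The twist by the automorphism `x ↦ x * t ^ a x` of the model, `a` the parity of the vector part. -/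
def twist (heven : Even (Fintype.card ι)) : Frame G ι t where
  vec v := F.vec (v + (∑ i, v i) • 1)
  lift := F.lift
  O := F.O
  vec_add u v := by
    rw [← F.vec_add]
    congr 1
    simp only [Pi.add_apply, Finset.sum_add_distrib, add_smul]
    abel
  lift_vec σ v := by
    rw [F.lift_vec]
    congr 1
    rw [show ∑ i, (v ∘ σ.symm) i = ∑ i, v i from Equiv.sum_comp σ.symm v]
    congr 1
  vec_one := by
    have : (∑ i : ι, (1 : ι → ZMod 2) i) = 0 := by
      simp only [Pi.one_apply, Finset.sum_const, Finset.card_univ, nsmul_eq_mul, mul_one]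
      rw [ZMod.natCast_eq_zero_iff_even.2 heven]
    rw [this, zero_smul, add_zero, F.vec_one]
  inj v σ h := by
    obtain ⟨h1, h2⟩ := F.inj _ σ h
    refine ⟨?_, h2⟩
    have hs : ∑ i, (v + (∑ i, v i) • (1 : ι → ZMod 2)) i = 0 := by rw [h1]; simp
    simp only [Pi.add_apply, Pi.smul_apply, Pi.one_apply, smul_eq_mul, mul_one, Finset.sum_add_distrib,
      Finset.sum_const, Finset.card_univ, nsmul_eq_mul, ZMod.natCast_eq_zero_iff_even.2 heven,
      zero_mul, add_zero] at hs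
    rwa [hs, zero_smul, add_zero] at h1
  oddO := F.oddO
  normO v σ o ho := F.normO _ σ o ho
  centO o ho i h := by
    refine F.centO o ho i ?_
    have e : F.vec (Pi.single i 1 + (∑ j, (Pi.single i 1 : ι → ZMod 2) j) • 1) =
        F.vec (Pi.single i 1) * t := by
      rw [Finset.sum_pi_single', if_pos (Finset.mem_univ i), one_smul, F.vec_add, F.vec_one]
    rw [e] at h
    have h2 := h.mul_right (F.commO o ho).inv_right
    rwa [mul_inv_cancel_right] at h2
  commO := F.commO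
  cent_eq g hg := by
    obtain ⟨o, ho, v, σ, rfl⟩ := F.cent_eq g hg
    refine ⟨o, ho, v + (∑ i, v i) • 1, σ, ?_⟩
    have hs : ∑ i, (v + (∑ i, v i) • (1 : ι → ZMod 2)) i = ∑ i, v i := by
      simp only [Pi.add_apply, Pi.smul_apply, Pi.one_apply, smul_eq_mul, mul_one, Finset.sum_add_distrib,
        Finset.sum_const, Finset.card_univ, nsmul_eq_mul, ZMod.natCast_eq_zero_iff_even.2 heven,
        zero_mul, add_zero]
    rw [hs, add_assoc, zmod_add_self, add_zero]

end Frame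

end CfsgLib.AltCentralizer
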