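import Cfsg.Agent.AltCentralizer.Setup

/-!
The centraliser of a product of `|ι|` transpositions in an alternating group of degree `2 |ι| + |κ|`.
-/

set_option autoImplicit false

namespace CfsgLib.AltCentralizer

namespace Model

variable {ι κ : Type*} [Fintype ι] [DecidableEq ι] [Fintype κ] [DecidableEq κ] (τ : Equiv.Perm κ)

/-- `τ` raised to a power modulo two. -/
def tp (e : ZMod 2) : Equiv.Perm κ := if e = 0 then 1 else τ

/-- The permutation with vector part `v`. -/
def mv (v : ι → ZMod 2) : Equiv.Perm ((ι × ZMod 2) ⊕ κ) :=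
  Equiv.Perm.sumCongr (Equiv.prodCongrRight fun i => Equiv.addRight (v i)) (tp τ (∑ i, v i))

/-- The permutation of the blocks. -/
def bl (σ : Equiv.Perm ι) : Equiv.Perm ((ι × ZMod 2) ⊕ κ) :=
  Equiv.Perm.sumCongr (Equiv.prodCongrLeft fun _ => σ) 1

/-- The permutations of the remaining points. -/
def rest (ρ : Equiv.Perm κ) : Equiv.Perm ((ι × ZMod 2) ⊕ κ) := Equiv.Perm.sumCongr 1 ρ

variable {τ}

omit [Fintype ι] [DecidableEq ι] [Fintype κ] [DecidableEq κ] in
theorem rest_mul (ρ ρ' : Equiv.Perm κ) : (rest (ρ * ρ') : Equiv.Perm ((ι × ZMod 2) ⊕ κ)) = rest ρ * rest ρ' := by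
  rw [rest, rest, rest, Equiv.Perm.sumCongr_mul, mul_one]

omit [Fintype ι] [DecidableEq ι] [Fintype κ] [DecidableEq κ] in
theorem rest_inl (ρ : Equiv.Perm κ) (z : ι × ZMod 2) : rest ρ (Sum.inl z) = Sum.inl z := rfl

omit [Fintype ι] [DecidableEq ι] [Fintype κ] [DecidableEq κ] in
theorem bl_inl (σ : Equiv.Perm ι) (i : ι) (x : ZMod 2) :
    (bl σ : Equiv.Perm ((ι × ZMod 2) ⊕ κ)) (Sum.inl (i, x)) = Sum.inl (σ i, x) := rfl

omit [DecidableEq ι] [Fintype κ] [DecidableEq κ] in
theorem mv_inl (v : ι → ZMod 2) (i : ι) (x : ZMod 2) :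
    mv τ v (Sum.inl (i, x)) = Sum.inl (i, x + v i) := rfl

omit [DecidableEq ι] [Fintype κ] [DecidableEq κ] in
theorem mv_inr (v : ι → ZMod 2) (j : κ) : mv τ v (Sum.inr j) = Sum.inr (tp τ (∑ i, v i) j) := rfl

variable (hττ : τ * τ = 1)

omit [Fintype κ] [DecidableEq κ] in
include hττ in
theorem tp_add (e f : ZMod 2) : tp τ (e + f) = tp τ e * tp τ f := by
  rcases (show ∀ x : ZMod 2, x = 0 ∨ x = 1 by decide) e with rfl | rfl <;>
    rcases (show ∀ x : ZMod 2, x = 0 ∨ x = 1 by decide) f with rfl | rfl <;>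
      simp [tp, hττ, show (1 : ZMod 2) + 1 = 0 from rfl]

omit [DecidableEq ι] [Fintype κ] [DecidableEq κ] in
include hττ in
theorem mv_add (u v : ι → ZMod 2) : mv τ (u + v) = mv τ u * mv τ v := by
  simp only [mv, Equiv.Perm.sumCongr_mul, ← tp_add hττ, Pi.add_apply, Finset.sum_add_distrib]
  congr 1
  refine Equiv.ext fun z => ?_
  obtain ⟨i, x⟩ := z
  simp [add_assoc, add_comm (u i)]

omit [Fintype κ] [DecidableEq κ] in
theorem bl_mv (σ : Equiv.Perm ι) (v : ι → ZMod 2) : bl σ * mv τ v = mv τ (v ∘ σ.symm) * bl σ := by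
  simp only [bl, mv, Equiv.Perm.sumCongr_mul, one_mul, mul_one, Function.comp_apply,
    Equiv.sum_comp σ.symm v]
  congr 1
  refine Equiv.ext fun z => ?_
  obtain ⟨i, x⟩ := z
  simp

omit [Fintype ι] [DecidableEq ι] [Fintype κ] [DecidableEq κ] in
theorem bl_mul (σ σ' : Equiv.Perm ι) :
    (bl (σ * σ') : Equiv.Perm ((ι × ZMod 2) ⊕ κ)) = bl σ * bl σ' := by
  simp only [bl, Equiv.Perm.sumCongr_mul, one_mul]
  congr 1

theorem sign_tp (hτs : Equiv.Perm.sign τ = -1) (e : ZMod 2) :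
    Equiv.Perm.sign (tp τ e) = if e = 0 then 1 else -1 := by
  unfold tp
  split_ifs
  · exact Equiv.Perm.sign_one
  · exact hτs

omit [DecidableEq ι] in
theorem prod_sign (v : ι → ZMod 2) : (∏ i, if v i = 0 then (1 : ℤˣ) else -1) =
    if ∑ i, v i = 0 then 1 else -1 := by
  classical
  induction (Finset.univ : Finset ι) using Finset.induction_on with
  | empty => simp
  | insert i s his ih =>
    rw [Finset.prod_insert his, Finset.sum_insert his, ih]
    generalize v i = x
    generalize ∑ j ∈ s, v j = y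
    revert x y
    decide

theorem sign_mv (hτs : Equiv.Perm.sign τ = -1) (v : ι → ZMod 2) : Equiv.Perm.sign (mv τ v) = 1 := by
  rw [mv, Equiv.Perm.sign_sumCongr, Equiv.Perm.sign_prodCongrRight, sign_tp hτs]
  have h : ∀ i, Equiv.Perm.sign (Equiv.addRight (v i)) = if v i = 0 then 1 else -1 := fun i => by
    generalize v i = x
    revert x
    decide
  rw [Finset.prod_congr rfl fun i _ => h i, prod_sign]
  split_ifs <;> decide

theorem sign_bl (σ : Equiv.Perm ι) : Equiv.Perm.sign (bl σ : Equiv.Perm ((ι × ZMod 2) ⊕ κ)) = 1 := by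
  rw [bl, Equiv.Perm.sign_sumCongr, Equiv.Perm.sign_prodCongrLeft, Equiv.Perm.sign_one, mul_one,
    Finset.prod_const, Finset.card_univ, ZMod.card, pow_two, Int.units_mul_self]

theorem sign_rest (ρ : Equiv.Perm κ) :
    Equiv.Perm.sign (rest ρ : Equiv.Perm ((ι × ZMod 2) ⊕ κ)) = Equiv.Perm.sign ρ := by
  rw [rest, Equiv.Perm.sign_sumCongr, Equiv.Perm.sign_one, one_mul]

omit [Fintype κ] [DecidableEq κ] in
include hττ in
theorem mv_one_commute (he : Even (Fintype.card ι)) (v : ι → ZMod 2) (σ : Equiv.Perm ι) (ρ : Equiv.Perm κ) :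
    Commute (rest ρ * (mv τ v * bl σ)) (mv τ 1) := by
  have hr : Commute (rest ρ) (mv τ (1 : ι → ZMod 2)) := by
    have hs : tp τ (∑ i : ι, (1 : ι → ZMod 2) i) = 1 := by
      have : ∑ i : ι, (1 : ι → ZMod 2) i = 0 := by
        simp only [Pi.one_apply, Finset.sum_const, Finset.card_univ, nsmul_eq_mul, mul_one]
        exact ZMod.natCast_eq_zero_iff_even.2 he
      rw [this, tp, if_pos rfl]
    show rest ρ * mv τ 1 = mv τ 1 * rest ρ
    rw [rest, mv, hs, Equiv.Perm.sumCongr_mul, Equiv.Perm.sumCongr_mul]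
    simp only [one_mul, mul_one]
  refine hr.mul_left (Commute.mul_left ?_ ?_)
  · show mv τ v * mv τ 1 = mv τ 1 * mv τ v
    rw [← mv_add hττ, ← mv_add hττ, add_comm]
  · show bl σ * mv τ 1 = mv τ 1 * bl σ
    rw [bl_mv]; rfl

include hττ in
/-- The normal form in the centraliser. -/
theorem exists_normal (hτs : Equiv.Perm.sign τ = -1) {π : Equiv.Perm ((ι × ZMod 2) ⊕ κ)}
    (he : Even (Fintype.card ι)) (hc : Commute π (mv τ 1)) (hs : Equiv.Perm.sign π = 1) :
    ∃ ρ v σ, Equiv.Perm.sign ρ = 1 ∧ π = rest ρ * (mv τ v * bl σ) := by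
  classical
  have hsum : ∑ i : ι, (1 : ι → ZMod 2) i = 0 := by
    simp only [Pi.one_apply, Finset.sum_const, Finset.card_univ, nsmul_eq_mul, mul_one]
    exact ZMod.natCast_eq_zero_iff_even.2 he
  have hfix : ∀ j, mv τ (1 : ι → ZMod 2) (Sum.inr j) = Sum.inr j := fun j => by
    rw [mv_inr, hsum, tp, if_pos rfl]; rfl
  have hmov : ∀ z, mv τ (1 : ι → ZMod 2) (Sum.inl z) ≠ Sum.inl z := fun z e => by
    obtain ⟨i, x⟩ := z
    rw [mv_inl, Pi.one_apply] at e
    exact (by decide : ∀ y : ZMod 2, y + 1 ≠ y) x (Prod.ext_iff.1 (Sum.inl_injective e)).2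
  have hcomm : ∀ z, π (mv τ 1 z) = mv τ 1 (π z) := fun z => congrFun (congrArg (⇑) hc.eq) z
  have hinl : ∀ z, ∃ z', π (Sum.inl z) = Sum.inl z' := fun z => by
    rcases h : π (Sum.inl z) with z' | j
    · exact ⟨z', rfl⟩
    · exfalso
      refine hmov z (π.injective ?_)
      rw [hcomm, h, hfix]
  choose f hf using hinl
  have hff : ∀ i x, f (i, x + 1) = ((f (i, x)).1, (f (i, x)).2 + 1) := fun i x => by
    have := hcomm (Sum.inl (i, x))
    rw [mv_inl, Pi.one_apply, hf, hf, ← Prod.mk.eta (p := f (i, x)), mv_inl] at this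
    exact Sum.inl_injective this
  have hinj : Function.Injective fun i => (f (i, 0)).1 := fun i j e => by
    change (f (i, 0)).1 = (f (j, 0)).1 at e
    rcases (show ∀ x y : ZMod 2, x = y ∨ x = y + 1 by decide) (f (i, 0)).2 (f (j, 0)).2 with h | h
    · have := π.injective ((hf (i, 0)).trans ((congrArg Sum.inl (Prod.ext e h)).trans (hf (j, 0)).symm))
      exact (Prod.ext_iff.1 (Sum.inl_injective this)).1
    · have h' : f (i, 0) = f (j, 0 + 1) := by rw [hff]; exact Prod.ext e h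
      have := π.injective ((hf (i, 0)).trans ((congrArg Sum.inl h').trans (hf (j, 0 + 1)).symm))
      exact (Prod.ext_iff.1 (Sum.inl_injective this)).1
  let σ : Equiv.Perm ι := Equiv.ofBijective _ (Finite.injective_iff_bijective.1 hinj)
  let v : ι → ZMod 2 := fun i => (f (σ.symm i, 0)).2
  have hkey : ∀ z, π (Sum.inl z) = (mv τ v * bl σ : Equiv.Perm ((ι × ZMod 2) ⊕ κ)) (Sum.inl z) := by
    rintro ⟨i, x⟩
    rw [Equiv.Perm.mul_apply, bl_inl, mv_inl, hf]
    congr 1
    have h1 : σ i = (f (i, 0)).1 := rfl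
    have h2 : v (σ i) = (f (i, 0)).2 := by simp only [v, Equiv.symm_apply_apply]
    rcases (show ∀ x : ZMod 2, x = 0 ∨ x = 1 by decide) x with rfl | rfl
    · rw [zero_add, h2, h1]
    · rw [show f (i, 1) = f (i, 0 + 1) by rw [zero_add], hff, h2, h1, add_comm]
  set M := mv τ v * bl σ with hM
  have hMinr : ∀ j, M (Sum.inr j) = Sum.inr (tp τ (∑ i, v i) j) := fun j => rfl
  set q := π * M⁻¹ with hq
  have hqinl : ∀ z, q (Sum.inl z) = Sum.inl z := fun z => by
    rcases h : M⁻¹ (Sum.inl z) with z' | j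
    · rw [hq, Equiv.Perm.mul_apply, h, hkey, ← h]
      exact M.apply_symm_apply _
    · have := congrArg M h
      rw [hMinr, show M (M⁻¹ (Sum.inl z)) = Sum.inl z from M.apply_symm_apply _] at this
      exact absurd this Sum.inl_ne_inr
  have hqinr : ∀ j, ∃ j', q (Sum.inr j) = Sum.inr j' := fun j => by
    rcases h : q (Sum.inr j) with z' | j'
    · exact absurd (q.injective (h.trans (hqinl z').symm)) Sum.inr_ne_inl
    · exact ⟨j', rfl⟩
  choose g hg using hqinr
  have hginj : Function.Injective g := fun i j e =>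
    Sum.inr_injective (q.injective (by rw [hg, hg, e]))
  let ρ : Equiv.Perm κ := Equiv.ofBijective g (Finite.injective_iff_bijective.1 hginj)
  have hqρ : q = rest ρ := Equiv.ext fun z => by
    rcases z with z | j
    · rw [hqinl]; rfl
    · rw [hg]; rfl
  refine ⟨ρ, v, σ, ?_, ?_⟩
  · rw [← sign_rest (ι := ι), ← hqρ, hq, map_mul, map_inv, hs, hM, map_mul, sign_mv hτs, sign_bl, mul_one,
      inv_one, mul_one]
  · rw [← hqρ, hq, hM, inv_mul_cancel_right]

variable (τ) in
/-- The centraliser of `mv τ 1` among the even permutations. -/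
def cen : Subgroup (Equiv.Perm ((ι × ZMod 2) ⊕ κ)) :=
  Subgroup.centralizer {mv τ 1} ⊓ (Equiv.Perm.sign : Equiv.Perm ((ι × ZMod 2) ⊕ κ) →* ℤˣ).ker

theorem mem_cen {π : Equiv.Perm ((ι × ZMod 2) ⊕ κ)} :
    π ∈ cen (ι := ι) τ ↔ Commute π (mv τ 1) ∧ Equiv.Perm.sign π = 1 := by
  rw [cen, Subgroup.mem_inf, Subgroup.mem_centralizer_singleton_iff, MonoidHom.mem_ker]
  rfl

include hττ in
theorem normal_mem (hτs : Equiv.Perm.sign τ = -1) (he : Even (Fintype.card ι)) {ρ : Equiv.Perm κ}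
    (hρ : Equiv.Perm.sign ρ = 1) (v : ι → ZMod 2) (σ : Equiv.Perm ι) :
    rest ρ * (mv τ v * bl σ) ∈ cen (ι := ι) τ := by
  refine mem_cen.2 ⟨mv_one_commute hττ he v σ ρ, ?_⟩
  rw [map_mul, map_mul, sign_rest, sign_mv hτs, sign_bl, hρ, one_mul, one_mul]

omit [DecidableEq ι] [Fintype κ] [DecidableEq κ] in
include hττ in
theorem mv_zero : (mv τ (0 : ι → ZMod 2)) = 1 := by
  have h := mv_add hττ (0 : ι → ZMod 2) 0
  rw [add_zero] at h
  exact mul_eq_left.1 h.symm

omit [Fintype ι] [DecidableEq ι] [Fintype κ] [DecidableEq κ] in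
theorem rest_one : (rest (1 : Equiv.Perm κ) : Equiv.Perm ((ι × ZMod 2) ⊕ κ)) = 1 :=
  Equiv.Perm.sumCongr_one

omit [Fintype ι] [DecidableEq ι] [Fintype κ] [DecidableEq κ] in
theorem bl_one : (bl (1 : Equiv.Perm ι) : Equiv.Perm ((ι × ZMod 2) ⊕ κ)) = 1 := by
  refine Equiv.ext fun z => ?_
  rcases z with ⟨i, x⟩ | j <;> rfl

include hττ in
/-- The centre has order two. -/
theorem central (hτs : Equiv.Perm.sign τ = -1) (hκ : ∀ ρ, Equiv.Perm.sign ρ = 1 → Commute ρ τ → ρ = 1)
    (he : Even (Fintype.card ι)) (hne : Nonempty ι) {π : Equiv.Perm ((ι × ZMod 2) ⊕ κ)} (hπ : π ∈ cen (ι := ι) τ)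
    (hc : ∀ q ∈ cen (ι := ι) τ, Commute π q) : π = 1 ∨ π = mv τ 1 := by
  classical
  obtain ⟨hπ1, hπ2⟩ := mem_cen.1 hπ
  obtain ⟨ρ, v, σ, hρ, rfl⟩ := exists_normal hττ hτs he hπ1 hπ2
  have hv : ∀ w, mv τ w ∈ cen (ι := ι) τ := fun w => by
    have := normal_mem hττ hτs he (ρ := 1) Equiv.Perm.sign_one w (1 : Equiv.Perm ι)
    rwa [rest_one, bl_one, one_mul, mul_one] at this
  have hl : ∀ s, bl s ∈ cen (ι := ι) τ := fun s => by
    have := normal_mem hττ hτs he (ρ := 1) Equiv.Perm.sign_one (0 : ι → ZMod 2) s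
    rwa [rest_one, mv_zero hττ, one_mul, one_mul] at this
  have hinl : ∀ i x, (rest ρ * (mv τ v * bl σ) : Equiv.Perm ((ι × ZMod 2) ⊕ κ)) (Sum.inl (i, x)) =
      Sum.inl (σ i, x + v (σ i)) :=
    fun i x => rfl
  obtain rfl : σ = 1 := by
    refine Equiv.ext fun i => ?_
    by_contra hne
    have h := congrFun (congrArg (⇑) (hc _ (hv (Pi.single i 1))).eq) (Sum.inl (i, 0))
    simp only [Equiv.Perm.mul_apply, mv_inl, rest_inl, bl_inl] at h
    have h' := (Prod.ext_iff.1 (Sum.inl_injective h)).2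
    rw [Pi.single_eq_same, Pi.single_eq_of_ne (show σ i ≠ i from hne), add_zero] at h'
    exact (show ∀ x : ZMod 2, 0 + 1 + x ≠ 0 + x by decide) _ h'
  have hconst : ∀ i j, v i = v j := fun i j => by
    have h := congrFun (congrArg (⇑) (hc _ (hl (Equiv.swap i j))).eq) (Sum.inl (j, 0))
    simp only [Equiv.Perm.mul_apply, mv_inl, rest_inl, bl_inl, Equiv.Perm.one_apply,
      Equiv.swap_apply_right] at h
    have h' := (Prod.ext_iff.1 (Sum.inl_injective h)).2
    simpa using h'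
  obtain ⟨c, rfl⟩ : ∃ c : ZMod 2, v = c • (1 : ι → ZMod 2) := by
    obtain ⟨i⟩ := hne
    exact ⟨v i, funext fun j => by simp [hconst i j]⟩
  have hsum : ∑ i, (c • (1 : ι → ZMod 2)) i = 0 := by
    simp only [Pi.smul_apply, Pi.one_apply, smul_eq_mul, mul_one, Finset.sum_const, Finset.card_univ,
      nsmul_eq_mul]
    rw [ZMod.natCast_eq_zero_iff_even.2 he, zero_mul]
  have hρ1 : ρ = 1 := by
    obtain ⟨i⟩ := hne
    refine hκ ρ hρ (Equiv.ext fun j => Sum.inr_injective (α := ι × ZMod 2) ?_)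
    have h := congrFun (congrArg (⇑) (hc _ (hv (Pi.single i 1))).eq) (Sum.inr j)
    have e : ∑ x, (Pi.single i 1 : ι → ZMod 2) x = 1 := by
      rw [Finset.sum_pi_single', if_pos (Finset.mem_univ i)]
    simp only [bl_one, mul_one, Equiv.Perm.mul_apply, mv_inr, hsum, e, rest, Equiv.Perm.sumCongr_apply,
      Sum.map_inr, tp, if_neg (one_ne_zero (α := ZMod 2)), if_true, Equiv.Perm.one_apply] at h
    exact h
  subst hρ1
  rw [rest_one, bl_one, one_mul, mul_one]
  rcases (show ∀ x : ZMod 2, x = 0 ∨ x = 1 by decide) c with rfl | rfl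
  · rw [zero_smul, mv_zero hττ]; exact Or.inl rfl
  · rw [one_smul]; exact Or.inr rfl

end Model

open Model in
/-- The setup from an isomorphism with the model. -/
theorem exists_setup_of_model {G : Type*} [Group G] [Finite G] {ι κ : Type*} [Fintype ι] [DecidableEq ι]
    [Fintype κ] [DecidableEq κ] {τ : Equiv.Perm κ} (hττ : τ * τ = 1) (hτs : Equiv.Perm.sign τ = -1)
    (hκ : ∀ ρ, Equiv.Perm.sign ρ = 1 → Commute ρ τ → ρ = 1)
    (hodd : Odd (Nat.card (Equiv.Perm.sign : Equiv.Perm κ →* ℤˣ).ker)) (he : Even (Fintype.card ι))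
    (hne : Nonempty ι) {t : G} (ht : orderOf t = 2) (h2 : ∀ H : Subgroup G, H.Normal → H.index ≠ 2)
    (hindex : ¬ 2 ∣ (Subgroup.centralizer ({t} : Set G)).index)
    (Ψ : cen (ι := ι) τ ≃* Subgroup.centralizer ({t} : Set G)) : Nonempty (Setup G ι t) := by
  classical
  let ψ : cen (ι := ι) τ →* G := (Subgroup.centralizer ({t} : Set G)).subtype.comp Ψ.toMonoidHom
  have hψ : Function.Injective ψ := Subtype.val_injective.comp Ψ.injective
  have hψC : ∀ x, Commute (ψ x) t := fun x => Subgroup.mem_centralizer_singleton_iff.1 (Ψ x).2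
  have hv : ∀ w, mv τ w ∈ cen (ι := ι) τ := fun w => by
    have := normal_mem hττ hτs he (ρ := 1) Equiv.Perm.sign_one w (1 : Equiv.Perm ι)
    rwa [rest_one, bl_one, one_mul, mul_one] at this
  have hl : ∀ s, bl s ∈ cen (ι := ι) τ := fun s => by
    have := normal_mem hττ hτs he (ρ := 1) Equiv.Perm.sign_one (0 : ι → ZMod 2) s
    rwa [rest_one, mv_zero hττ, one_mul, one_mul] at this
  have hr : ∀ ρ : (Equiv.Perm.sign : Equiv.Perm κ →* ℤˣ).ker, rest (ρ : Equiv.Perm κ) ∈ cen (ι := ι) τ :=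
    fun ρ => by
      have := normal_mem hττ hτs he (MonoidHom.mem_ker.1 ρ.2) (0 : ι → ZMod 2) (1 : Equiv.Perm ι)
      rwa [mv_zero hττ, bl_one, mul_one, mul_one] at this
  let restHom : (Equiv.Perm.sign : Equiv.Perm κ →* ℤˣ).ker →* G :=
    ψ.comp (MonoidHom.mk' (fun ρ => ⟨rest (ρ : Equiv.Perm κ), hr ρ⟩) fun ρ ρ' => Subtype.ext (rest_mul _ _))
  let liftHom : Equiv.Perm ι →* G :=
    ψ.comp (MonoidHom.mk' (fun s => ⟨bl s, hl s⟩) fun s s' => Subtype.ext (bl_mul s s'))
  have hrinj : Function.Injective restHom := hψ.comp fun ρ ρ' e => Subtype.ext (Equiv.ext fun j =>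
    Sum.inr_injective (congrFun (congrArg (⇑) (congrArg Subtype.val e)) (Sum.inr j) :))
  -- the image of `mv τ 1` is `t`
  have ht' : ψ ⟨mv τ 1, hv 1⟩ = t := by
    have htC : t ∈ Subgroup.centralizer ({t} : Set G) := Subgroup.mem_centralizer_singleton_iff.2 rfl
    set x := Ψ.symm ⟨t, htC⟩ with hx
    have hψx : ψ x = t := by
      show (Ψ (Ψ.symm ⟨t, htC⟩) : G) = t
      rw [MulEquiv.apply_symm_apply]
    rcases central hττ hτs hκ he hne x.2 (fun q hq => by
      have h := hψC ⟨q, hq⟩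
      rw [← hψx] at h
      have h' : x * ⟨q, hq⟩ = ⟨q, hq⟩ * x := hψ (by rw [map_mul, map_mul]; exact h.eq.symm)
      exact congrArg Subtype.val h') with h | h
    · exfalso
      rw [show x = 1 from Subtype.ext h, map_one] at hψx
      rw [← hψx, orderOf_one] at ht
      omega
    · rw [← hψx]
      congr 1
      exact Subtype.ext h.symm
  refine ⟨{ frame := ?_, even := he, noTwo := h2, oddIndex := hindex }⟩
  exact
    { vec := fun w => ψ ⟨mv τ w, hv w⟩
      lift := liftHom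
      O := restHom.range
      vec_add := fun u w => by
        rw [← map_mul]; congr 1; exact Subtype.ext (mv_add hττ u w)
      lift_vec := fun s w => by
        show ψ _ * ψ _ = ψ _ * ψ _
        rw [← map_mul, ← map_mul]; congr 1; exact Subtype.ext (bl_mv s w)
      vec_one := ht'
      inj := fun w s h => by
        obtain ⟨ρ, hρ⟩ := h
        have h' : rest (ρ : Equiv.Perm κ) = mv τ w * bl s := by
          have := hψ (show ψ ⟨rest (ρ : Equiv.Perm κ), hr ρ⟩ = ψ (⟨mv τ w, hv w⟩ * ⟨bl s, hl s⟩) by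
            rw [map_mul]; exact hρ)
          exact congrArg Subtype.val this
        have hi : ∀ i, s i = i ∧ w (s i) = 0 := fun i => by
          have := congrFun (congrArg (⇑) h') (Sum.inl (i, 0))
          rw [rest_inl, Equiv.Perm.mul_apply, bl_inl, mv_inl] at this
          have e := Prod.ext_iff.1 (Sum.inl_injective this)
          exact ⟨e.1.symm, by simpa using e.2.symm⟩
        refine ⟨funext fun i => ?_, Equiv.ext fun i => (hi i).1⟩
        have := (hi i).2
        rwa [(hi i).1] at this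
      oddO := by rwa [← Nat.card_congr (MonoidHom.ofInjective hrinj).toEquiv]
      normO := fun w s o ho => by
        obtain ⟨ρ, rfl⟩ := ho
        have hmem : tp τ (∑ i, w i) * (ρ : Equiv.Perm κ) * (tp τ (∑ i, w i))⁻¹ ∈
            (Equiv.Perm.sign : Equiv.Perm κ →* ℤˣ).ker :=
          Subgroup.Normal.conj_mem (MonoidHom.normal_ker _) _ ρ.2 _
        refine ⟨⟨_, hmem⟩, ?_⟩

        show ψ _ = ψ _ * ψ _ * ψ _ * (ψ _ * ψ _)⁻¹
        rw [← map_mul, ← map_mul, ← map_inv, ← map_mul]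
        congr 1
        refine Subtype.ext ?_
        show rest _ = mv τ w * bl s * rest (ρ : Equiv.Perm κ) * (mv τ w * bl s)⁻¹
        rw [eq_mul_inv_iff_mul_eq]
        simp only [rest, mv, bl, Equiv.Perm.sumCongr_mul, one_mul, mul_one]
        rw [inv_mul_cancel_right]
      centO := fun o ho i h => by
        obtain ⟨ρ, rfl⟩ := ho
        have h' : rest (ρ : Equiv.Perm κ) * mv τ (Pi.single i 1) = mv τ (Pi.single i 1) * rest (ρ : Equiv.Perm κ) := by
          have := hψ (show ψ (⟨rest (ρ : Equiv.Perm κ), hr ρ⟩ * ⟨_, hv (Pi.single i 1)⟩) =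
            ψ (⟨_, hv (Pi.single i 1)⟩ * ⟨rest (ρ : Equiv.Perm κ), hr ρ⟩) by
              rw [map_mul, map_mul]; exact h.eq)
          exact congrArg Subtype.val this
        have e : ∑ x, (Pi.single i 1 : ι → ZMod 2) x = 1 := by
          rw [Finset.sum_pi_single', if_pos (Finset.mem_univ i)]
        have hρ : Commute (ρ : Equiv.Perm κ) τ := Equiv.ext fun j => by
          have := congrFun (congrArg (⇑) h') (Sum.inr j)
          simp only [Equiv.Perm.mul_apply, mv_inr, e, rest, Equiv.Perm.sumCongr_apply, Sum.map_inr, tp,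
            if_neg (one_ne_zero (α := ZMod 2)), Sum.inr.injEq] at this
          exact this
        rw [show ρ = 1 from Subtype.ext (hκ _ (MonoidHom.mem_ker.1 ρ.2) hρ), map_one]
      commO := fun o ho => by
        obtain ⟨ρ, rfl⟩ := ho; exact hψC _
      cent_eq := fun g hg => by
        obtain ⟨π, hπ⟩ := Ψ.surjective ⟨g, Subgroup.mem_centralizer_singleton_iff.2 hg⟩
        obtain ⟨hπ1, hπ2⟩ := mem_cen.1 π.2
        obtain ⟨ρ, w, s, hρ, e⟩ := exists_normal hττ hτs he hπ1 hπ2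
        refine ⟨restHom ⟨ρ, MonoidHom.mem_ker.2 hρ⟩, ⟨_, rfl⟩, w, s, ?_⟩
        show g = ψ _ * (ψ _ * ψ _)
        rw [← map_mul, ← map_mul, show g = ψ π from (congrArg Subtype.val hπ).symm]
        congr 1
        exact Subtype.ext e }

end CfsgLib.AltCentralizer
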