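import Cfsg.Agent.AltCentralizer.Weak
import Cfsg.Agent.AltCentralizer.Transfer

/-!
The action of the normaliser of the base group: the orbit of `t`.
-/

set_option autoImplicit false

open scoped Pointwise

namespace CfsgLib.AltCentralizer

variable {G : Type*} [Group G] {ι : Type*} [Fintype ι] [DecidableEq ι] {t : G}

theorem zmod2_cases (x : ZMod 2) : x = 0 ∨ x = 1 := by revert x; decide

theorem zmod2_ne_one {x : ZMod 2} (h : x ≠ 1) : x = 0 := (zmod2_cases x).resolve_right h

namespace Frame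

variable (F : Frame G ι t)

/-- `g` normalises the base group. -/
def Nrm (g : G) : Prop := cj g F.E = F.E

/-- The action of `g` on the base group in coordinates. -/
noncomputable def L (g : G) (v : ι → ZMod 2) : ι → ZMod 2 := F.vecOf (g * F.vec v * g⁻¹)

variable {F}

theorem Nrm.mul {g h : G} (hg : F.Nrm g) (hh : F.Nrm h) : F.Nrm (g * h) := by
  rw [Nrm, cj_mul, hh, hg]

theorem Nrm.inv {g : G} (hg : F.Nrm g) : F.Nrm g⁻¹ := cj_inv_of_eq hg

theorem Nrm.spec {g : G} (hg : F.Nrm g) (v : ι → ZMod 2) : F.vec (F.L g v) = g * F.vec v * g⁻¹ := by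
  have h : g * F.vec v * g⁻¹ ∈ cj g F.E := conj_mem_cj (F.vec_mem_E v)
  rw [hg] at h
  obtain ⟨w, hw⟩ := h
  rw [L, ← hw, F.vecOf_vec]

theorem Nrm.L_add {g : G} (hg : F.Nrm g) (u v : ι → ZMod 2) : F.L g (u + v) = F.L g u + F.L g v := by
  apply F.vec_inj
  rw [hg.spec, F.vec_add, F.vec_add, hg.spec, hg.spec]; group

theorem Nrm.L_mul {g h : G} (hg : F.Nrm g) (hh : F.Nrm h) (v : ι → ZMod 2) :
    F.L (g * h) v = F.L g (F.L h v) := by
  apply F.vec_inj
  rw [(hg.mul hh).spec, hg.spec, hh.spec]; group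

theorem Nrm.L_inv {g : G} (hg : F.Nrm g) (v : ι → ZMod 2) : F.L g⁻¹ (F.L g v) = v := by
  apply F.vec_inj
  rw [hg.inv.spec, hg.spec]; group

theorem Nrm.L_zero {g : G} (hg : F.Nrm g) : F.L g 0 = 0 := by
  apply F.vec_inj
  rw [hg.spec, F.vec_zero, mul_one, mul_inv_cancel]

variable (F)

theorem el_nrm (w : ι → ZMod 2) (σ : Equiv.Perm ι) : F.Nrm (F.el w σ) := by
  ext x
  rw [mem_cj]
  constructor
  · rintro ⟨v, hv⟩
    rw [show x = F.el w σ * F.vec v * (F.el w σ)⁻¹ by rw [hv]; group, F.conj_vec]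
    exact F.vec_mem_E _
  · rintro ⟨v, rfl⟩
    rw [show (F.el w σ)⁻¹ * F.vec v * F.el w σ = F.vec (v ∘ σ) from by
      rw [F.el_inv]
      have h := F.conj_vec (w ∘ σ) v σ⁻¹
      rw [F.el_inv] at h
      rw [← show (F.el (w ∘ σ) σ⁻¹)⁻¹ = F.el w σ by rw [F.el_inv]; simp [Function.comp_assoc]]
      rw [F.el_inv]
      exact h]
    exact F.vec_mem_E _

theorem L_el (w : ι → ZMod 2) (σ : Equiv.Perm ι) (v : ι → ZMod 2) :
    F.L (F.el w σ) v = v ∘ σ.symm := by
  rw [L, F.conj_vec, F.vecOf_vec]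

theorem L_of_commute {g : G} (hg : F.Nrm g) (hc : Commute g t) :
    ∃ σ : Equiv.Perm ι, ∀ v, F.L g v = v ∘ σ.symm := by
  obtain ⟨o, ho, w, σ, rfl⟩ := F.cent_eq g hc
  refine ⟨σ, fun v => ?_⟩
  have h := hg.spec v
  have h' : o * F.el w σ * F.vec v * (o * F.el w σ)⁻¹ ∈ F.Im := by
    rw [show o * F.el w σ = o * (F.vec w * F.lift σ) from rfl, ← h]; exact F.vec_mem_Im _
  rw [show o * (F.vec w * F.lift σ) = o * F.el w σ from rfl, F.conj_eq ho w σ (F.vec_mem_Im v) h',
    F.conj_vec] at h
  exact F.vec_inj h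

theorem sum_L_el (σ : Equiv.Perm ι) (v : ι → ZMod 2) : ∑ i, (v ∘ σ.symm) i = ∑ i, v i :=
  Equiv.sum_comp σ.symm v

end Frame

namespace Setup

variable [Finite G] (S : Setup G ι t)

/-- The parity of the vector part on a subgroup of the model. -/
noncomputable def parity {H : Subgroup G} (hH : H ≤ S.frame.Im) : H →* Multiplicative (ZMod 2) :=
  MonoidHom.mk' (fun g => Multiplicative.ofAdd (∑ i, S.frame.vecOf (g : G) i)) fun a b => by
    obtain ⟨v, σ, ha⟩ := hH a.2
    obtain ⟨w, τ, hb⟩ := hH b.2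
    rw [Subgroup.coe_mul, ha, hb, S.frame.el_mul, S.frame.vecOf_el, S.frame.vecOf_el,
      S.frame.vecOf_el, ← ofAdd_add]
    congr 1
    simp only [Pi.add_apply, Finset.sum_add_distrib]
    rw [Frame.sum_L_el σ w]

theorem exists_move (h4 : 4 ≤ Fintype.card ι) : ∃ g, S.frame.Nrm g ∧ S.frame.L g 1 ≠ 1 := by
  haveI : Fact (Nat.Prime 2) := ⟨Nat.prime_two⟩
  by_contra hall
  push Not at hall
  obtain ⟨i⟩ : Nonempty ι := Fintype.card_pos_iff.1 (by omega)
  obtain ⟨P⟩ := (inferInstance : Nonempty (Sylow 2 (Equiv.Perm ι)))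
  obtain ⟨T, hT⟩ := S.exists_sylow P
  have hTI : (T : Subgroup G) ≤ S.frame.Im := hT ▸ S.frame.sylP_le _
  obtain ⟨g, hu, hφ, hR⟩ := exists_extremal T S.noTwo (S.parity hTI) (x := S.frame.vec (Pi.single i 1))
    (by rw [pow_two, S.frame.vec_mul_self]) S.frame.isPGroup_E
    (fun r hr => S.frame.E_comm r hr _ (S.frame.vec_mem_E _))
  have hn : S.frame.Nrm g⁻¹ := weak_closure S.frame h4 S.even fun x hx => hTI (by
    have := hR _ (mem_cj.1 hx)
    simpa [mul_assoc] using this)
  have hc : Commute g⁻¹ t := by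
    have h := hn.spec 1
    rw [hall _ hn, S.frame.vec_one] at h
    exact mul_inv_eq_iff_eq_mul.1 h.symm
  obtain ⟨σ, hσ⟩ := S.frame.L_of_commute hn hc
  have h : ∑ j, S.frame.vecOf (g⁻¹ * S.frame.vec (Pi.single i 1) * g) j = 0 :=
    Multiplicative.ofAdd.injective hφ
  rw [show g⁻¹ * S.frame.vec (Pi.single i 1) * g = g⁻¹ * S.frame.vec (Pi.single i 1) * g⁻¹⁻¹ by group,
    ← hn.spec, S.frame.vecOf_vec, hσ, Frame.sum_L_el, Finset.sum_pi_single', if_pos (Finset.mem_univ i)]
    at h
  exact one_ne_zero h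

/-- Pairs on one side of a conjugate of `t` come from pairs. -/
theorem pair_back {g : G} (hg : S.frame.Nrm g) {p q : ι} (hne : p ≠ q)
    (hpq : S.frame.L g 1 p = S.frame.L g 1 q) :
    ∃ x y, x ≠ y ∧ S.frame.L g⁻¹ (pair p q) = pair x y := by
  set F := S.frame
  set v := F.L g 1
  have hT : Tv F.E (F.lift (Equiv.swap p q)) (F.vec (pair p q)) := by
    have := F.swap_tv (θ := 1) (hθ := one_mul 1) hne rfl rfl
    rwa [Frame.blk_one] at this
  have hsw : v ∘ (Equiv.swap p q).symm = v := funext fun i => by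
    rw [Function.comp_apply, Equiv.symm_swap]
    by_cases h1 : i = p
    · rw [h1, Equiv.swap_apply_left, hpq]
    by_cases h2 : i = q
    · rw [h2, Equiv.swap_apply_right, hpq]
    rw [Equiv.swap_apply_of_ne_of_ne h1 h2]
  have hcm : Commute (F.lift (Equiv.swap p q)) (F.vec v) := by
    have := F.lift_vec (Equiv.swap p q) v
    rwa [hsw] at this
  have hctr : Ctr F.E (F.vec v) (F.vec (pair p q)) := ⟨_, hcm, hT⟩
  have h' := hctr.conj g⁻¹
  rw [show cj g⁻¹ F.E = F.E from hg.inv, hg.spec 1, F.vec_one, ← hg.inv.spec,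
    show g⁻¹ * (g * t * g⁻¹) * g⁻¹⁻¹ = t by group, ← Frame.blk_one] at h'
  obtain ⟨w, ⟨x, y, hxy, -, rfl⟩, e⟩ := F.isC_of_ctr h'
  exact ⟨x, y, hxy, F.vec_inj e⟩

theorem weight_le {M : (ι → ZMod 2) → ι → ZMod 2} (hM : ∀ u v, M (u + v) = M u + M v)
    {A : ι → Prop} (hp : ∀ p q, A p → A q → p ≠ q → ∃ x y, M (pair p q) = pair x y) :
    ∀ k : ℕ, ∀ s : Finset ι, s.card = 2 * k → (∀ i ∈ s, A i) →
      (Finset.univ.filter fun i => M (fun j => if j ∈ s then 1 else 0) i = 1).card ≤ 2 * k := by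
  classical
  intro k
  induction k with
  | zero =>
    intro s hs _
    have hM0 : M 0 = 0 := by
      have h := hM 0 0
      rw [add_zero] at h
      exact left_eq_add.1 h
    rw [Finset.card_eq_zero.1 (show s.card = 0 by omega)]
    simp only [Finset.notMem_empty, if_false]
    rw [show (fun _ : ι => (0 : ZMod 2)) = 0 from rfl, hM0]
    simp
  | succ k ih =>
    intro s hs hA
    obtain ⟨p, hp', q, hq', hne⟩ := Finset.one_lt_card.1 (show 1 < s.card by omega)
    set s' := (s.erase p).erase q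
    have hs' : s'.card = 2 * k := by
      rw [Finset.card_erase_of_mem (Finset.mem_erase.2 ⟨hne.symm, hq'⟩),
        Finset.card_erase_of_mem hp']
      omega
    have hih := ih s' hs' fun i hi => hA i (Finset.mem_of_mem_erase (Finset.mem_of_mem_erase hi))
    obtain ⟨x, y, hxy⟩ := hp p q (hA p hp') (hA q hq') hne
    have e : (fun j => if j ∈ s then (1 : ZMod 2) else 0) = pair p q + fun j => if j ∈ s' then 1 else 0 :=
      funext fun j => by
        rw [Pi.add_apply]
        by_cases h1 : j = p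
        · rw [h1, pair_apply_left hne, if_pos hp', if_neg (by simp [s']), add_zero]
        by_cases h2 : j = q
        · rw [h2, pair_comm, pair_apply_left hne.symm, if_pos hq', if_neg (by simp [s']), add_zero]
        rw [pair_apply_of_ne h1 h2, zero_add]
        simp [s', h1, h2]
    refine (Finset.card_le_card (t := {x, y} ∪
      Finset.univ.filter fun i => M (fun j => if j ∈ s' then 1 else 0) i = 1) fun i hi => ?_).trans ?_
    · simp only [Finset.mem_filter, Finset.mem_univ, true_and, e, hM, hxy, Pi.add_apply] at hi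
      rw [Finset.mem_union]
      by_cases h : i = x ∨ i = y
      · exact Or.inl (by simpa using h)
      push Not at h
      rw [pair_apply_of_ne h.1 h.2, zero_add] at hi
      exact Or.inr (Finset.mem_filter.2 ⟨Finset.mem_univ _, hi⟩)
    · refine (Finset.card_union_le _ _).trans ?_
      have := Finset.card_le_two (a := x) (b := y)
      omega

theorem orbit_odd (h4 : 4 ≤ Fintype.card ι) {g : G} (hg : S.frame.Nrm g) (hne : S.frame.L g 1 ≠ 1) :
    ∑ i, S.frame.L g 1 i = 1 := by
  classical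
  set F := S.frame
  set v := F.L g 1 with hv
  by_contra hodd
  set s := Finset.univ.filter fun i => v i = 1 with hs
  have hind : v = fun j => if j ∈ s then 1 else 0 := funext fun j => by
    by_cases h : v j = 1
    · rw [if_pos (show j ∈ s from Finset.mem_filter.2 ⟨Finset.mem_univ _, h⟩), h]
    · rw [if_neg (show j ∉ s from fun h' => h (Finset.mem_filter.1 h').2), zmod2_ne_one h]
  have hsum : ∑ i, v i = (s.card : ZMod 2) := by
    rw [hind, Finset.sum_boole, Finset.filter_mem_eq_inter, Finset.univ_inter]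
  obtain ⟨k, hk⟩ : Even s.card := by
    rw [← ZMod.natCast_eq_zero_iff_even, ← hsum]; exact zmod2_ne_one hodd
  have hw := weight_le (fun u w => hg.inv.L_add u w) (A := fun i => v i = 1)
    (fun p q hp hq hpq => by
      obtain ⟨x, y, -, h⟩ := S.pair_back hg hpq (hp.trans hq.symm)
      exact ⟨x, y, h⟩) k s (by omega) (fun i hi => (Finset.mem_filter.1 hi).2)
  rw [← hind, hv, hg.L_inv] at hw
  simp only [Pi.one_apply, Finset.filter_true, Finset.card_univ] at hw
  have hsle : s.card = Fintype.card ι := by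
    have := Finset.card_le_univ s
    omega
  exact hne (funext fun i => (Finset.mem_filter.1 ((Finset.eq_univ_of_card s hsle).symm ▸ Finset.mem_univ i : i ∈ s)).2)

theorem parity_back (h4 : 4 ≤ Fintype.card ι) {g : G} (hg : S.frame.Nrm g) (hne : S.frame.L g 1 ≠ 1)
    (x : ι → ZMod 2) :
    ∑ i, S.frame.L g⁻¹ x i = ∑ i ∈ Finset.univ.filter (fun i => ¬ S.frame.L g 1 i = 1), x i := by
  classical
  set F := S.frame
  set v := F.L g 1 with hv
  let μ : (ι → ZMod 2) →+ ZMod 2 := AddMonoidHom.mk' (fun x => ∑ i, F.L g⁻¹ x i) fun a b => by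
    simp only [hg.inv.L_add, Pi.add_apply, Finset.sum_add_distrib]
  have hpair : ∀ p q, v p = v q → μ (pair p q) = 0 := fun p q h => by
    by_cases hpq : p = q
    · subst hpq; rw [pair_self, map_zero]
    obtain ⟨x, y, -, e⟩ := S.pair_back hg hpq h
    show ∑ i, F.L g⁻¹ (pair p q) i = 0
    rw [e, pair_sum]
  have hsides : Sides (fun i => v i = 1) ≤ μ.ker := sides_le _ _
    (fun p q hp hq _ => hpair p q (hp.trans hq.symm))
    (fun p q hp hq _ => hpair p q ((zmod2_ne_one hp).trans (zmod2_ne_one hq).symm))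
  obtain ⟨a, ha⟩ : ∃ a, v a = 1 := by
    by_contra hall
    push Not at hall
    have h := S.orbit_odd h4 hg hne
    rw [Finset.sum_eq_zero fun i _ => zmod2_ne_one (hall i)] at h
    exact zero_ne_one h
  obtain ⟨b, hb⟩ : ∃ b, ¬ v b = 1 := by
    by_contra hall
    push Not at hall
    exact hne (funext hall)
  have hgen : ∀ x : ι → ZMod 2, μ x = (∑ i ∈ Finset.univ.filter (fun i => v i = 1), x i) • μ (Pi.single a 1) +
      (∑ i ∈ Finset.univ.filter (fun i => ¬ v i = 1), x i) • μ (Pi.single b 1) := by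
    intro x
    set α := ∑ i ∈ Finset.univ.filter (fun i => v i = 1), x i
    set β := ∑ i ∈ Finset.univ.filter (fun i => ¬ v i = 1), x i
    have hm : x + Pi.single a α + Pi.single b β ∈ Sides (fun i => v i = 1) := by
      constructor
      · simp only [Pi.add_apply, Finset.sum_add_distrib, Finset.sum_pi_single', Finset.mem_filter,
          Finset.mem_univ, true_and, if_pos ha, if_neg hb]
        rw [add_zero]; exact CharTwo.add_self_eq_zero α
      · simp only [Pi.add_apply, Finset.sum_add_distrib, Finset.sum_pi_single', Finset.mem_filter,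
          Finset.mem_univ, true_and, if_pos hb, if_neg (not_not.2 ha)]
        rw [add_zero]; exact CharTwo.add_self_eq_zero β
    have h0 : μ (x + Pi.single a α + Pi.single b β) = 0 := hsides hm
    rw [map_add, map_add] at h0
    have hs : ∀ (c : ι) (γ : ZMod 2), μ (Pi.single c γ) = γ • μ (Pi.single c 1) := fun c γ => by
      rcases zmod2_cases γ with rfl | rfl
      · rw [Pi.single_zero, map_zero, zero_smul]
      · rw [one_smul]
    rw [hs a, hs b] at h0
    rw [add_assoc] at h0
    exact CharTwo.add_eq_zero.1 h0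
  have hA1 : ∑ i ∈ Finset.univ.filter (fun i => v i = 1), v i = 1 := by
    have h := S.orbit_odd h4 hg hne
    rwa [← Finset.sum_filter_add_sum_filter_not Finset.univ (fun i => v i = 1),
      Finset.sum_eq_zero fun i (hi : i ∈ Finset.univ.filter fun i => ¬ v i = 1) =>
        zmod2_ne_one (Finset.mem_filter.1 hi).2, add_zero] at h
  have hμv : μ v = 0 := by
    show ∑ i, F.L g⁻¹ v i = 0
    rw [hv, hg.L_inv]
    simp only [Pi.one_apply, Finset.sum_const, Finset.card_univ, nsmul_eq_mul, mul_one,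
      ZMod.natCast_eq_zero_iff_even.2 S.even]
  have hca : μ (Pi.single a 1) = 0 := by
    have := hgen v
    rw [hA1, one_smul, hμv, Finset.sum_eq_zero fun i (hi : i ∈ Finset.univ.filter fun i => ¬ v i = 1) =>
      zmod2_ne_one (Finset.mem_filter.1 hi).2, zero_smul, add_zero] at this
    exact this.symm
  have hcb : μ (Pi.single b 1) = 1 := by
    refine (zmod2_cases _).resolve_left fun h0 => ?_
    have h := hgen (F.L g (Pi.single a 1))
    rw [hca, h0, smul_zero, smul_zero, add_zero] at h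
    change ∑ i, F.L g⁻¹ (F.L g (Pi.single a 1)) i = 0 at h
    rw [hg.L_inv, Finset.sum_pi_single', if_pos (Finset.mem_univ a)] at h
    exact one_ne_zero h
  have h := hgen x
  rw [hca, hcb, smul_zero, zero_add, smul_eq_mul, mul_one] at h
  exact h

theorem orbit_parity (h4 : 4 ≤ Fintype.card ι) {g g' : G} (hg : S.frame.Nrm g) (hg' : S.frame.Nrm g')
    (hne : S.frame.L g 1 ≠ 1) (hne' : S.frame.L g' 1 ≠ S.frame.L g 1) :
    ∑ i ∈ Finset.univ.filter (fun i => ¬ S.frame.L g 1 i = 1), S.frame.L g' 1 i = 1 := by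
  rw [← S.parity_back h4 hg hne, ← hg.inv.L_mul hg']
  refine S.orbit_odd h4 (hg.inv.mul hg') fun h => hne' ?_
  rw [hg.inv.L_mul hg'] at h
  have h2 := congrArg (S.frame.L g) h
  have h3 := hg.inv.L_inv (S.frame.L g' 1)
  rw [inv_inv] at h3
  rwa [h3] at h2

theorem orbit_perm {g : G} (hg : S.frame.Nrm g) (σ : Equiv.Perm ι) :
    ∃ g', S.frame.Nrm g' ∧ S.frame.L g' 1 = S.frame.L g 1 ∘ σ := by
  refine ⟨S.frame.el 0 σ⁻¹ * g, (S.frame.el_nrm _ _).mul hg, ?_⟩
  rw [(S.frame.el_nrm _ _).L_mul hg, S.frame.L_el]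
  rfl

/-- The orbit of `t` has weights `1` or `|ι| - 1`. -/
theorem orbit_small (h4 : 4 ≤ Fintype.card ι) {g : G} (hg : S.frame.Nrm g) (hne : S.frame.L g 1 ≠ 1) :
    ∃ i, S.frame.L g 1 = Pi.single i 1 ∨ S.frame.L g 1 = 1 + Pi.single i 1 := by
  classical
  set v := S.frame.L g 1 with hv
  have hodd := S.orbit_odd h4 hg hne
  obtain ⟨p, hp⟩ : ∃ a, v a = 1 := by
    by_contra hall
    push Not at hall
    rw [Finset.sum_eq_zero fun i _ => zmod2_ne_one (hall i)] at hodd
    exact zero_ne_one hodd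
  obtain ⟨q, hq⟩ : ∃ b, ¬ v b = 1 := by
    by_contra hall
    push Not at hall
    exact hne (funext hall)
  by_contra hcon
  push Not at hcon
  obtain ⟨p', hp', hpp⟩ : ∃ a, v a = 1 ∧ a ≠ p := by
    by_contra hall
    push Not at hall
    refine (hcon p).1 (funext fun i => ?_)
    by_cases h : i = p
    · rw [h, hp, Pi.single_eq_same]
    · rw [Pi.single_eq_of_ne h, zmod2_ne_one fun h' => h (hall i h')]
  obtain ⟨q', hq', hqq⟩ : ∃ b, ¬ v b = 1 ∧ b ≠ q := by
    by_contra hall
    push Not at hall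
    refine (hcon q).2 (funext fun i => ?_)
    by_cases h : i = q
    · rw [h, Pi.add_apply, Pi.one_apply, Pi.single_eq_same, zmod2_ne_one hq]; decide
    · rw [Pi.add_apply, Pi.one_apply, Pi.single_eq_of_ne h, add_zero]
      by_contra h'
      exact h (hall i h')
  have hpq : p ≠ q := fun e => hq (e ▸ hp)
  have hp'q' : p' ≠ q' := fun e => hq' (e ▸ hp')
  have hpq' : p ≠ q' := fun e => hq' (e ▸ hp)
  have hp'q : p' ≠ q := fun e => hq (e ▸ hp')
  obtain ⟨g', hg', hg'v⟩ := S.orbit_perm hg (Equiv.swap p q * Equiv.swap p' q')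
  rw [← hv] at hg'v
  have hdiff : S.frame.L g' 1 ≠ v := fun e => hq (by
    rw [← e, hg'v, Function.comp_apply, Equiv.Perm.mul_apply,
      Equiv.swap_apply_of_ne_of_ne hp'q.symm hqq.symm, Equiv.swap_apply_right, hp])
  have h := S.orbit_parity h4 hg hg' hne hdiff
  rw [hg'v] at h
  have hsum : ∑ i ∈ Finset.univ.filter (fun i => ¬ v i = 1),
      (v ∘ (Equiv.swap p q * Equiv.swap p' q')) i = v p + v p' := by
    rw [← Finset.sum_subset (s₁ := {q, q'})]
    · rw [Finset.sum_pair hqq.symm]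
      simp only [Function.comp_apply, Equiv.Perm.mul_apply]
      rw [Equiv.swap_apply_of_ne_of_ne hp'q.symm hqq.symm, Equiv.swap_apply_right,
        Equiv.swap_apply_right, Equiv.swap_apply_of_ne_of_ne hpp hp'q]
    · intro i hi
      simp only [Finset.mem_insert, Finset.mem_singleton] at hi
      rcases hi with rfl | rfl <;> exact Finset.mem_filter.2 ⟨Finset.mem_univ _, by assumption⟩
    · intro i hi hi'
      simp only [Finset.mem_insert, Finset.mem_singleton, not_or] at hi'
      have hvi := (Finset.mem_filter.1 hi).2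
      rw [Function.comp_apply, Equiv.Perm.mul_apply,
        Equiv.swap_apply_of_ne_of_ne (fun e : i = p' => hvi (by rw [e]; exact hp')) hi'.2,
        Equiv.swap_apply_of_ne_of_ne (fun e : i = p => hvi (by rw [e]; exact hp)) hi'.1]
      exact zmod2_ne_one hvi
  rw [hsum, hp, hp'] at h
  exact absurd h (by decide)

theorem no_mixed (h4 : 4 ≤ Fintype.card ι) {g g' : G} (hg : S.frame.Nrm g) (hg' : S.frame.Nrm g')
    {i j : ι} (h : S.frame.L g 1 = Pi.single i 1) (h' : S.frame.L g' 1 = 1 + Pi.single j 1) : False := by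
  classical
  obtain ⟨k, hk⟩ : ∃ k, k ≠ i := by
    by_contra hall
    push Not at hall
    have := Fintype.card_le_one_iff.2 fun a b => (hall a).trans (hall b).symm
    omega
  obtain ⟨g'', hg'', e⟩ := S.orbit_perm hg' (Equiv.swap k j)
  have e' : S.frame.L g'' 1 = 1 + Pi.single k 1 := by
    rw [e, h']
    funext x
    simp only [Function.comp_apply, Pi.add_apply, Pi.one_apply]
    congr 1
    by_cases hx : x = k
    · rw [hx, Equiv.swap_apply_left, Pi.single_eq_same, Pi.single_eq_same]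
    · rw [Pi.single_eq_of_ne hx, Pi.single_eq_of_ne fun e => hx (by
        rw [← Equiv.swap_apply_self k j x, e, Equiv.swap_apply_right])]
  have hnek : S.frame.L g 1 ≠ 1 := fun e1 => by
    have := congrFun (h.symm.trans e1) k
    rw [Pi.single_eq_of_ne hk, Pi.one_apply] at this
    exact zero_ne_one this
  have hd : S.frame.L g'' 1 ≠ S.frame.L g 1 := fun e1 => by
    obtain ⟨z, hz⟩ : ∃ z, z ∉ ({i, k} : Finset ι) := by
      by_contra hh
      push Not at hh
      have := Finset.card_le_card (show (Finset.univ : Finset ι) ⊆ {i, k} from fun x _ => hh x)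
      rw [Finset.card_univ, Finset.card_pair hk.symm] at this
      omega
    simp only [Finset.mem_insert, Finset.mem_singleton, not_or] at hz
    have := congrFun ((e'.symm.trans e1).trans h) z
    rw [Pi.add_apply, Pi.one_apply, Pi.single_eq_of_ne hz.2, add_zero, Pi.single_eq_of_ne hz.1] at this
    exact one_ne_zero this
  have hp := S.orbit_parity h4 hg hg'' hnek hd
  rw [h, e'] at hp
  rw [show (Finset.univ.filter fun x => ¬ (Pi.single i 1 : ι → ZMod 2) x = 1) = Finset.univ.erase i by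
    ext x
    by_cases hx : x = i
    · simp [hx]
    · simp [hx, Pi.single_eq_of_ne hx]] at hp
  simp only [Pi.add_apply, Pi.one_apply, Finset.sum_add_distrib, Finset.sum_const, nsmul_eq_mul, mul_one,
    Finset.sum_pi_single', Finset.mem_erase, Finset.mem_univ, and_true, ne_eq, hk, not_false_eq_true,
    if_true, Finset.card_erase_of_mem (Finset.mem_univ i), Finset.card_univ] at hp
  obtain ⟨m, hm⟩ := S.even
  rw [show Fintype.card ι - 1 = 2 * (m - 1) + 1 by omega, Nat.cast_add, Nat.cast_mul,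
    show ((2 : ℕ) : ZMod 2) = 0 from rfl, zero_mul, zero_add, Nat.cast_one] at hp
  exact absurd hp (by decide)

end Setup

/-- The standard normalisation: `t * e i` is conjugate to `t`. -/
def Setup.Std (S : Setup G ι t) : Prop :=
  ∃ g, S.frame.Nrm g ∧ ∃ i, S.frame.L g 1 = 1 + Pi.single i 1

theorem Setup.exists_std [Finite G] (S : Setup G ι t) (h4 : 4 ≤ Fintype.card ι) :
    ∃ S' : Setup G ι t, S'.Std := by
  obtain ⟨g, hg, hne⟩ := S.exists_move h4
  obtain ⟨i, hi | hi⟩ := S.orbit_small h4 hg hne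
  swap
  · exact ⟨S, g, hg, i, hi⟩
  let S' : Setup G ι t := ⟨S.frame.twist S.even, S.even, S.noTwo, S.oddIndex⟩
  have hE : S'.frame.E = S.frame.E := by
    ext x
    constructor
    · rintro ⟨v, rfl⟩; exact S.frame.vec_mem_E _
    · rintro ⟨v, rfl⟩
      refine ⟨v + (∑ j, v j) • 1, congrArg S.frame.vec ?_⟩
      simp only [Pi.add_apply, Pi.smul_apply, Pi.one_apply, smul_eq_mul, mul_one, Finset.sum_add_distrib,
        Finset.sum_const, Finset.card_univ, nsmul_eq_mul, ZMod.natCast_eq_zero_iff_even.2 S.even,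
        zero_mul, add_zero]
      rw [add_assoc, Frame.zmod_add_self, add_zero]
  have hg' : S'.frame.Nrm g := by rw [Frame.Nrm, hE]; exact hg
  refine ⟨S', g, hg', i, S'.frame.vec_inj ?_⟩
  rw [hg'.spec, show g * S'.frame.vec 1 * g⁻¹ = g * S.frame.vec 1 * g⁻¹ from
    congrArg (fun x => g * x * g⁻¹) (S'.frame.vec_one.trans S.frame.vec_one.symm), ← hg.spec, hi]
  show S.frame.vec (Pi.single i 1) = S.frame.vec (_ + _)
  congr 1
  simp only [Pi.add_apply, Pi.one_apply, Finset.sum_add_distrib, Finset.sum_const, Finset.card_univ,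
    nsmul_eq_mul, ZMod.natCast_eq_zero_iff_even.2 S.even, zero_mul, zero_add, Finset.sum_pi_single',
    Finset.mem_univ, if_true, one_smul]
  rw [add_comm (1 : ι → ZMod 2), add_assoc, Frame.zmod_add_self, add_zero]

end CfsgLib.AltCentralizer
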