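import Cfsg.Agent.AltCentralizer.Orbit

/-!
The normaliser of the base group permutes `|ι| + 1` points as the full symmetric group.
-/

set_option autoImplicit false

namespace CfsgLib.AltCentralizer

variable {G : Type*} [Group G] {ι : Type*} [Fintype ι] [DecidableEq ι] {t : G}

/-- The points: `t` and the `t * e i`. -/
def pt : Option ι → ι → ZMod 2
  | none => 1
  | some i => 1 + Pi.single i 1

/-- The vector with point coordinates `c`. -/
def comb (c : Option ι → ZMod 2) : ι → ZMod 2 := fun i => (∑ p, c p) + c (some i)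

/-- The even coordinates of a vector. -/
def rep (u : ι → ZMod 2) : Option ι → ZMod 2
  | none => ∑ i, u i
  | some i => u i

/-- The set of points in the even representation. -/
def pts (u : ι → ZMod 2) : Finset (Option ι) := Finset.univ.filter fun p => rep u p = 1

theorem sum_rep (u : ι → ZMod 2) : ∑ p, rep u p = 0 := by
  rw [Fintype.sum_option]
  exact CharTwo.add_self_eq_zero _

theorem comb_rep (u : ι → ZMod 2) : comb (rep u) = u := funext fun i => by
  rw [comb, sum_rep, zero_add]; rfl

theorem rep_comb {c : Option ι → ZMod 2} (hc : ∑ p, c p = 0) : rep (comb c) = c := by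
  have h : ∀ i, comb c i = c (some i) := fun i => by rw [comb, hc, zero_add]
  funext p
  cases p with
  | none =>
    show ∑ i, comb c i = c none
    simp only [h]
    rw [Fintype.sum_option] at hc
    exact (CharTwo.add_eq_zero.1 hc).symm
  | some i => exact h i

theorem comb_add (c c' : Option ι → ZMod 2) : comb (c + c') = comb c + comb c' := funext fun i => by
  simp only [comb, Pi.add_apply, Finset.sum_add_distrib]
  abel

theorem comb_single (p : Option ι) : comb (Pi.single p 1) = pt p := funext fun i => by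
  rw [comb, Finset.sum_pi_single', if_pos (Finset.mem_univ p)]
  cases p with
  | none => rw [Pi.single_eq_of_ne (Option.some_ne_none i), add_zero]; rfl
  | some j =>
    show 1 + (Pi.single (some j) 1 : Option ι → ZMod 2) (some i) = (1 + Pi.single j 1 : ι → ZMod 2) i
    rw [Pi.add_apply, Pi.one_apply]
    congr 1
    by_cases h : i = j
    · rw [h, Pi.single_eq_same, Pi.single_eq_same]
    · rw [Pi.single_eq_of_ne h, Pi.single_eq_of_ne fun e => h (Option.some_injective _ e)]

theorem pt_injective (h4 : 2 ≤ Fintype.card ι) : Function.Injective (pt : Option ι → ι → ZMod 2) := by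
  have hne : ∀ i : ι, (1 + Pi.single i 1 : ι → ZMod 2) ≠ 1 := fun i e => by
    have := congrFun e i
    rw [Pi.add_apply, Pi.one_apply, Pi.single_eq_same] at this
    exact absurd this (by decide)
  intro p q e
  cases p with
  | none =>
    cases q with
    | none => rfl
    | some j => exact absurd e.symm (hne j)
  | some i =>
    cases q with
    | none => exact absurd e (hne i)
    | some j =>
      have := congrFun e i
      simp only [pt, Pi.add_apply, Pi.one_apply, Pi.single_eq_same, add_right_inj] at this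
      by_contra hij
      rw [Pi.single_eq_of_ne fun h : i = j => hij (by rw [h])] at this
      exact one_ne_zero this

theorem even_pts (u : ι → ZMod 2) : Even (pts u).card := by
  rw [← ZMod.natCast_eq_zero_iff_even]
  have h := sum_rep u
  rw [← h, pts, ← Finset.sum_boole]
  exact Finset.sum_congr rfl fun p _ => by
    rcases zmod2_cases (rep u p) with e | e <;> simp [e]

theorem pts_eq_empty_iff (u : ι → ZMod 2) : pts u = ∅ ↔ u = 0 := by
  refine ⟨fun h => funext fun i => zmod2_ne_one fun e => ?_, fun h => ?_⟩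
  · exact Finset.notMem_empty (some i) (h ▸ Finset.mem_filter.2 ⟨Finset.mem_univ _, e⟩)
  · rw [h, pts, Finset.filter_eq_empty_iff]
    intro p _
    cases p <;> simp [rep]

theorem exists_pts {m : ℕ} (hm : m ≤ Fintype.card ι) (he : Even m) :
    ∃ u : ι → ZMod 2, (pts u).card = m := by
  obtain ⟨s, -, hs⟩ := Finset.exists_subset_card_eq (s := (Finset.univ : Finset (Option ι))) (n := m)
    (by rw [Finset.card_univ, Fintype.card_option]; omega)
  refine ⟨comb fun p => if p ∈ s then 1 else 0, ?_⟩
  have hc : ∑ p, (if p ∈ s then (1 : ZMod 2) else 0) = 0 := by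
    rw [Finset.sum_boole, Finset.filter_mem_eq_inter, Finset.univ_inter, hs,
      ZMod.natCast_eq_zero_iff_even.2 he]
  rw [pts, rep_comb hc, ← hs]
  congr 1
  ext p
  by_cases hp : p ∈ s <;> simp [hp]

namespace Setup

variable [Finite G] (S : Setup G ι t)

/-- `g` acts on the points as `π`. -/
def Acts (g : G) (π : Equiv.Perm (Option ι)) : Prop :=
  S.frame.Nrm g ∧ ∀ p, S.frame.L g (pt p) = pt (π p)

theorem Std.exists_point (hS : S.Std) (p : Option ι) : ∃ g, S.frame.Nrm g ∧ S.frame.L g 1 = pt p := by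
  obtain ⟨g, hg, i, hi⟩ := hS
  cases p with
  | none => exact ⟨S.frame.el 0 1, S.frame.el_nrm _ _, by rw [S.frame.L_el]; rfl⟩
  | some j =>
    obtain ⟨g', hg', e⟩ := S.orbit_perm hg (Equiv.swap i j)
    refine ⟨g', hg', ?_⟩
    rw [e, hi]
    funext x
    show 1 + (Pi.single i 1 : ι → ZMod 2) (Equiv.swap i j x) = 1 + (Pi.single j 1 : ι → ZMod 2) x
    congr 1
    by_cases h : x = j
    · rw [h, Equiv.swap_apply_right, Pi.single_eq_same, Pi.single_eq_same]
    · rw [Pi.single_eq_of_ne h, Pi.single_eq_of_ne fun e => h (by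
        rw [← Equiv.swap_apply_self i j x, e, Equiv.swap_apply_left])]

variable {S}

theorem Std.orbit_mem (hS : S.Std) (h4 : 4 ≤ Fintype.card ι) {g : G} (hg : S.frame.Nrm g) :
    ∃ p, S.frame.L g 1 = pt p := by
  by_cases hne : S.frame.L g 1 = 1
  · exact ⟨none, hne⟩
  obtain ⟨i, hi | hi⟩ := S.orbit_small h4 hg hne
  · obtain ⟨g', hg', j, hj⟩ := hS
    exact (S.no_mixed h4 hg hg' hi hj).elim
  · exact ⟨some i, hi⟩

theorem Std.exists_acts (hS : S.Std) (h4 : 4 ≤ Fintype.card ι) {g : G} (hg : S.frame.Nrm g) :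
    ∃ π, S.Acts g π := by
  have h : ∀ p, ∃ q, S.frame.L g (pt p) = pt q := by
    intro p
    obtain ⟨g', hg', e⟩ := Std.exists_point S hS p
    obtain ⟨q, hq⟩ := hS.orbit_mem h4 (hg.mul hg')
    refine ⟨q, ?_⟩
    rw [← e, ← hg.L_mul hg', hq]
  choose f hf using h
  have hinj : Function.Injective f := fun p q e => pt_injective (by omega) (by
    have h := (hf p).trans ((congrArg pt e).trans (hf q).symm)
    have h2 := congrArg (S.frame.L g⁻¹) h
    rwa [hg.L_inv, hg.L_inv] at h2)
  exact ⟨Equiv.ofBijective f (Finite.injective_iff_bijective.1 hinj), hg, hf⟩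

theorem Acts.mul {g h : G} {π π' : Equiv.Perm (Option ι)} (hg : S.Acts g π) (hh : S.Acts h π') :
    S.Acts (g * h) (π * π') :=
  ⟨hg.1.mul hh.1, fun p => by rw [hg.1.L_mul hh.1, hh.2, hg.2]; rfl⟩

theorem Acts.inv {g : G} {π : Equiv.Perm (Option ι)} (hg : S.Acts g π) : S.Acts g⁻¹ π⁻¹ :=
  ⟨hg.1.inv, fun p => by
    conv_lhs => rw [← π.apply_symm_apply p, ← hg.2 (π.symm p), hg.1.L_inv]
    rfl⟩

theorem acts_el (σ : Equiv.Perm ι) : S.Acts (S.frame.el 0 σ) σ.optionCongr := by
  refine ⟨S.frame.el_nrm _ _, fun p => ?_⟩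
  rw [S.frame.L_el]
  cases p with
  | none => rfl
  | some i =>
    funext x
    show 1 + (Pi.single i 1 : ι → ZMod 2) (σ.symm x) = (pt (σ.optionCongr (some i)) : ι → ZMod 2) x
    rw [Equiv.optionCongr_apply, Option.map_some]
    show 1 + (Pi.single i 1 : ι → ZMod 2) (σ.symm x) = 1 + (Pi.single (σ i) 1 : ι → ZMod 2) x
    congr 1
    by_cases h : x = σ i
    · rw [h, Equiv.symm_apply_apply, Pi.single_eq_same, Pi.single_eq_same]
    · rw [Pi.single_eq_of_ne h, Pi.single_eq_of_ne fun e => h (by rw [← e, Equiv.apply_symm_apply])]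

/-- Every permutation of the points is induced. -/
theorem Std.perm_surj (hS : S.Std) (h4 : 4 ≤ Fintype.card ι) (π : Equiv.Perm (Option ι)) :
    ∃ g, S.Acts g π := by
  obtain ⟨g, hg, e⟩ := Std.exists_point S hS (π none)
  obtain ⟨π₀, h₀⟩ := hS.exists_acts h4 hg
  have hn : π₀ none = π none := pt_injective (by omega) (by
    rw [← h₀.2 none, ← e]; rfl)
  have hfix : (π₀⁻¹ * π) none = none := by
    rw [Equiv.Perm.mul_apply, ← hn]
    exact π₀.symm_apply_apply none
  refine ⟨g * S.frame.el 0 (Equiv.removeNone (π₀⁻¹ * π)), ?_⟩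
  have h : π = π₀ * (Equiv.removeNone (π₀⁻¹ * π)).optionCongr := by
    have hc : (Equiv.removeNone (π₀⁻¹ * π)).optionCongr = π₀⁻¹ * π := Equiv.ext fun p => by
      cases p with
      | none => rw [Equiv.optionCongr_apply, Option.map_none, hfix]
      | some i =>
        rw [Equiv.optionCongr_apply, Option.map_some, Equiv.removeNone_some]
        cases h : (π₀⁻¹ * π) (some i) with
        | none => exact absurd ((π₀⁻¹ * π).injective (h.trans hfix.symm)) (Option.some_ne_none i)
        | some j => exact ⟨j, rfl⟩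
    rw [hc, mul_inv_cancel_left]
  have h' := h₀.mul (acts_el (S := S) (Equiv.removeNone (π₀⁻¹ * π)))
  rwa [← h] at h'

theorem Acts.L_comb {g : G} {π : Equiv.Perm (Option ι)} (hg : S.Acts g π) (c : Option ι → ZMod 2) :
    S.frame.L g (comb c) = comb (c ∘ π.symm) := by
  let lhs : (Option ι → ZMod 2) →+ (ι → ZMod 2) := AddMonoidHom.mk' (fun c => S.frame.L g (comb c))
    fun c c' => by rw [comb_add, hg.1.L_add]
  let rhs : (Option ι → ZMod 2) →+ (ι → ZMod 2) := AddMonoidHom.mk' (fun c => comb (c ∘ π.symm))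
    fun c c' => by rw [← comb_add]; rfl
  suffices h : lhs = rhs from DFunLike.congr_fun h c
  refine AddMonoidHom.functions_ext _ _ _ fun p x => ?_
  rcases zmod2_cases x with rfl | rfl
  · rw [Pi.single_zero, map_zero, map_zero]
  show S.frame.L g (comb (Pi.single p 1)) = comb (Pi.single p 1 ∘ π.symm)
  rw [show (Pi.single p 1 : Option ι → ZMod 2) ∘ π.symm = Pi.single (π p) 1 from funext fun q => by
    by_cases h : q = π p
    · rw [h, Function.comp_apply, Equiv.symm_apply_apply, Pi.single_eq_same, Pi.single_eq_same]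
    · rw [Function.comp_apply, Pi.single_eq_of_ne h, Pi.single_eq_of_ne fun e => h (by
        rw [← e, Equiv.apply_symm_apply])], comb_single, comb_single, hg.2]

theorem Acts.pts_map {g : G} {π : Equiv.Perm (Option ι)} (hg : S.Acts g π) (u : ι → ZMod 2) :
    pts (S.frame.L g u) = (pts u).map π.toEmbedding := by
  have hc : ∑ p, (rep u ∘ π.symm) p = 0 := by
    rw [← sum_rep u]; exact Equiv.sum_comp π.symm (rep u)
  have e : rep (S.frame.L g u) = rep u ∘ π.symm := by
    conv_lhs => rw [← comb_rep u, hg.L_comb, rep_comb hc]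
  ext p
  simp [pts, e, Finset.mem_map_equiv]

/-- Classes of `G` inside the base group. -/
theorem Std.conj_iff (hS : S.Std) (h4 : 4 ≤ Fintype.card ι) (u w : ι → ZMod 2) :
    IsConj (S.frame.vec u) (S.frame.vec w) ↔ (pts u).card = (pts w).card := by
  constructor
  · intro h
    obtain ⟨g, hg⟩ := isConj_iff.1 h
    obtain ⟨n, hn, hn'⟩ := S.control h4 (S.frame.vec_mem_E u) (S.frame.vec_mem_E w) hg
    obtain ⟨π, hπ⟩ := hS.exists_acts h4 hn
    have e : S.frame.L n u = w := by
      apply S.frame.vec_inj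
      rw [Frame.Nrm.spec hn, hn']
    rw [← e, hπ.pts_map, Finset.card_map]
  · intro h
    have e : {p // p ∈ pts u} ≃ {p // p ∈ pts w} := (pts u).equivOfCardEq h
    obtain ⟨g, hg⟩ := hS.perm_surj h4 e.extendSubtype
    refine isConj_iff.2 ⟨g, ?_⟩
    rw [← hg.1.spec]
    congr 1
    have hp : pts (S.frame.L g u) = pts w := by
      rw [hg.pts_map]
      refine Finset.eq_of_subset_of_card_le ?_ (by rw [Finset.card_map, h])
      intro q hq
      obtain ⟨p, hp, rfl⟩ := Finset.mem_map.1 hq
      exact e.extendSubtype_mem p hp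
    have hr : rep (S.frame.L g u) = rep w := funext fun p => by
      rcases zmod2_cases (rep (S.frame.L g u) p) with e1 | e1
      · rcases zmod2_cases (rep w p) with e2 | e2
        · rw [e1, e2]
        · have h3 : p ∈ pts (S.frame.L g u) := hp ▸ Finset.mem_filter.2 ⟨Finset.mem_univ _, e2⟩
          rw [(Finset.mem_filter.1 h3).2, e2]
      · have h3 : p ∈ pts w := hp ▸ Finset.mem_filter.2 ⟨Finset.mem_univ _, e1⟩
        rw [e1, (Finset.mem_filter.1 h3).2]
    rw [← comb_rep (S.frame.L g u), hr, comb_rep]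

/-- If every involution is conjugate into the base group, there are `|ι| / 2` classes of involutions. -/
theorem Std.count (hS : S.Std) (h4 : 4 ≤ Fintype.card ι) {n : ℕ} (hn : Fintype.card ι = 2 * n)
    (hinto : ∀ x : G, orderOf x = 2 → ∃ u, IsConj x (S.frame.vec u)) :
    Nat.card {c : ConjClasses G // ∃ x ∈ c.carrier, orderOf x = 2} = n := by
  haveI : Fact (Nat.Prime 2) := ⟨Nat.prime_two⟩
  have hrep : ∀ k : Fin n, ∃ u : ι → ZMod 2, (pts u).card = 2 * (k.1 + 1) := fun k =>
    exists_pts (by have := k.2; omega) (even_two_mul _)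
  choose f hf using hrep
  have hord : ∀ k, orderOf (S.frame.vec (f k)) = 2 := fun k => orderOf_eq_prime
    (by rw [pow_two, S.frame.vec_mul_self]) fun e => by
      rw [← S.frame.vec_zero] at e
      have := hf k
      rw [(pts_eq_empty_iff _).2 (S.frame.vec_inj e), Finset.card_empty] at this
      omega
  let Φ : Fin n → {c : ConjClasses G // ∃ x ∈ c.carrier, orderOf x = 2} := fun k =>
    ⟨ConjClasses.mk (S.frame.vec (f k)), _, ConjClasses.mem_carrier_mk, hord k⟩
  rw [← Nat.card_eq_of_bijective Φ ⟨fun k k' e => ?_, fun c => ?_⟩, Nat.card_fin]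
  · have h := (hS.conj_iff h4 _ _).1 (ConjClasses.mk_eq_mk_iff_isConj.1 (congrArg Subtype.val e))
    rw [hf, hf] at h
    exact Fin.ext (by omega)
  · obtain ⟨c, x, hxc, hx⟩ := c
    obtain ⟨u, hu⟩ := hinto x hx
    have hu0 : u ≠ 0 := fun e => by
      rw [e, S.frame.vec_zero, isConj_one_left] at hu
      rw [hu, orderOf_one] at hx
      omega
    obtain ⟨k, hk⟩ := even_pts u
    have hle : (pts u).card ≤ Fintype.card ι + 1 := by
      rw [← Fintype.card_option]; exact Finset.card_le_univ _
    have hpos : (pts u).card ≠ 0 := fun e => hu0 ((pts_eq_empty_iff u).1 (Finset.card_eq_zero.1 e))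
    refine ⟨⟨k - 1, by omega⟩, Subtype.ext ?_⟩
    refine Eq.trans ?_ (ConjClasses.mem_carrier_iff_mk_eq.1 hxc)
    refine ConjClasses.mk_eq_mk_iff_isConj.2 (IsConj.trans ?_ hu.symm)
    exact (hS.conj_iff h4 _ _).2 (by rw [hf]; show 2 * (k - 1 + 1) = _; omega)

end Setup

end CfsgLib.AltCentralizer
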