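import Cfsg.Agent.AltCentralizer.Rotation

/-!
Every involution is conjugate into the base group: the number of points moved by the permutation part
is lowered by an element of order three permuting `d`, `S'`, `S' d`.
-/

set_option autoImplicit false

namespace CfsgLib.AltCentralizer

variable {G : Type*} [Group G] {ι : Type*} [Fintype ι] [DecidableEq ι] {t : G}

/-- The four-group generated by `vec (pair a b)` and `S'`. -/
def Frame.V (F : Frame G ι t) (a b : ι) (hab : a ≠ b) (ε : ZMod 2) : Subgroup G where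
  carrier := {m | m = 1 ∨ m = F.vec (pair a b) ∨ m = sel F a b ε ∨ m = sel F a b ε * F.vec (pair a b)}
  one_mem' := Or.inl rfl
  mul_mem' := by
    set d := F.vec (pair a b)
    set s := sel F a b ε
    have hdd : d * d = 1 := F.vec_mul_self _
    have hss : s * s = 1 := F.sel_sq
    have hds : d * s = s * d := F.sel_comm (F.vec_mem_B.2 (pair_ab hab))
    have h1 : ∀ x, d * (s * x) = s * (d * x) := fun x => by rw [← mul_assoc, hds, mul_assoc]
    have h2 : ∀ x, s * (s * x) = x := fun x => by rw [← mul_assoc, hss, one_mul]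
    rintro _ _ (rfl | rfl | rfl | rfl) (rfl | rfl | rfl | rfl) <;>
      simp [hdd, hss, hds, h1, h2, mul_assoc]
  inv_mem' := by
    have hdd := F.vec_inv (pair a b)
    have hss : (sel F a b ε)⁻¹ = sel F a b ε := inv_eq_of_mul_eq_one_right F.sel_sq
    rintro _ (rfl | rfl | rfl | rfl)
    · exact Or.inl inv_one
    · exact Or.inr (Or.inl hdd)
    · exact Or.inr (Or.inr (Or.inl hss))
    · refine Or.inr (Or.inr (Or.inr ?_))
      rw [mul_inv_rev, hdd, hss, F.sel_comm (F.vec_mem_B.2 (pair_ab hab))]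

theorem Frame.V_le (F : Frame G ι t) {a b : ι} (hab : a ≠ b) {ε : ZMod 2} : F.V a b hab ε ≤ F.B a b := by
  rintro _ (rfl | rfl | rfl | rfl)
  exacts [one_mem _, F.vec_mem_B.2 (pair_ab hab), F.sel_mem,
    mul_mem F.sel_mem (F.vec_mem_B.2 (pair_ab hab))]

/-- The block group is self-centralising. -/
theorem Frame.mem_B_of_commute (F : Frame G ι t) {a b : ι} (hab : a ≠ b) (h3 : 3 ≤ Fintype.card ι) {g : G}
    (h : ∀ f ∈ F.B a b, Commute g f) : g ∈ F.B a b := by
  obtain ⟨o, ho, v, σ, rfl⟩ := F.cent_eq g (h t (F.t_mem_blk _ _))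
  rw [show o * (F.vec v * F.lift σ) = o * F.el v σ from rfl] at h ⊢
  have hel : ∀ f ∈ F.B a b, Commute (F.el v σ) f := fun f hf => by
    have h1 := F.conj_eq ho v σ (blk_le_Im hf)
      (by rw [mul_inv_eq_iff_eq_mul.2 (h f hf).eq]; exact blk_le_Im hf)
    rw [mul_inv_eq_iff_eq_mul.2 (h f hf).eq] at h1
    exact mul_inv_eq_iff_eq_mul.1 h1.symm
  have hfix : ∀ r, r ≠ a → r ≠ b → σ r = r := fun r hra hrb => by
    have h1 := mul_inv_eq_iff_eq_mul.2 (hel _ ((F.vec_mem_B (a := a) (b := b) (w := Pi.single r 1)).2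
      (by rw [Pi.single_eq_of_ne hra.symm, Pi.single_eq_of_ne hrb.symm]))).eq
    rw [F.conj_vec] at h1
    have h2 := congrFun (F.vec_inj h1) (σ r)
    by_contra hne
    rw [Function.comp_apply, Equiv.symm_apply_apply, Pi.single_eq_same, Pi.single_eq_of_ne hne] at h2
    exact one_ne_zero h2
  have hblk : InBlk (Equiv.swap a b) σ := fun i => by
    by_cases hi : i = a ∨ i = b
    · have hσi : σ i = a ∨ σ i = b := by
        by_contra hn
        push Not at hn
        have := σ.injective (hfix _ hn.1 hn.2)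
        exact hi.elim (fun e => hn.1 (this.trans e)) fun e => hn.2 (this.trans e)
      rcases hi with rfl | rfl <;> rcases hσi with e | e <;> simp [e]
    · push Not at hi
      exact Or.inl (hfix i hi.1 hi.2)
  have hv : v a = v b := by
    have h1 := mul_inv_eq_iff_eq_mul.2
      (hel _ ((el_mem_blk (w := 0) (p := Equiv.swap a b)).2 ⟨fun _ => rfl, InBlk.refl _⟩)).eq
    rw [F.conj_el] at h1
    obtain ⟨h2, h3⟩ := F.el_inj h1
    rw [h3] at h2
    have h4 := congrFun h2 a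
    simp only [Pi.add_apply, Function.comp_apply, Equiv.symm_swap, Equiv.swap_apply_left,
      Pi.zero_apply, add_zero] at h4
    exact CharTwo.add_eq_zero.1 h4
  obtain ⟨r, hr⟩ : ∃ r, r ∉ ({a, b} : Finset ι) := by
    by_contra hh
    push Not at hh
    have := Finset.card_le_card (show (Finset.univ : Finset ι) ⊆ {a, b} from fun x _ => hh x)
    rw [Finset.card_univ, Finset.card_pair hab] at this
    omega
  simp only [Finset.mem_insert, Finset.mem_singleton, not_or] at hr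
  have hmem : F.el v σ ∈ F.B a b := el_mem_blk.2 ⟨swap_fix_iff.2 hv, hblk⟩
  have hr' := (F.vec_mem_B (a := a) (b := b) (w := Pi.single r 1)).2
    (by rw [Pi.single_eq_of_ne (Ne.symm hr.1), Pi.single_eq_of_ne (Ne.symm hr.2)])
  have hoc : Commute o (F.vec (Pi.single r 1)) := by
    have := (h _ hr').mul_left (hel _ hr').inv_left
    rwa [mul_inv_cancel_right] at this
  rw [F.centO o ho r hoc, one_mul]
  exact hmem

namespace Setup

variable [Finite G] {S : Setup G ι t}

/-- An element of order three permuting `d`, `S'` and `S' d`. -/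
theorem exists_rotation (hS : S.Std) (h4 : 4 ≤ Fintype.card ι) {a b : ι} (hab : a ≠ b) :
    ∃ ε y, y * y * y = 1 ∧
      y * S.frame.vec (pair a b) * y⁻¹ = sel S.frame a b ε ∧
      y * sel S.frame a b ε * y⁻¹ = sel S.frame a b ε * S.frame.vec (pair a b) ∧
      (∀ f ∈ S.frame.B a b, ∃ m ∈ S.frame.V a b hab ε, y * f * y⁻¹ = f * m) ∧
      (∀ w : ι → ZMod 2, w a = 0 → w b = 0 → ∑ i, w i = 0 → Commute y (S.frame.vec w)) ∧
      ∀ f ∈ S.frame.B a b, Commute ((S.frame.vec (Pi.single a 1) * y) * (S.frame.vec (Pi.single a 1) * y)) f := by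
  obtain ⟨ε, hsw⟩ := hS.exists_swaps h4 hab
  obtain ⟨h, hT, hd, heven⟩ := exists_flip hab hsw hS h4
  set d := S.frame.vec (pair a b) with hddef
  set s := sel S.frame a b ε
  set τ := S.frame.vec (Pi.single a 1) with hτdef
  have hdB : d ∈ S.frame.B a b := S.frame.vec_mem_B.2 (pair_ab hab)
  have hsB : s ∈ S.frame.B a b := S.frame.sel_mem
  have hss : s * s = 1 := S.frame.sel_sq
  have hdd : d * d = 1 := S.frame.vec_mul_self _
  have hds : d * s = s * d := S.frame.sel_comm hdB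
  have hττ : τ * τ = 1 := S.frame.vec_mul_self _
  have hτinv : τ⁻¹ = τ := S.frame.vec_inv _
  have hτs : τ * s * τ⁻¹ = s * d := S.frame.tau_conj hab
  have hτd : τ * d * τ⁻¹ = d := mul_inv_eq_iff_eq_mul.2 (S.frame.vec_commute_vec _ _).eq
  have hTa := S.frame.block_tv (hθ := Equiv.swap_mul_self a b)
    (show Equiv.swap a b a ≠ a by rw [Equiv.swap_apply_left]; exact hab.symm)
  rw [Equiv.swap_apply_left] at hTa
  have hhs : h * s * h⁻¹ = s := mul_inv_eq_iff_eq_mul.2 (hT.fix_centre hss).eq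
  set ρ := τ * h with hρdef
  have hconj : ∀ x, ρ * x * ρ⁻¹ = τ * (h * x * h⁻¹) * τ⁻¹ := fun x => by rw [hρdef]; group
  have hρd : ρ * d * ρ⁻¹ = s := by
    rw [hconj, hd, ← conj_mul, hτd, hτs, ← mul_assoc, hds, mul_assoc, hdd, mul_one]
  have hρs : ρ * s * ρ⁻¹ = s * d := by rw [hconj, hhs, hτs]
  have hV : ∀ f ∈ S.frame.B a b, ∃ m ∈ S.frame.V a b hab ε, ρ * f * ρ⁻¹ = f * m := by
    intro f hf
    have hτ1 : ∃ m ∈ S.frame.V a b hab ε, τ * f * τ⁻¹ = f * m := by
      rcases hTa.1 f hf with e | e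
      · exact ⟨1, one_mem _, by rw [e, mul_one]⟩
      · exact ⟨d, Or.inr (Or.inl rfl), e⟩
    obtain ⟨m, hm, e⟩ := hτ1
    rw [hconj]
    rcases hT.1 f hf with e' | e' <;> rw [e']
    · exact ⟨m, hm, e⟩
    · exact ⟨m * (s * d), mul_mem hm (Or.inr (Or.inr (Or.inr rfl))),
        by rw [← conj_mul, e, hτs, mul_assoc]⟩
  have hprod : ∀ m ∈ S.frame.V a b hab ε, m * (ρ * m * ρ⁻¹) * (ρ * (ρ * m * ρ⁻¹) * ρ⁻¹) = 1 := by
    have hρsd : ρ * (s * d) * ρ⁻¹ = d := by
      rw [← conj_mul, hρs, hρd, mul_assoc, hds, ← mul_assoc, hss, one_mul]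
    rintro _ (rfl | rfl | rfl | rfl)
    · group
    · rw [hρd, hρs, hds, mul_assoc, ← mul_assoc d s d, hds, mul_assoc, hdd, mul_one, hss]
    · rw [hρs, hρsd, ← mul_assoc s s d, hss, one_mul, hdd]
    · rw [hρsd, hρd, mul_assoc s d d, hdd, mul_one, hss]
  have hB3 : ρ * ρ * ρ ∈ S.frame.B a b := by
    refine S.frame.mem_B_of_commute hab (by omega) fun f hf => mul_inv_eq_iff_eq_mul.1 ?_
    obtain ⟨m, hm, e⟩ := hV f hf
    have e2 : ρ * (ρ * f * ρ⁻¹) * ρ⁻¹ = ρ * f * ρ⁻¹ * (ρ * m * ρ⁻¹) := by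
      conv_lhs => rw [e]
      rw [conj_mul]
    calc ρ * ρ * ρ * f * (ρ * ρ * ρ)⁻¹ = ρ * (ρ * (ρ * f * ρ⁻¹) * ρ⁻¹) * ρ⁻¹ := by group
      _ = f * (m * (ρ * m * ρ⁻¹) * (ρ * (ρ * m * ρ⁻¹) * ρ⁻¹)) := by
        rw [e2, ← conj_mul, e2, e]
        simp only [mul_assoc]
      _ = f := by rw [hprod m hm, mul_one]
  set q := ρ * ρ * ρ with hq
  have hqq : q * q = 1 := S.frame.blk_sq _ hB3
  have hqB : ∀ f ∈ S.frame.B a b, ρ * q * f * (ρ * q)⁻¹ = ρ * f * ρ⁻¹ := fun f hf => by
    rw [show ρ * q * f * (ρ * q)⁻¹ = ρ * (q * f * q⁻¹) * ρ⁻¹ by group,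
      mul_inv_eq_iff_eq_mul.2 (S.frame.blk_comm q hB3 f hf)]
  refine ⟨ε, ρ * q, ?_, (hqB d hdB).trans hρd, (hqB s hsB).trans hρs, fun f hf => ?_, fun w ha hb hs => ?_,
    fun f hf => ?_⟩
  · have hc : Commute ρ q := by
      rw [hq]
      show ρ * (ρ * ρ * ρ) = ρ * ρ * ρ * ρ
      simp only [mul_assoc]
    calc ρ * q * (ρ * q) * (ρ * q) = ρ * (q * ρ) * q * (ρ * q) := by group
      _ = ρ * (ρ * q) * q * (ρ * q) := by rw [hc.eq]
      _ = ρ * ρ * (q * q) * (ρ * q) := by group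
      _ = q * q := by rw [hqq, mul_one, ← mul_assoc, ← hq, hqq]
      _ = 1 := hqq
  · rw [hqB f hf]; exact hV f hf
  · refine mul_inv_eq_iff_eq_mul.1 ?_
    rw [hqB _ (S.frame.vec_mem_B.2 (ha.trans hb.symm)), hconj,
      mul_inv_eq_iff_eq_mul.2 (heven w ha hb hs).eq]
    exact mul_inv_eq_iff_eq_mul.2 (S.frame.vec_commute_vec _ _).eq
  · refine mul_inv_eq_iff_eq_mul.1 ?_
    have hact : ∀ f ∈ S.frame.B a b, τ * (ρ * q) * f * (τ * (ρ * q))⁻¹ = h * f * h⁻¹ := fun f hf => by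
      rw [show τ * (ρ * q) * f * (τ * (ρ * q))⁻¹ = τ * (ρ * q * f * (ρ * q)⁻¹) * τ⁻¹ by group,
        hqB f hf, hconj, hτinv]
      calc τ * (τ * (h * f * h⁻¹) * τ) * τ = τ * τ * (h * f * h⁻¹) * (τ * τ) := by group
        _ = _ := by rw [hττ, one_mul, mul_one]
    rw [show ∀ g : G, g * g * f * (g * g)⁻¹ = g * (g * f * g⁻¹) * g⁻¹ from fun g => by group, hact f hf]
    rcases hT.1 f hf with e | e
    · rw [e, hact f hf, e]
    · rw [hact _ (e ▸ mul_mem hf hsB), e, ← conj_mul, e, hhs, mul_assoc, hss, mul_one]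

/-- One block less. -/
theorem exists_fewer (hS : S.Std) (h4 : 4 ≤ Fintype.card ι) (w : ι → ZMod 2) (σ : Equiv.Perm ι)
    (hx : S.frame.el w σ * S.frame.el w σ = 1) {a : ι} (ha : σ a ≠ a) :
    ∃ w', IsConj (S.frame.el w σ) (S.frame.el w' (Equiv.swap a (σ a) * σ)) := by
  set b := σ a with hb
  have hab : a ≠ b := ha.symm
  obtain ⟨ε, y, hy3, hyd, hys, hyV, hyR, hyτ⟩ := exists_rotation hS h4 hab
  rw [S.frame.el_mul] at hx
  obtain ⟨hw, hσ⟩ := S.frame.el_eq_one hx
  have hσb : σ b = a := by rw [hb]; exact sq_apply hσ a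
  have hwσ : ∀ i, w (σ i) = w i := fun i => by
    have := congrFun hw (σ i)
    rw [Pi.add_apply, Function.comp_apply, Equiv.symm_apply_apply] at this
    exact CharTwo.add_eq_zero.1 this
  set F := S.frame
  set d := F.vec (pair a b) with hddef
  set s := sel F a b ε with hsdef
  set τ := F.vec (Pi.single a 1) with hτdef
  set σ' := Equiv.swap a b * σ with hσ'def
  have hσ'a : σ' a = a := by rw [hσ'def, Equiv.Perm.mul_apply, ← hb, Equiv.swap_apply_right]
  have hσ'b : σ' b = b := by rw [hσ'def, Equiv.Perm.mul_apply, hσb, Equiv.swap_apply_left]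
  have hcs : σ' * Equiv.swap a b * σ'⁻¹ = Equiv.swap a b := by
    rw [← Equiv.swap_apply_apply, hσ'a, hσ'b]
  set u := w + w a • pair a b + ε • oneR a b with hudef
  have hua : u a = 0 := by
    simp only [hudef, Pi.add_apply, Pi.smul_apply, pair_apply_left hab, oneR_a, smul_eq_mul, mul_one,
      mul_zero, CharTwo.add_self_eq_zero, add_zero]
  have hub : u b = 0 := by
    simp only [hudef, Pi.add_apply, Pi.smul_apply, oneR_b, smul_eq_mul,
      show pair a b b = 1 by rw [pair_comm]; exact pair_apply_left hab.symm, mul_one,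
      mul_zero, add_zero]
    rw [hb, hwσ, CharTwo.add_self_eq_zero]
  have huθ : u ∘ (Equiv.swap a b).symm = u := by rw [Equiv.symm_swap]; exact comp_swap (hua.trans hub.symm)
  set x'' := F.el u σ' with hx''def
  have hs_el : s = F.el (ε • oneR a b) (Equiv.swap a b) := rfl
  have hsplit : F.el w σ = F.vec (w a • pair a b) * s * x'' := by
    rw [hs_el, hx''def, ← F.el_vec, F.el_mul, F.el_mul, one_mul, hσ'def, ← mul_assoc (Equiv.swap a b),
      Equiv.swap_mul_self, one_mul, huθ]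
    congr 1
    simp only [hudef, show ∀ z : ι → ZMod 2, z ∘ (1 : Equiv.Perm ι).symm = z from fun _ => rfl]
    rw [show ∀ p q r : ι → ZMod 2, p + q + (r + p + q) = r + (p + p) + (q + q) from fun p q r => by abel,
      Frame.zmod_add_self, Frame.zmod_add_self, add_zero, add_zero]
  have hfixB : ∀ i, Equiv.swap a b (σ'.symm i) = σ'.symm (Equiv.swap a b i) := fun i => by
    apply σ'.injective
    rw [Equiv.apply_symm_apply]
    have := congrFun (congrArg (⇑) hcs) i
    simpa using this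
  -- `x''` moves the block group by even vectors outside `a`, `b`
  have hshift : ∀ f ∈ F.B a b, ∃ m : ι → ZMod 2, m a = 0 ∧ m b = 0 ∧ ∑ i, m i = 0 ∧
      x'' * f * x''⁻¹ = f * F.vec m := by
    rintro _ ⟨v, p, hv, hp, rfl⟩
    have hpc : σ' * p * σ'⁻¹ = p := by
      rcases inBlk_swap hp with rfl | rfl
      exacts [by rw [mul_one, mul_inv_cancel], hcs]
    have hpfix : ∀ z : ι → ZMod 2, z a = z b → z ∘ p.symm = z := fun z hz => by
      rcases inBlk_swap hp with rfl | rfl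
      · rfl
      · rw [Equiv.symm_swap]; exact comp_swap hz
    have hva := swap_fix_iff.1 hv
    refine ⟨v + v ∘ σ'.symm, ?_, ?_, ?_, ?_⟩
    · rw [Pi.add_apply, Function.comp_apply, σ'.symm_apply_eq.2 hσ'a.symm, CharTwo.add_self_eq_zero]
    · rw [Pi.add_apply, Function.comp_apply, σ'.symm_apply_eq.2 hσ'b.symm, CharTwo.add_self_eq_zero]
    · simp only [Pi.add_apply, Finset.sum_add_distrib, Frame.sum_L_el, CharTwo.add_self_eq_zero]
    · rw [hx''def, F.conj_el, hpc, hpfix u (hua.trans hub.symm), ← F.el_vec (v + _), F.el_mul, mul_one,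
        hpfix]
      · congr 1
        rw [add_comm u, add_assoc, Frame.zmod_add_self, add_zero, ← add_assoc, Frame.zmod_add_self,
          zero_add]
      · rw [Pi.add_apply, Pi.add_apply, Function.comp_apply, Function.comp_apply,
          σ'.symm_apply_eq.2 hσ'a.symm, σ'.symm_apply_eq.2 hσ'b.symm, hva]
  have hxd : Commute x'' d := by
    refine mul_inv_eq_iff_eq_mul.1 ?_
    rw [hx''def, hddef, F.conj_vec, pair_comp, hσ'a, hσ'b]
  have hxτ : Commute x'' τ := by
    refine mul_inv_eq_iff_eq_mul.1 ?_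
    rw [hx''def, hτdef, F.conj_vec]
    congr 1
    funext i
    rw [Function.comp_apply]
    by_cases h : i = a
    · rw [h, σ'.symm_apply_eq.2 hσ'a.symm]
    · rw [Pi.single_eq_of_ne h, Pi.single_eq_of_ne fun e => h (by rw [← hσ'a, ← e, Equiv.apply_symm_apply])]
  have hxs : Commute x'' s := by
    refine mul_inv_eq_iff_eq_mul.1 ?_
    rw [hx''def, hs_el, F.conj_el, hcs, huθ]
    congr 1
    rw [show (ε • oneR a b) ∘ σ'.symm = ε • oneR a b from by
      funext i
      exact congrArg (ε • ·) (congrFun (oneR_comp hσ'a hσ'b) i), add_comm u, add_assoc,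
      Frame.zmod_add_self, add_zero]
  have hxV : ∀ m ∈ F.V a b hab ε, Commute x'' m := by
    rintro _ (rfl | rfl | rfl | rfl)
    exacts [Commute.one_right _, hxd, hxs, hxs.mul_right hxd]
  have hx2 : x'' * x'' = 1 := by
    rw [hx''def, F.el_mul]
    have h1 : σ' * σ' = 1 := by
      rw [hσ'def, mul_assoc, ← mul_assoc σ]
      have : σ * Equiv.swap a b = Equiv.swap a b * σ := by
        apply mul_inv_eq_iff_eq_mul.1
        rw [← Equiv.swap_apply_apply, ← hb, hσb, Equiv.swap_comm]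
      rw [this, mul_assoc, hσ, mul_one, Equiv.swap_mul_self]
    rw [h1, ← F.el_one]
    congr 1
    funext i
    rw [Pi.add_apply, Function.comp_apply, fix_symm h1, Pi.zero_apply, CharTwo.add_eq_zero]
    by_cases hia : i = a
    · rw [hia, hσ'a]
    by_cases hib : i = b
    · rw [hib, hσ'b]
    have h2 : σ i ≠ a := fun e => hib (σ.injective (e.trans hσb.symm))
    have h3 : σ i ≠ b := fun e => hia (σ.injective (e.trans hb))
    have e : σ' i = σ i := by rw [hσ'def, Equiv.Perm.mul_apply, Equiv.swap_apply_of_ne_of_ne h2 h3]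
    rw [e]
    simp only [hudef, Pi.add_apply, Pi.smul_apply, hwσ, pair_apply_of_ne hia hib, pair_apply_of_ne h2 h3,
      oneR, if_neg (not_or.2 ⟨hia, hib⟩), if_neg (not_or.2 ⟨h2, h3⟩)]
  -- elements of the block group killed by the norm of `y`
  have hnorm : ∀ c ∈ F.B a b, c * (y * c * y⁻¹) * (y * (y * c * y⁻¹) * y⁻¹) = 1 → c ∈ F.V a b hab ε := by
    intro c hc hn
    obtain ⟨m, hm, e⟩ := hyV c hc
    obtain ⟨m', hm', e'⟩ := hyV (c * m) (mul_mem hc (F.V_le hab hm))
    rw [e, e'] at hn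
    have hcc : c * c = 1 := F.blk_sq _ hc
    have : c * (m' : G) = 1 := by
      calc c * m' = c * c * (m * m) * (c * m') := by
            rw [hcc, F.blk_sq _ (F.V_le hab hm), one_mul, one_mul]
        _ = c * (c * m) * (m * c) * m' := by group
        _ = c * (c * m) * (c * m) * m' := by rw [F.blk_comm m (F.V_le hab hm) c hc]
        _ = _ := by rw [← hn]; group
    rw [show c = m'⁻¹ from eq_inv_of_mul_eq_one_left this]
    exact inv_mem hm'
  set c := x'' * y * x''⁻¹ * y⁻¹ with hcdef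
  have hxinv : x''⁻¹ = x'' := inv_eq_of_mul_eq_one_right hx2
  have hcB : c ∈ F.B a b := by
    refine F.mem_B_of_commute hab (by omega) fun f hf => mul_inv_eq_iff_eq_mul.1 ?_
    have hy' : y⁻¹ = y * y := inv_eq_of_mul_eq_one_right (by rw [← mul_assoc]; exact hy3)
    obtain ⟨m₁, hm₁, e₁⟩ := hyV f hf
    have hf₁ : f * m₁ ∈ F.B a b := mul_mem hf (F.V_le hab hm₁)
    obtain ⟨m₂, hm₂, e₂⟩ := hyV _ hf₁
    -- `g := y⁻¹ f y`
    set g := f * m₁ * m₂ with hg
    have hgf : y⁻¹ * f * y = g := by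
      rw [show y⁻¹ * f * y = y⁻¹ * f * y⁻¹⁻¹ by rw [inv_inv], hy',
        show y * y * f * (y * y)⁻¹ = y * (y * f * y⁻¹) * y⁻¹ by group, e₁, e₂]
    have hgB : g ∈ F.B a b := mul_mem hf₁ (F.V_le hab hm₂)
    clear_value g
    obtain ⟨r, hra, hrb, hrs, er⟩ := hshift g hgB
    have eback : y * (g * F.vec r) * y⁻¹ = f * F.vec r := by
      rw [← conj_mul, mul_inv_eq_iff_eq_mul.2 (hyR r hra hrb hrs).eq, ← hgf]
      group
    have exf : x'' * f * x''⁻¹ = f * F.vec r := by
      have hcm : Commute x'' (m₁ * m₂) := hxV _ (mul_mem hm₁ hm₂)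
      have e : f = g * (m₁ * m₂)⁻¹ := by rw [hg]; group
      rw [e, ← conj_mul, er, mul_inv_eq_iff_eq_mul.2 hcm.inv_right.eq, mul_assoc, mul_assoc]
      congr 1
      exact F.blk_comm _ (F.vec_mem_B.2 (hra.trans hrb.symm)) _
        (inv_mem (F.V_le hab (mul_mem hm₁ hm₂)))
    calc c * f * c⁻¹ = x'' * (y * (x''⁻¹ * (y⁻¹ * f * y) * x'') * y⁻¹) * x''⁻¹ := by rw [hcdef]; group
      _ = x'' * (x'' * f * x''⁻¹) * x''⁻¹ := by
        rw [hgf, show x''⁻¹ * g * x'' = x'' * g * x''⁻¹ by rw [hxinv], er, eback, exf]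
      _ = x'' * x'' * f * (x'' * x'')⁻¹ := by group
      _ = f := by rw [hx2]; group
  have hcube : ∀ z e : G, e * e * e = 1 → z * e * (z * e) * (z * e) = 1 →
      z * (e * z * e⁻¹) * (e * (e * z * e⁻¹) * e⁻¹) = 1 := fun z e he h => by
    calc z * (e * z * e⁻¹) * (e * (e * z * e⁻¹) * e⁻¹)
        = z * e * (z * e) * (z * e) * (e * e * e)⁻¹ := by group
      _ = 1 := by rw [h, he]; group
  have hcV : c ∈ F.V a b hab ε := hnorm c hcB (hcube c y hy3 (by
    calc c * y * (c * y) * (c * y) = x'' * (y * y * y) * x''⁻¹ := by rw [hcdef]; group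
      _ = 1 := by rw [hy3]; group))
  -- correct `x''` so that it commutes with `y`
  set f₀ := y * c * y⁻¹ with hf₀def
  have hVy : ∀ m ∈ F.V a b hab ε, y * m * y⁻¹ ∈ F.V a b hab ε := by
    rintro _ (rfl | rfl | rfl | rfl)
    · rw [mul_one, mul_inv_cancel]; exact one_mem _
    · rw [hyd]; exact Or.inr (Or.inr (Or.inl rfl))
    · rw [hys]; exact Or.inr (Or.inr (Or.inr rfl))
    · rw [← conj_mul, hys, hyd]
      exact mul_mem (Or.inr (Or.inr (Or.inr rfl))) (Or.inr (Or.inr (Or.inl rfl)))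
  have hf₀ : f₀ ∈ F.V a b hab ε := hVy c hcV
  have hVsq : ∀ m ∈ F.V a b hab ε, m * m = 1 := fun m hm => F.blk_sq _ (F.V_le hab hm)
  set z := f₀ * x'' with hzdef
  have hzy : Commute z y := by
    have hn : c * f₀ * (y * f₀ * y⁻¹) = 1 := hcube c y hy3 (by
      calc c * y * (c * y) * (c * y) = x'' * (y * y * y) * x''⁻¹ := by rw [hcdef]; group
        _ = 1 := by rw [hy3]; group)
    have hkey : f₀ * c * (y * f₀ * y⁻¹) = 1 := by
      rw [F.blk_comm f₀ (F.V_le hab hf₀) c hcB]; exact hn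
    refine mul_inv_eq_iff_eq_mul.1 ?_
    calc z * y * z⁻¹ = f₀ * c * (y * f₀⁻¹ * y⁻¹) * y := by rw [hzdef, hcdef]; group
      _ = y := by rw [show f₀⁻¹ = f₀ from inv_eq_of_mul_eq_one_right (hVsq _ hf₀), hkey, one_mul]
  have hzV : ∀ m ∈ F.V a b hab ε, Commute z m := fun m hm =>
    Commute.mul_left (F.blk_comm f₀ (F.V_le hab hf₀) m (F.V_le hab hm)) (hxV m hm)
  have hVfix : ∀ m ∈ F.V a b hab ε, Commute y m → m = 1 := by
    have hne : ∀ {v v' : ι → ZMod 2}, F.vec v ≠ F.vec v' * s := fun {v v'} => F.vec_ne_vec_mul_sel hab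
    have hd1 : d ≠ 1 := fun e => one_ne_zero (α := ZMod 2) (by
      rw [hddef, ← F.vec_zero] at e
      have := congrFun (F.vec_inj e) a
      rwa [pair_apply_left hab] at this)
    rintro _ (rfl | rfl | rfl | rfl) hm
    · rfl
    · rw [mul_inv_eq_iff_eq_mul.2 hm.eq] at hyd
      exact absurd (by rw [F.vec_zero, one_mul]; exact hyd) (hne (v := pair a b) (v' := 0))
    · rw [mul_inv_eq_iff_eq_mul.2 hm.eq] at hys
      exact absurd (left_eq_mul.1 hys) hd1
    · have h := mul_inv_eq_iff_eq_mul.2 hm.eq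
      rw [← conj_mul, hys, hyd] at h
      have h' : s = 1 := mul_eq_left.1 h
      exact absurd (by rw [F.vec_zero, one_mul, h']) (hne (v := 0) (v' := 0))
  have hττ : τ * τ = 1 := F.vec_mul_self _
  have hτinv : τ⁻¹ = τ := F.vec_inv _
  have hf₀τ : τ * f₀ * τ⁻¹ = f₀ := by
    set c' := τ * y * (τ * y) with hc'def
    have hc'B : c' ∈ F.B a b := F.mem_B_of_commute hab (by omega) hyτ
    have hy3' : y⁻¹ * y⁻¹ * y⁻¹ = 1 := by
      rw [show y⁻¹ * y⁻¹ * y⁻¹ = (y * y * y)⁻¹ by group, hy3, inv_one]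
    have hc'n : c' * (y⁻¹ * c' * y) * (y⁻¹ * (y⁻¹ * c' * y) * y) = 1 := by
      have := hcube c' y⁻¹ hy3' (by
        have e : c' * y⁻¹ = τ * y * τ := by rw [hc'def]; group
        rw [e, show τ * y * τ * (τ * y * τ) * (τ * y * τ) = τ * (y * (τ * τ) * y * (τ * τ) * y) * τ by
          group, hττ, mul_one, mul_one, hy3, mul_one, hττ])
      rwa [inv_inv] at this
    have hc'V : c' ∈ F.V a b hab ε := hnorm c' hc'B (by
      have hc1 : y⁻¹ * c' * y = y * (y * c' * y⁻¹) * y⁻¹ := by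
        rw [show y * (y * c' * y⁻¹) * y⁻¹ = y * y * c' * (y * y)⁻¹ by group,
          ← inv_eq_of_mul_eq_one_right (a := y) (b := y * y) (by rw [← mul_assoc]; exact hy3), inv_inv]
      have hc2 : y⁻¹ * (y⁻¹ * c' * y) * y = y * c' * y⁻¹ := by
        rw [show y⁻¹ * (y⁻¹ * c' * y) * y = (y * y)⁻¹ * c' * (y * y) by group,
          ← inv_eq_of_mul_eq_one_right (a := y) (b := y * y) (by rw [← mul_assoc]; exact hy3), inv_inv]
      rw [hc2, hc1] at hc'n
      obtain ⟨m, hm, e⟩ := hyV c' hc'B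
      obtain ⟨m', hm', e'⟩ := hyV (c' * m) (mul_mem hc'B (F.V_le hab hm))
      rw [e, e'] at hc'n ⊢
      rw [mul_assoc, F.blk_comm _ (mul_mem hc'B (F.V_le hab hm)) _
        (mul_mem (mul_mem hc'B (F.V_le hab hm)) (F.V_le hab hm')), ← mul_assoc]
      exact hc'n)
    have h1 : Commute z (τ * y * τ) := by
      rw [show τ * y * τ = c' * y⁻¹ by rw [hc'def]; group]
      exact (hzV c' hc'V).mul_right hzy.inv_right
    have h2 : Commute (τ * z * τ⁻¹) y := by
      have h3 := (Commute.conj_iff τ).2 h1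
      rwa [show τ * (τ * y * τ) * τ⁻¹ = y by rw [hτinv, show τ * (τ * y * τ) * τ = τ * τ * y * (τ * τ) by
        group, hττ, one_mul, mul_one]] at h3
    have hτz : τ * z * τ⁻¹ = τ * f₀ * τ⁻¹ * x'' := by
      rw [hzdef, ← conj_mul, mul_inv_eq_iff_eq_mul.2 hxτ.symm.eq]
    have hτV : τ * f₀ * τ⁻¹ ∈ F.V a b hab ε := by
      have hsd : τ * s * τ⁻¹ = s * d := F.tau_conj hab
      have hdd : τ * d * τ⁻¹ = d := mul_inv_eq_iff_eq_mul.2 (F.vec_commute_vec _ _).eq
      rcases hf₀ with e | e | e | e <;> rw [e]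
      · rw [mul_one, mul_inv_cancel]; exact one_mem _
      · rw [hdd]; exact Or.inr (Or.inl rfl)
      · rw [hsd]; exact Or.inr (Or.inr (Or.inr rfl))
      · rw [← conj_mul, hsd, hdd]
        exact mul_mem (Or.inr (Or.inr (Or.inr rfl))) (Or.inr (Or.inl rfl))
    have hz2 : z⁻¹ = f₀ * x'' := by
      rw [hzdef, mul_inv_rev, hxinv, inv_eq_of_mul_eq_one_right (hVsq _ hf₀), (hxV _ hf₀).eq]
    have hm : Commute y (τ * f₀ * τ⁻¹ * f₀⁻¹) := by
      have h4 : Commute (τ * z * τ⁻¹ * z⁻¹) y := h2.mul_left hzy.inv_left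
      rw [hτz, hz2, mul_assoc _ x'', ← mul_assoc x'', (hxV _ hf₀).eq, mul_assoc f₀, hx2, mul_one] at h4
      rw [inv_eq_of_mul_eq_one_right (hVsq _ hf₀)]
      exact h4.symm
    exact mul_inv_eq_one.1 (hVfix _ (mul_mem hτV (inv_mem hf₀)) hm)
  have hf₀d : f₀ = 1 ∨ f₀ = d := by
    have hsd : τ * s * τ⁻¹ = s * d := F.tau_conj hab
    have hdd : τ * d * τ⁻¹ = d := mul_inv_eq_iff_eq_mul.2 (F.vec_commute_vec _ _).eq
    have hd1 : d ≠ 1 := fun e => one_ne_zero (α := ZMod 2) (by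
      rw [hddef, ← F.vec_zero] at e
      have := congrFun (F.vec_inj e) a
      rwa [pair_apply_left hab] at this)
    rcases hf₀ with e | e | e | e
    · exact Or.inl e
    · exact Or.inr e
    · rw [e, hsd] at hf₀τ
      exact absurd (mul_eq_left.1 hf₀τ) hd1
    · rw [e, ← conj_mul, hsd, hdd, mul_assoc, hddef, F.vec_mul_self, mul_one, eq_comm] at hf₀τ
      exact absurd (mul_eq_left.1 hf₀τ) hd1
  -- turn the block into `d`
  obtain ⟨δ, hδ⟩ : ∃ δ : ZMod 2, f₀ = F.vec (δ • pair a b) := by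
    rcases hf₀d with e | e
    · exact ⟨0, by rw [e, zero_smul, F.vec_zero]⟩
    · exact ⟨1, by rw [e, one_smul, hddef]⟩
  have hx' : F.el w σ = F.vec ((w a + δ) • pair a b) * s * z := by
    have hsB : s ∈ F.B a b := F.sel_mem
    rw [hsplit, hzdef, hδ, ← mul_assoc (F.vec ((w a + δ) • pair a b) * s), mul_assoc _ s (F.vec _),
      ← F.blk_comm _ (hδ ▸ F.V_le hab hf₀) s hsB, ← mul_assoc, ← F.vec_add, add_smul, add_assoc,
      Frame.zmod_add_self, add_zero]
  obtain ⟨g, hg, hgz⟩ : ∃ g, g * (F.vec ((w a + δ) • pair a b) * s) * g⁻¹ = d ∧ Commute g z := by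
    rcases zmod2_cases (w a + δ) with e | e <;> rw [e]
    · refine ⟨y * y, ?_, hzy.symm.mul_left hzy.symm⟩
      rw [zero_smul, F.vec_zero, one_mul, show y * y * s * (y * y)⁻¹ = y * (y * s * y⁻¹) * y⁻¹ by group,
        hys, ← conj_mul, hys, hyd]
      rw [mul_assoc, F.sel_comm (F.vec_mem_B.2 (pair_ab hab)), ← mul_assoc, F.sel_sq, one_mul]
    · refine ⟨y, ?_, hzy.symm⟩
      rw [one_smul, ← conj_mul, hys, hyd]
      rw [← mul_assoc, F.sel_sq, one_mul]
  refine ⟨pair a b + δ • pair a b + u, isConj_iff.2 ⟨g, ?_⟩⟩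
  rw [hx', ← conj_mul, hg, mul_inv_eq_iff_eq_mul.2 hgz.eq, hzdef, hδ, ← mul_assoc, ← F.vec_add, hx''def,
    ← F.el_vec, F.el_mul, one_mul]
  rfl

/-- Every involution is conjugate into the base group. -/
theorem Std.involution_vec (hS : S.Std) (h4 : 4 ≤ Fintype.card ι) (x : G) (hx : orderOf x = 2) :
    ∃ u, IsConj x (S.frame.vec u) := by
  classical
  have hrec : ∀ n w (σ : Equiv.Perm ι), σ.support.card ≤ n → S.frame.el w σ * S.frame.el w σ = 1 →
      ∃ u, IsConj (S.frame.el w σ) (S.frame.vec u) := by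
    intro n
    induction n with
    | zero =>
      intro w σ hn _
      rw [Equiv.Perm.support_eq_empty_iff.1 (Finset.card_eq_zero.1 (Nat.le_zero.1 hn)), S.frame.el_vec]
      exact ⟨w, IsConj.refl _⟩
    | succ n ih =>
      intro w σ hn hsq
      by_cases h1 : σ = 1
      · rw [h1, S.frame.el_vec]; exact ⟨w, IsConj.refl _⟩
      obtain ⟨a, ha⟩ : ∃ a, σ a ≠ a := by
        by_contra hh
        push Not at hh
        exact h1 (Equiv.ext hh)
      obtain ⟨w', hw'⟩ := exists_fewer hS h4 w σ hsq ha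
      have hsq' : S.frame.el w' (Equiv.swap a (σ a) * σ) * S.frame.el w' (Equiv.swap a (σ a) * σ) = 1 := by
        obtain ⟨g, hg⟩ := isConj_iff.1 hw'
        rw [← hg, conj_mul, hsq, mul_one, mul_inv_cancel]
      obtain ⟨u, hu⟩ := ih w' _ (by
        have hlt := Finset.card_lt_card (show (Equiv.swap a (σ a) * σ).support ⊂ σ.support from by
          refine Finset.ssubset_iff_subset_ne.2 ⟨fun i hi => ?_, fun e => ?_⟩
          · rw [Equiv.Perm.mem_support, Equiv.Perm.mul_apply] at hi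
            rw [Equiv.Perm.mem_support]
            intro e
            rw [e, Equiv.swap_apply_of_ne_of_ne (fun e' => ha (by rw [← e', e]))
              (fun e' => ha (σ.injective ((congrArg σ e').symm.trans e |>.trans e')))] at hi
            exact hi rfl
          · have : a ∈ σ.support := Equiv.Perm.mem_support.2 ha
            rw [← e, Equiv.Perm.mem_support, Equiv.Perm.mul_apply, Equiv.swap_apply_right] at this
            exact this rfl)
        omega) hsq'
      exact ⟨u, hw'.trans hu⟩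
  have hp : IsPGroup 2 (Subgroup.zpowers x) := IsPGroup.of_card (n := 1) (by
    rw [Nat.card_zpowers, hx, pow_one])
  obtain ⟨k, hk⟩ := S.exists_conj_le hp
  obtain ⟨w, σ, e⟩ := hk (conj_mem_cj (Subgroup.mem_zpowers x))
  obtain ⟨u, hu⟩ := hrec _ w σ le_rfl (by
    have hxx : x * x = 1 := by rw [← pow_two, ← hx]; exact pow_orderOf_eq_one x
    rw [← e, conj_mul, hxx, mul_one, mul_inv_cancel])
  exact ⟨u, (isConj_iff.2 ⟨k, e⟩).trans hu⟩

end Setup

end CfsgLib.AltCentralizer
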