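import Cfsg.Agent.AltCentralizer.BlockCentral

/-!
An element of the normaliser of `blk (swap a b)` that induces a transvection with centre `S'`.
-/

set_option autoImplicit false

namespace CfsgLib.AltCentralizer

variable {G : Type*} [Group G] {ι : Type*} [Fintype ι] [DecidableEq ι] {t : G}

omit [Fintype ι] in
theorem Tv.nrm [Finite G] {H : Subgroup G} {h c : G} (hT : Tv H h c) : cj h H = H := by
  refine Subgroup.eq_of_le_of_card_ge ?_ (card_cj h H).ge
  intro x hx
  rw [show x = h * (h⁻¹ * x * h) * h⁻¹ by group]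
  rcases hT.1 _ (mem_cj.1 hx) with e | e <;> rw [e]
  exacts [mem_cj.1 hx, mul_mem (mem_cj.1 hx) hT.2.1]

theorem Tv.fix_centre {H : Subgroup G} {h c : G} (hT : Tv H h c) (hc : c * c = 1) : Commute h c := by
  rcases hT.1 c hT.2.1 with e | e
  · exact mul_inv_eq_iff_eq_mul.1 e
  · rw [hc, mul_inv_eq_one] at e
    rw [mul_eq_left.1 e]
    exact Commute.one_right _

theorem inv_conj {k x y : G} (h : k * x * k⁻¹ = y) : k⁻¹ * y * k = x := by rw [← h]; group

theorem inv_conj' {k x y : G} (h : k * x * k⁻¹ = y) : k⁻¹ * y * k⁻¹⁻¹ = x := by rw [← h]; group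

theorem Frame.vec_mul_t (F : Frame G ι t) (u : ι → ZMod 2) : F.vec u * t = F.vec (u + 1) := by
  rw [F.vec_add, F.vec_one]

theorem conj_commute {k h x : G} (hc : Commute h (k * x * k⁻¹)) : Commute (k⁻¹ * h * k) x := by
  show k⁻¹ * h * k * x = x * (k⁻¹ * h * k)
  calc k⁻¹ * h * k * x = k⁻¹ * (h * (k * x * k⁻¹)) * k := by group
    _ = k⁻¹ * (k * x * k⁻¹ * h) * k := by rw [hc.eq]
    _ = _ := by group

theorem oneR_eq {a b : ι} (hab : a ≠ b) : oneR a b = 1 + pair a b := funext fun i => by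
  rw [Pi.add_apply, Pi.one_apply]
  by_cases h1 : i = a
  · rw [h1, oneR_a, pair_apply_left hab]; rfl
  by_cases h2 : i = b
  · rw [h2, oneR_b, pair_comm, pair_apply_left hab.symm]; rfl
  rw [pair_apply_of_ne h1 h2, add_zero, oneR, if_neg (not_or.2 ⟨h1, h2⟩)]

theorem oneR_sum {a b : ι} (hab : a ≠ b) (he : Even (Fintype.card ι)) : ∑ i, oneR a b i = 0 := by
  simp only [oneR_eq hab, Pi.add_apply, Finset.sum_add_distrib, pair_sum, Pi.one_apply, Finset.sum_const,
    Finset.card_univ, nsmul_eq_mul, mul_one, add_zero]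
  exact ZMod.natCast_eq_zero_iff_even.2 he

theorem swap_fixed {a b i : ι} (h : Equiv.swap a b i ≠ i) : i = a ∨ i = b := by
  by_contra hn
  push Not at hn
  exact h (Equiv.swap_apply_of_ne_of_ne hn.1 hn.2)

theorem swap_moved {a b i : ι} (hab : a ≠ b) (h : Equiv.swap a b i = i) : i ≠ a ∧ i ≠ b :=
  ⟨fun e => hab (by subst e; rw [Equiv.swap_apply_left] at h; exact h.symm),
    fun e => hab (by subst e; rw [Equiv.swap_apply_right] at h; exact h)⟩

theorem cvec_one {a b : ι} (hab : a ≠ b) (he : Even (Fintype.card ι)) :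
    cvec a b (1 : Pt a b → ZMod 2) = pair a b := by
  have h : ext a b (1 : Pt a b → ZMod 2) =
      (fun _ => 1) + (Pi.single (some a) 1 + Pi.single (some b) 1) := funext fun p => by
    rw [ext, Pi.add_apply, Pi.add_apply]
    by_cases h1 : p = some a
    · subst h1
      rw [dif_neg (by simp), Pi.single_eq_same, Pi.single_eq_of_ne (by simpa using hab), add_zero]; rfl
    by_cases h2 : p = some b
    · subst h2
      rw [dif_neg (by simp), Pi.single_eq_same, Pi.single_eq_of_ne (by simpa using hab.symm), zero_add]; rfl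
    rw [dif_pos ⟨h1, h2⟩, Pi.single_eq_of_ne h1, Pi.single_eq_of_ne h2, add_zero, add_zero]; rfl
  rw [cvec, h, comb_add, comb_all he, zero_add, pair_eq_comb]

theorem pt_eq_cvec {a b : ι} (hab : a ≠ b) (he : Even (Fintype.card ι)) (p : Pt a b) :
    pt p.1 = cvec a b ((1 : Pt a b → ZMod 2) + Pi.single p 1) + pair a b := by
  rw [cvec_add, cvec_one hab he, cvec_single, add_comm (pair a b), add_assoc, Frame.zmod_add_self,
    add_zero]

theorem sum_compl {a b : ι} (hab : a ≠ b) (he : Even (Fintype.card ι)) (p : Pt a b) :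
    ∑ q, (1 + Pi.single p 1 : Pt a b → ZMod 2) q = 0 := by
  have h := card_pt hab
  obtain ⟨m, hm⟩ := he
  simp only [Pi.add_apply, Finset.sum_add_distrib, Pi.one_apply, Finset.sum_const, Finset.card_univ,
    nsmul_eq_mul, mul_one, Finset.sum_pi_single', Finset.mem_univ, if_true]
  rw [ZMod.natCast_eq_one_iff_odd.2 ⟨m - 1, by omega⟩]
  rfl

theorem cj_props {H : Subgroup G} (hc : ∀ x ∈ H, ∀ y ∈ H, x * y = y * x) (hs : ∀ x ∈ H, x * x = 1) (g : G) :
    (∀ x ∈ cj g H, ∀ y ∈ cj g H, x * y = y * x) ∧ ∀ x ∈ cj g H, x * x = 1 := by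
  refine ⟨?_, ?_⟩
  · rintro _ ⟨x, hx, rfl⟩ _ ⟨y, hy, rfl⟩
    rw [← map_mul, ← map_mul, hc x hx y hy]
  · rintro _ ⟨x, hx, rfl⟩
    rw [← map_mul, hs x hx, map_one]

theorem pi_induction {κ : Type*} [Fintype κ] [DecidableEq κ] {P : (κ → ZMod 2) → Prop} (h0 : P 0)
    (hadd : ∀ u v, P u → P v → P (u + v)) (hs : ∀ q, P (Pi.single q 1)) (c : κ → ZMod 2) : P c := by
  rw [← Finset.univ_sum_single c]
  refine Finset.sum_induction _ P hadd h0 fun q _ => ?_
  rcases zmod2_cases (c q) with e | e <;> rw [e]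
  · rw [Pi.single_zero]; exact h0
  · exact hs q

theorem Frame.card_B (F : Frame G ι t) {a b : ι} (hab : a ≠ b) :
    Nat.card (F.B a b) = 2 ^ Fintype.card ι := by
  have hf : ∀ u : ι → ZMod 2, F.el (Function.update u b (u a))
      (if u a = u b then 1 else Equiv.swap a b) ∈ F.B a b := fun u =>
    el_mem_blk.2 ⟨swap_fix_iff.2 (by rw [Function.update_self, Function.update_of_ne hab]),
      by split_ifs; exacts [InBlk.one _, InBlk.refl _]⟩
  have hne : Equiv.swap a b ≠ 1 := fun e => hab (by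
    have := congrFun (congrArg (⇑) e) a
    simpa using this.symm)
  rw [show 2 ^ Fintype.card ι = Nat.card (ι → ZMod 2) by
    rw [Nat.card_fun, Nat.card_zmod, Nat.card_eq_fintype_card]]
  refine (Nat.card_congr (Equiv.ofBijective (fun u => (⟨_, hf u⟩ : F.B a b)) ⟨fun u u' e => ?_, ?_⟩)).symm
  · obtain ⟨e1, e2⟩ := F.el_inj (congrArg Subtype.val e)
    have hi : ∀ i, i ≠ b → u i = u' i := fun i hib => by
      have := congrFun e1 i
      rwa [Function.update_of_ne hib, Function.update_of_ne hib] at this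
    funext i
    by_cases hib : i = b
    · subst hib
      have key : ∀ x y z : ZMod 2, ((x = y) ↔ (x = z)) → y = z := by decide
      refine key (u a) _ _ ?_
      constructor <;> intro h
      · rw [if_pos h] at e2
        by_contra h'
        rw [if_neg (fun h2 => h' ((hi a hab).trans h2))] at e2
        exact hne e2.symm
      · rw [if_pos (show u' a = u' i from (hi a hab).symm.trans h)] at e2
        by_contra h'
        rw [if_neg h'] at e2
        exact hne e2
    · exact hi i hib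
  · rintro ⟨z, w, p, hw, hp, rfl⟩
    have hwab := swap_fix_iff.1 hw
    rcases inBlk_swap hp with rfl | rfl
    · refine ⟨w, Subtype.ext ?_⟩
      show F.el _ _ = _
      rw [if_pos hwab, hwab, Function.update_eq_self]
    · refine ⟨Function.update w b (w a + 1), Subtype.ext ?_⟩
      show F.el _ _ = _
      rw [Function.update_self, Function.update_of_ne hab,
        if_neg ((by decide : ∀ x : ZMod 2, x ≠ x + 1) _), Function.update_idem,
        show Function.update w b (w a) = w by rw [hwab, Function.update_eq_self]]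

namespace Setup

variable [Finite G] {S : Setup G ι t} {a b : ι} {ε : ZMod 2}

theorem vS_zero : vS S a b ε 0 0 = sel S.frame a b ε := by
  rw [vS, cvec_zero, zero_smul, add_zero, S.frame.vec_zero, one_mul]

theorem vS_add (c c' : Pt a b → ZMod 2) (δ δ' : ZMod 2) :
    S.frame.vec (cvec a b c + δ • pair a b) * vS S a b ε c' δ' = vS S a b ε (c + c') (δ + δ') := by
  rw [vS, vS, ← mul_assoc, ← S.frame.vec_add]
  congr 2
  rw [cvec_add, add_smul]
  abel

theorem vS_split (c : Pt a b → ZMod 2) (δ : ZMod 2) :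
    vS S a b ε c δ = S.frame.vec (cvec a b c) * vS S a b ε 0 δ := by
  have h := vS_add (S := S) (ε := ε) c 0 0 δ
  rw [zero_smul, add_zero, add_zero, zero_add] at h
  exact h.symm

theorem vS_mem (hab : a ≠ b) (c : Pt a b → ZMod 2) (δ : ZMod 2) :
    vS S a b ε c δ ∈ S.frame.B a b :=
  mul_mem (S.frame.vec_mem_B.2 (fixed_add hab c δ)) S.frame.sel_mem

theorem Swaps.inOrb_pt (hsw : S.Swaps a b ε) (hab : a ≠ b) (p : Pt a b) :
    S.InOrb a b (S.frame.vec (pt p.1)) := by
  by_cases hp : p = ⟨none, by simp, by simp⟩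
  · subst hp
    rw [show pt (none : Option ι) = (1 : ι → ZMod 2) from rfl, S.frame.vec_one]
    exact InOrb.self
  obtain ⟨h, hh, hS'⟩ := hsw ⟨none, by simp, by simp⟩ p (Ne.symm hp)
  refine ⟨h, (swap_tv_pt hab (Ne.symm hp) hh hS').1, ?_⟩
  have e := hh.1.spec (pt none)
  rw [hh.2, Equiv.swap_apply_left, show pt (none : Option ι) = (1 : ι → ZMod 2) from rfl,
    S.frame.vec_one] at e
  exact e.symm

variable (hab : a ≠ b) (hsw : S.Swaps a b ε) {k : G} {c₀ : Pt a b → ZMod 2} {δ : ZMod 2}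

include hab

theorem side_fix {h : G} {p q : Pt a b} (hh : S.Acts h (Equiv.swap p.1 q.1))
    (hS' : h * sel S.frame a b ε * h⁻¹ = sel S.frame a b ε) (hpq : c₀ p = c₀ q) :
    Commute h (vS S a b ε c₀ δ) := by
  refine mul_inv_eq_iff_eq_mul.1 ?_
  rw [vS, (swap_conj hab hh hS' c₀ δ).2, comp_swap hpq]

include hsw

/-- The preimage of `vec (pair a b)`. -/
theorem main_eq (h4 : 4 ≤ Fintype.card ι) (hB : cj k (S.frame.B a b) = S.frame.B a b)
    (hv : k * vS S a b ε c₀ δ * k⁻¹ = t) (hc : ∑ p, c₀ p = 0)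
    (hle : Sides (fun p => c₀ p = 1) ≤ pullT S.frame (Equiv.swap a b) (S.frame.pullHom a b k)) :
    k * vS S a b ε 0 δ * k⁻¹ = S.frame.vec (pair a b) := by
  have hθ1 : Equiv.swap a b ≠ 1 := fun e => hab (by
    have := congrFun (congrArg (⇑) e) a
    simpa using this.symm)
  obtain ⟨r, hr⟩ : ∃ r, r ∉ ({a, b} : Finset ι) := by
    by_contra hh
    push Not at hh
    have := Finset.card_le_card (show (Finset.univ : Finset ι) ⊆ {a, b} from fun x _ => hh x)
    rw [Finset.card_univ, Finset.card_pair hab] at this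
    omega
  simp only [Finset.mem_insert, Finset.mem_singleton, not_or] at hr
  haveI : Nonempty (Pt a b) := ⟨⟨none, by simp, by simp⟩⟩
  -- `vec (oneR a b)` comes from the two sides
  obtain ⟨z, hz, hzR⟩ : ∃ z ∈ Sides (fun p => c₀ p = 1),
      k * S.frame.vec (cvec a b z) * k⁻¹ = S.frame.vec (oneR a b) := by
    choose wf hwf hwe using fun x : Sides (fun p => c₀ p = 1) => hle x.2
    let W : Sides (fun p => c₀ p = 1) → Target (Equiv.swap a b) := fun x => ⟨wf x, hwf x⟩
    have hinj : Function.Injective W := fun x y e => Subtype.ext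
      (S.frame.pullHom_injective a b k (by rw [hwe, hwe, show wf x = wf y from congrArg Subtype.val e]))
    have hcard : Nat.card (Target (Equiv.swap a b)) ≤ Nat.card (Sides fun p => c₀ p = 1) := by
      have h1 := (card_sides fun p : Pt a b => c₀ p = 1).1
      have h2 := card_target (Equiv.swap a b) ⟨r, Equiv.swap_apply_of_ne_of_ne hr.1 hr.2⟩
      have h3 := Nat.pow_le_pow_right (show 2 > 0 by omega)
        (fixed_card_le (Equiv.swap_mul_self a b) hθ1)
      rw [← card_pt hab, pow_succ, pow_add] at h3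
      omega
    have hR : oneR a b ∈ Target (Equiv.swap a b) :=
      ⟨fun i hi => (swap_fixed hi).elim (fun e => e ▸ oneR_a a b) fun e => e ▸ oneR_b a b,
        oneR_sum hab S.even⟩
    obtain ⟨x, hx⟩ := (hinj.bijective_of_nat_card_le hcard).2 ⟨_, hR⟩
    refine ⟨x, x.2, ?_⟩
    have := congrArg Additive.toMul (hwe x)
    rw [show wf x = oneR a b from congrArg Subtype.val hx] at this
    exact this
  have hzsum : ∑ p, z p = 0 := by
    rw [← Finset.sum_filter_add_sum_filter_not Finset.univ (fun p => c₀ p = 1), hz.1, hz.2, add_zero]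
  have hd : k * vS S a b ε (z + c₀) δ * k⁻¹ = S.frame.vec (pair a b) := by
    have h := vS_add (S := S) (ε := ε) z c₀ 0 δ
    rw [zero_smul, add_zero, zero_add] at h
    rw [← h, show k * (S.frame.vec (cvec a b z) * vS S a b ε c₀ δ) * k⁻¹ =
      k * S.frame.vec (cvec a b z) * k⁻¹ * (k * vS S a b ε c₀ δ * k⁻¹) by group, hzR, hv]
    rw [S.frame.vec_mul_t, oneR_eq hab, add_comm (1 : ι → ZMod 2), add_assoc, Frame.zmod_add_self,
      add_zero]
  have hconst : ∀ p q, c₀ p = c₀ q → z p = z q := by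
    intro p q hpq
    by_cases hne : p = q
    · rw [hne]
    obtain ⟨h, hh, hS'⟩ := hsw p q hne
    have h1 : Commute (k * h * k⁻¹) t := by
      exact Eq.mp (congrArg (Commute (k * h * k⁻¹)) hv) ((Commute.conj_iff k).2 (side_fix hab hh hS' hpq))
    have h2 : cj (k * h * k⁻¹) (S.frame.B a b) = S.frame.B a b :=
      nrmB_mul (nrmB_mul hB (swap_tv_pt hab hne hh hS').1) (cj_inv_of_eq hB)
    have h3 := S.frame.fix_pair hab h1 h2
    rw [← hd] at h3
    have h4' : h * vS S a b ε (z + c₀) δ * h⁻¹ = vS S a b ε (z + c₀) δ := by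
      apply mul_left_cancel (a := k)
      apply mul_right_cancel (b := k⁻¹)
      exact Eq.trans (by group) h3
    rw [vS, (swap_conj hab hh hS' _ δ).2] at h4'
    have hsum : ∑ r, (z + c₀) r = 0 := by
      simp only [Pi.add_apply, Finset.sum_add_distrib, hzsum, hc, add_zero]
    have e := congrFun (vS_inj hab (S := S) ((Equiv.sum_comp (Equiv.swap p q) (z + c₀)).trans hsum)
      hsum h4').1 p
    simp only [Function.comp_apply, Equiv.swap_apply_left, Pi.add_apply, hpq] at e
    exact (add_right_cancel e).symm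
  have hB0 : ∀ p, c₀ p ≠ 1 → z p = 0 := by
    intro p hp
    have h := hz.2
    rw [Finset.sum_congr rfl (g := fun _ => z p) (fun q hq => hconst q p
        ((zmod2_ne_one (Finset.mem_filter.1 hq).2).trans (zmod2_ne_one hp).symm)),
      Finset.sum_const, nsmul_eq_mul, ZMod.natCast_eq_one_iff_odd.2, one_mul] at h
    · exact h
    have := (count_sides hab hsw hB hv hc).2.2
    rwa [show (Finset.univ.filter fun q => ¬ c₀ q = 1) = Finset.univ.filter fun q => c₀ q = 0 from
      Finset.filter_congr fun q _ => by rcases zmod2_cases (c₀ q) with e | e <;> simp [e]]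
  have hzc : z + c₀ = 0 := by
    by_cases hex : ∃ p, c₀ p = 1 ∧ z p = 1
    · obtain ⟨p, hp, hp'⟩ := hex
      funext q
      rw [Pi.add_apply, Pi.zero_apply]
      by_cases hq : c₀ q = 1
      · rw [← hconst p q (hp.trans hq.symm), hp', hq]; decide
      · rw [hB0 q hq, zmod2_ne_one hq, add_zero]
    · push Not at hex
      have hz0 : z = 0 := funext fun q => by
        by_cases hq : c₀ q = 1
        exacts [zmod2_ne_one (hex q hq), hB0 q hq]
      exfalso
      rw [hz0, cvec_zero, S.frame.vec_zero, mul_one, mul_inv_cancel, ← S.frame.vec_zero] at hzR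
      have := congrFun (S.frame.vec_inj hzR) r
      rw [oneR, if_neg (not_or.2 hr)] at this
      exact zero_ne_one this
  rwa [hzc] at hd

omit hsw in
/-- The transvection with centre `vS 0 δ`. -/
theorem centre_main (hB : cj k (S.frame.B a b) = S.frame.B a b)
    (hv : k * vS S a b ε c₀ δ * k⁻¹ = t) (he : k * vS S a b ε 0 δ * k⁻¹ = S.frame.vec (pair a b))
    (hle : Sides (fun p => c₀ p = 1) ≤ pullT S.frame (Equiv.swap a b) (S.frame.pullHom a b k)) :
    ∃ h, Commute h (vS S a b ε c₀ δ) ∧ Tv (S.frame.B a b) h (vS S a b ε 0 δ) ∧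
      ∀ c ∈ Sides (fun p => c₀ p = 1), Commute h (S.frame.vec (cvec a b c)) := by
  refine ⟨k⁻¹ * S.frame.vec (Pi.single a 1) * k, ?_, ?_, fun c hc => ?_⟩
  · exact conj_commute (by rw [hv]; exact S.frame.commute_t_of_mem (S.frame.vec_mem_Im _))
  · have h := (S.frame.block_tv (hθ := Equiv.swap_mul_self a b)
      (show Equiv.swap a b a ≠ a by rw [Equiv.swap_apply_left]; exact hab.symm)).conj k⁻¹
    rw [Equiv.swap_apply_left, inv_inv, ← he,
      show k⁻¹ * (k * vS S a b ε 0 δ * k⁻¹) * k = vS S a b ε 0 δ by group] at h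
    rwa [show cj k⁻¹ (S.frame.blk (Equiv.swap a b) (Equiv.swap_mul_self a b)) = S.frame.B a b from
      cj_inv_of_eq hB] at h
  · obtain ⟨w, -, hw⟩ := hle hc
    refine conj_commute ?_
    rw [show k * S.frame.vec (cvec a b c) * k⁻¹ = S.frame.vec w from congrArg Additive.toMul hw]
    exact S.frame.vec_commute_vec _ _

/-- Degree four. -/
theorem centre_four (h4 : Fintype.card ι = 4) {θ : Equiv.Perm ι} {hθ : θ * θ = 1}
    (hB : cj k (S.frame.B a b) = S.frame.blk θ hθ)
    (hv : k * vS S a b ε c₀ δ * k⁻¹ = t) (hc : ∑ p, c₀ p = 0) (h1 : θ ≠ 1) :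
    ∃ h, Commute h (vS S a b ε c₀ δ) ∧ Tv (S.frame.B a b) h (vS S a b ε 0 δ) ∧
      ∀ c ∈ Sides (fun p => c₀ p = 1), Commute h (S.frame.vec (cvec a b c)) := by
  obtain ⟨⟨m, hm⟩, hsum, hodd⟩ := count_sides hab hsw hB hv hc
  obtain ⟨p₁, hp₁⟩ := coord_ne_zero hab hsw hB hv (by omega) h1
  have hpos : 0 < (Finset.univ.filter fun p => c₀ p = 1).card :=
    Finset.card_pos.2 ⟨p₁, Finset.mem_filter.2 ⟨Finset.mem_univ _, hp₁⟩⟩
  have hPt := card_pt hab
  obtain ⟨i, j, hij, hA⟩ := Finset.card_eq_two.1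
    (show (Finset.univ.filter fun p => c₀ p = 1).card = 2 by omega)
  have hc₀ : ∀ p, c₀ p = 1 ↔ p = i ∨ p = j := fun p => by
    simpa using Finset.ext_iff.1 hA p
  obtain ⟨w, hw, hwe⟩ := pair_centre hab hsw hB hv i j
    (((hc₀ i).2 (Or.inl rfl)).trans ((hc₀ j).2 (Or.inr rfl)).symm) hij
  have hc0eq : c₀ = pair i j := funext fun p => by
    by_cases hp : c₀ p = 1
    · rcases (hc₀ p).1 hp with rfl | rfl
      · rw [hp, pair_apply_left hij]
      · rw [hp, pair_comm, pair_apply_left hij.symm]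
    · rw [zmod2_ne_one hp, pair_apply_of_ne (fun e => hp ((hc₀ p).2 (Or.inl e)))
        fun e => hp ((hc₀ p).2 (Or.inr e))]
  have hwe' : k * S.frame.vec (cvec a b c₀) * k⁻¹ = S.frame.vec w := by
    rw [hc0eq]; exact congrArg Additive.toMul hwe
  obtain ⟨x, y, hxy, hor, rfl⟩ := hw
  obtain ⟨z, u, hzu, hcompl⟩ := Finset.card_eq_two.1
    (show (Finset.univ \ ({x, y} : Finset ι)).card = 2 by
      rw [Finset.card_sdiff_of_subset (Finset.subset_univ _), Finset.card_univ, Finset.card_pair hxy, h4])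
  have hout : ∀ s, (s = z ∨ s = u) ↔ (s ≠ x ∧ s ≠ y) := fun s => by
    have := Finset.ext_iff.1 hcompl s
    simp only [Finset.mem_sdiff, Finset.mem_univ, true_and, Finset.mem_insert, Finset.mem_singleton,
      not_or] at this
    exact this.symm
  have hθzu : θ z = u ∨ (θ z = z ∧ θ u = u) := by
    have hst : ∀ s, s = z ∨ s = u → θ s = z ∨ θ s = u := fun s hs => by
      rw [hout] at hs ⊢
      rcases hor with e | ⟨ex, ey⟩
      · exact ⟨fun h => hs.2 (by rw [← sq_apply hθ s, h, e]),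
          fun h => hs.1 (θ.injective (h.trans e.symm))⟩
      · exact ⟨fun h => hs.1 (θ.injective (h.trans ex.symm)), fun h => hs.2 (θ.injective (h.trans ey.symm))⟩
    rcases hst z (Or.inl rfl) with e | e
    · refine Or.inr ⟨e, (hst u (Or.inr rfl)).resolve_left fun e' => hzu ?_⟩
      exact θ.injective (e.trans e'.symm)
    · exact Or.inl e
  have he : k * vS S a b ε 0 δ * k⁻¹ = S.frame.vec (pair z u) := by
    have hsplit : vS S a b ε 0 δ = S.frame.vec (cvec a b c₀) * vS S a b ε c₀ δ := by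
      rw [vS_split c₀, ← mul_assoc, S.frame.vec_mul_self, one_mul]
    rw [hsplit, show k * (S.frame.vec (cvec a b c₀) * vS S a b ε c₀ δ) * k⁻¹ =
      k * S.frame.vec (cvec a b c₀) * k⁻¹ * (k * vS S a b ε c₀ δ * k⁻¹) by group, hwe', hv]
    rw [S.frame.vec_mul_t]
    congr 1
    funext s
    rw [Pi.add_apply, Pi.one_apply]
    by_cases h : s = x ∨ s = y
    · have hs : s ≠ z ∧ s ≠ u :=
        ⟨fun e => h.elim ((hout s).1 (Or.inl e)).1 ((hout s).1 (Or.inl e)).2,
          fun e => h.elim ((hout s).1 (Or.inr e)).1 ((hout s).1 (Or.inr e)).2⟩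
      rw [pair_apply_of_ne hs.1 hs.2]
      rcases h with rfl | rfl
      · rw [pair_apply_left hxy]; rfl
      · rw [pair_comm, pair_apply_left hxy.symm]; rfl
    · push Not at h
      rw [pair_apply_of_ne h.1 h.2, zero_add]
      rcases (hout s).2 h with rfl | rfl
      · rw [pair_apply_left hzu]
      · rw [pair_comm, pair_apply_left hzu.symm]
  have hC := (S.frame.ctr_pair (hθ := hθ) hzu hθzu).conj k⁻¹
  rw [inv_inv, ← he, ← hB, ← cj_mul, inv_mul_cancel, cj_one] at hC
  rw [inv_conj hv, show ∀ X : G, k⁻¹ * (k * X * k⁻¹) * k = X from fun X => by group] at hC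
  obtain ⟨h, hcomm, hT⟩ := hC
  refine ⟨h, hcomm, hT, fun c hc' => ?_⟩
  have hcA : c i = c j := by
    have := hc'.1
    rw [hA, Finset.sum_pair hij] at this
    exact CharTwo.add_eq_zero.1 this
  have hcB : ∀ p, c₀ p ≠ 1 → c p = 0 := fun p hp => by
    have h1' : (Finset.univ.filter fun q => ¬ c₀ q = 1) = {p} := by
      refine (Finset.eq_singleton_iff_unique_mem).2 ⟨by simpa using hp, fun q hq => ?_⟩
      by_contra hne
      have hsub : ({p, q} : Finset (Pt a b)) ⊆ Finset.univ.filter fun q => c₀ q = 0 := fun r hr => by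
        simp only [Finset.mem_insert, Finset.mem_singleton] at hr
        rcases hr with rfl | rfl
        exacts [Finset.mem_filter.2 ⟨Finset.mem_univ _, zmod2_ne_one hp⟩,
          Finset.mem_filter.2 ⟨Finset.mem_univ _, zmod2_ne_one (Finset.mem_filter.1 hq).2⟩]
      have := Finset.card_le_card hsub
      rw [Finset.card_pair (Ne.symm hne)] at this
      omega
    have := hc'.2
    rwa [h1', Finset.sum_singleton] at this
  have hc0 : Commute h (S.frame.vec (cvec a b c₀)) := by
    have h2 := hcomm.mul_right (hT.fix_centre (S.frame.blk_sq _ (vS_mem hab _ _))).inv_right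
    rwa [vS_split c₀, mul_inv_cancel_right] at h2
  rcases zmod2_cases (c i) with e | e
  · rw [show c = 0 from funext fun p => by
      by_cases hp : c₀ p = 1
      · rcases (hc₀ p).1 hp with rfl | rfl
        exacts [e, hcA ▸ e]
      · exact hcB p hp, cvec_zero, S.frame.vec_zero]
    exact Commute.one_right _
  · rwa [show c = c₀ from funext fun p => by
      by_cases hp : c₀ p = 1
      · rcases (hc₀ p).1 hp with rfl | rfl
        exacts [e.trans hp.symm, (hcA ▸ e).trans hp.symm]
      · rw [hcB p hp, zmod2_ne_one hp]]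

/-- The side with value one never has exactly two points in degree at least six. -/
theorem side_two (hS : S.Std) (h6 : 6 ≤ Fintype.card ι) (hB : cj k (S.frame.B a b) = S.frame.B a b)
    (hv : k * vS S a b ε c₀ δ * k⁻¹ = t) (hc : ∑ p, c₀ p = 0)
    (hA2 : (Finset.univ.filter fun p => c₀ p = 1).card = 2) : False := by
  have hθ1 : Equiv.swap a b ≠ 1 := fun e => hab (by
    have := congrFun (congrArg (⇑) e) a
    simpa using this.symm)
  obtain ⟨-, hsum, -⟩ := count_sides hab hsw hB hv hc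
  have hPt := card_pt hab
  obtain ⟨i, j, hij, hA⟩ := Finset.card_eq_two.1 hA2
  have hc₀ : ∀ p, c₀ p = 1 ↔ p = i ∨ p = j := fun p => by
    simpa using Finset.ext_iff.1 hA p
  have hc0eq : c₀ = pair i j := funext fun p => by
    by_cases hp : c₀ p = 1
    · rcases (hc₀ p).1 hp with rfl | rfl
      · rw [hp, pair_apply_left hij]
      · rw [hp, pair_comm, pair_apply_left hij.symm]
    · rw [zmod2_ne_one hp, pair_apply_of_ne (fun e => hp ((hc₀ p).2 (Or.inl e)))
        fun e => hp ((hc₀ p).2 (Or.inr e))]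
  obtain ⟨w, hw, hwe⟩ := pair_centre hab hsw hB hv i j
    (((hc₀ i).2 (Or.inl rfl)).trans ((hc₀ j).2 (Or.inr rfl)).symm) hij
  have hwe' : k * S.frame.vec (cvec a b c₀) * k⁻¹ = S.frame.vec w := by
    rw [hc0eq]; exact congrArg Additive.toMul hwe
  have hsplit : vS S a b ε 0 δ = S.frame.vec (cvec a b c₀) * vS S a b ε c₀ δ := by
    rw [vS_split c₀, ← mul_assoc, S.frame.vec_mul_self, one_mul]
  have hk0 : k * vS S a b ε 0 δ * k⁻¹ = S.frame.vec (w + 1) := by
    rw [hsplit, show k * (S.frame.vec (cvec a b c₀) * vS S a b ε c₀ δ) * k⁻¹ =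
      k * S.frame.vec (cvec a b c₀) * k⁻¹ * (k * vS S a b ε c₀ δ * k⁻¹) by group, hwe', hv,
      S.frame.vec_add, S.frame.vec_one]
  have hside : 3 ≤ (Finset.univ.filter fun p => c₀ p = 0).card := by omega
  -- the centre of the short side is the block pair
  obtain rfl : w = pair a b := by
    obtain ⟨x, y, hxy, hor, rfl⟩ := hw
    rcases hor with e | ⟨ex, ey⟩
    · rcases swap_fixed (show Equiv.swap a b x ≠ x by rw [e]; exact hxy.symm) with rfl | rfl
      · rw [Equiv.swap_apply_left] at e; rw [e]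
      · rw [Equiv.swap_apply_right] at e; rw [← e, pair_comm]
    · exfalso
      have hx := swap_moved hab ex
      have hy := swap_moved hab ey
      have hmem : pair x y ∈ Target (Equiv.swap a b) := ⟨fun s hs => by
        rcases swap_fixed hs with rfl | rfl
        · exact pair_apply_of_ne hx.1.symm hy.1.symm
        · exact pair_apply_of_ne hx.2.symm hy.2.symm, pair_sum x y⟩
      have hle : Sides (fun p => c₀ p = 1) ≤
          pullT S.frame (Equiv.swap a b) (S.frame.pullHom a b k) := by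
        refine sides_le _ _ (fun p q hp hq hne => ?_) fun p q hp hq hne =>
          side_pull hab hsw hB hv 0 hside p q (zmod2_ne_one hp) (zmod2_ne_one hq) hne
        rcases (hc₀ p).1 hp with rfl | rfl <;> rcases (hc₀ q).1 hq with rfl | rfl
        · exact absurd rfl hne
        · exact ⟨_, hmem, hwe⟩
        · rw [pair_comm]; exact ⟨_, hmem, hwe⟩
        · exact absurd rfl hne
      have := main_eq hab hsw (by omega) hB hv hc hle
      rw [hk0] at this
      have e2 := S.frame.vec_inj this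
      obtain ⟨r, hr⟩ : ∃ r, r ∉ ({a, b, x, y} : Finset ι) := by
        by_contra hh
        push Not at hh
        have := Finset.card_le_card (show (Finset.univ : Finset ι) ⊆ {a, b, x, y} from fun s _ => hh s)
        rw [Finset.card_univ] at this
        have := this.trans Finset.card_le_four
        omega
      simp only [Finset.mem_insert, Finset.mem_singleton, not_or] at hr
      have := congrFun e2 r
      rw [Pi.add_apply, pair_apply_of_ne hr.2.2.1 hr.2.2.2, pair_apply_of_ne hr.1 hr.2.1] at this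
      exact one_ne_zero ((zero_add (1 : ZMod 2)).symm.trans this)
  rw [add_comm, ← oneR_eq hab] at hk0
  -- a pair on the long side
  obtain ⟨p₀, hp₀, q₀, hq₀, hpq₀⟩ :=
    Finset.one_lt_card.1 (show 1 < (Finset.univ.filter fun p => c₀ p = 0).card by omega)
  rw [Finset.mem_filter] at hp₀ hq₀
  obtain ⟨w₀, hw₀, hw₀e⟩ := pair_centre hab hsw hB hv p₀ q₀ (hp₀.2.trans hq₀.2.symm) hpq₀
  obtain ⟨w₁, hw₁, hw₁e⟩ := side_pull hab hsw hB hv 0 hside p₀ q₀ hp₀.2 hq₀.2 hpq₀
  obtain rfl : w₁ = w₀ := S.frame.vec_inj (Additive.ofMul.injective (hw₁e.symm.trans hw₀e))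
  obtain ⟨r₁, r₂, hr12, -, rfl⟩ := hw₀
  have hw₀' : k * S.frame.vec (cvec a b (pair p₀ q₀)) * k⁻¹ = S.frame.vec (pair r₁ r₂) :=
    congrArg Additive.toMul hw₀e
  have hR : ∀ r, pair r₁ r₂ r = 1 → r ≠ a ∧ r ≠ b := fun r hr => swap_moved hab (by
    by_contra h
    exact one_ne_zero (hr.symm.trans (hw₁.1 r h)))
  have hr1 := hR r₁ (pair_apply_left hr12)
  have hr2 := hR r₂ (by rw [pair_comm]; exact pair_apply_left hr12.symm)
  -- a transposition whose pair does not come from the base group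
  let Q : AddSubgroup (ι → ZMod 2) :=
    { carrier := {u | k⁻¹ * S.frame.vec u * k ∈ S.frame.E}
      zero_mem' := by
        show k⁻¹ * S.frame.vec 0 * k ∈ S.frame.E
        rw [S.frame.vec_zero, mul_one, inv_mul_cancel]; exact one_mem _
      add_mem' := fun {u v} hu hv => by
        show k⁻¹ * S.frame.vec (u + v) * k ∈ S.frame.E
        rw [S.frame.vec_add, show k⁻¹ * (S.frame.vec u * S.frame.vec v) * k =
          k⁻¹ * S.frame.vec u * k * (k⁻¹ * S.frame.vec v * k) by group]
        exact mul_mem hu hv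
      neg_mem' := fun {u} hu => by
        rwa [show -u = u from neg_eq_of_add_eq_zero_left (Frame.zmod_add_self u)] }
  obtain ⟨r₃, hr3, hQ⟩ : ∃ r, (r ≠ a ∧ r ≠ b) ∧ pair r₁ r ∉ Q := by
    by_contra hh
    push Not at hh
    have hin : oneR a b ∈ Q := by
      refine mem_of_pairs Q (Finset.univ \ {a, b}) (fun p hp q hq _ => ?_) (fun s hs => ?_) ?_
      · simp only [Finset.mem_sdiff, Finset.mem_univ, true_and, Finset.mem_insert, Finset.mem_singleton,
          not_or] at hp hq
        rw [← pair_add p r₁ q, pair_comm p r₁]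
        exact add_mem (hh p hp) (hh q hq)
      · simp only [Finset.mem_sdiff, Finset.mem_univ, true_and, Finset.mem_insert, Finset.mem_singleton,
          not_not] at hs
        rcases hs with rfl | rfl
        exacts [oneR_a _ _, oneR_b _ _]
      · rw [Finset.sum_subset (Finset.subset_univ _) fun s _ hs => ?_, oneR_sum hab S.even]
        simp only [Finset.mem_sdiff, Finset.mem_univ, true_and, Finset.mem_insert, Finset.mem_singleton,
          not_not] at hs
        rcases hs with rfl | rfl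
        exacts [oneR_a _ _, oneR_b _ _]
    have hin' : k⁻¹ * S.frame.vec (oneR a b) * k ∈ S.frame.E := hin
    rw [← hk0, show k⁻¹ * (k * vS S a b ε 0 δ * k⁻¹) * k = vS S a b ε 0 δ by group] at hin'
    obtain ⟨u, hu⟩ := hin'
    exact S.frame.vec_ne_vec_mul_sel hab hu
  have h32 : r₃ ≠ r₂ := fun e => hQ (by
    show k⁻¹ * S.frame.vec (pair r₁ r₃) * k ∈ S.frame.E
    rw [e, ← hw₀', show ∀ X : G, k⁻¹ * (k * X * k⁻¹) * k = X from fun X => by group]
    exact S.frame.vec_mem_E _)
  have h31 : r₃ ≠ r₁ := fun e => hQ (by rw [e, pair_self]; exact Q.zero_mem)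
  set c := k⁻¹ * S.frame.vec (pair r₁ r₃) * k with hcdef
  have hfix1 : Equiv.swap a b r₁ = r₁ := Equiv.swap_apply_of_ne_of_ne hr1.1 hr1.2
  have hfix3 : Equiv.swap a b r₃ = r₃ := Equiv.swap_apply_of_ne_of_ne hr3.1 hr3.2
  have hT := ((S.frame.swap_tv (hθ := Equiv.swap_mul_self a b) h31.symm hfix1 hfix3)).conj k⁻¹
  rw [inv_inv, show cj k⁻¹ (S.frame.blk (Equiv.swap a b) (Equiv.swap_mul_self a b)) = S.frame.B a b from
      cj_inv_of_eq hB, ← hcdef] at hT
  set h := k⁻¹ * S.frame.lift (Equiv.swap r₁ r₃) * k with hhdef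
  obtain ⟨zc, δc, hzc, hce⟩ := coords hab hT.2.1 ε
  have hce' : c = vS S a b ε zc δc := hce.resolve_left fun e => hQ (by
    show c ∈ S.frame.E
    rw [e]; exact S.frame.vec_mem_E _)
  have hhv : Commute h (vS S a b ε c₀ δ) := conj_commute (by
    rw [hv, ← S.frame.el_lift]; exact S.frame.el_commute_t _ _)
  have hhc : Commute h (S.frame.vec (cvec a b c₀)) := conj_commute (by
    rw [hwe', ← S.frame.el_lift]
    refine mul_inv_eq_iff_eq_mul.1 ?_
    rw [S.frame.conj_vec, pair_comp, Equiv.swap_apply_of_ne_of_ne hr1.1.symm hr3.1.symm,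
      Equiv.swap_apply_of_ne_of_ne hr1.2.symm hr3.2.symm])
  have hhS : Commute h (vS S a b ε 0 δ) := hsplit ▸ hhc.mul_right hhv
  have hmoved₀ : ¬ Commute h (S.frame.vec (cvec a b (pair p₀ q₀))) := by
    intro hcm
    have e : Commute (S.frame.lift (Equiv.swap r₁ r₃)) (S.frame.vec (pair r₁ r₂)) := by
      have e' := (Commute.conj_iff k).2 hcm
      rwa [hw₀', hhdef, show k * (k⁻¹ * S.frame.lift (Equiv.swap r₁ r₃) * k) * k⁻¹ =
        S.frame.lift (Equiv.swap r₁ r₃) by group] at e'
    have e2 := mul_inv_eq_iff_eq_mul.2 e.eq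
    rw [← S.frame.el_lift, S.frame.conj_vec, pair_comp, Equiv.swap_apply_left,
      Equiv.swap_apply_of_ne_of_ne hr12.symm h32.symm] at e2
    have := congrFun (S.frame.vec_inj e2) r₁
    rw [pair_apply_of_ne h31.symm hr12, pair_apply_left hr12] at this
    exact zero_ne_one this
  clear_value c h
  -- what a moved pair says about the centre
  have hkey : ∀ p q, p ≠ q → ¬ Commute h (S.frame.vec (cvec a b (pair p q))) →
      ∃ P, pair p q + zc = 1 + Pi.single P 1 ∧ δc = δ + 1 := by
    intro p q hpq hmv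
    have horb : S.InOrb a b (vS S a b ε (pair p q) δ) := by
      have h0 : S.InOrb a b (vS S a b ε c₀ δ) := ⟨k⁻¹, cj_inv_of_eq hB, inv_conj' hv⟩
      have h1 := (h0.move hab hsw (p := i) (q := p)).move hab hsw
        (p := Equiv.swap i p j) (q := q)
      rw [hc0eq, ← Equiv.symm_swap i p, pair_comp, Equiv.swap_apply_left, Equiv.symm_swap,
        ← Equiv.symm_swap (Equiv.swap i p j) q, pair_comp, Equiv.swap_apply_left,
        Equiv.swap_apply_of_ne_of_ne (fun e => hij.symm
          ((Equiv.swap i p).injective (e.symm.trans (Equiv.swap_apply_left i p).symm))) hpq] at h1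
      exact h1
    have hx := S.frame.vec_mem_B.2 (cvec_apply_ab (a := a) (b := b) (pair p q))
    have he : h * vS S a b ε (pair p q) δ * h⁻¹ = vS S a b ε (pair p q) δ * c := by
      rw [vS_split (pair p q), show ∀ x y : G, h * (x * y) * h⁻¹ = h * x * h⁻¹ * (h * y * h⁻¹) from
        fun x y => by group, mul_inv_eq_iff_eq_mul.2 hhS.eq,
        (hT.1 _ hx).resolve_left fun e => hmv (mul_inv_eq_iff_eq_mul.1 e), mul_assoc, mul_assoc,
        S.frame.blk_comm c hT.2.1 _ (vS_mem hab 0 δ)]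
    have horb' := horb.step hT.nrm
    rw [he, hce'] at horb'
    have hprod : vS S a b ε (pair p q) δ * vS S a b ε zc δc =
        S.frame.vec (cvec a b (pair p q + zc) + (δ + δc) • pair a b) := by
      rw [vS, vS, mul_assoc, ← mul_assoc (sel S.frame a b ε),
        ← S.frame.sel_comm (S.frame.vec_mem_B.2 (fixed_add hab _ _)), mul_assoc, S.frame.sel_sq, mul_one,
        ← S.frame.vec_add, cvec_add, add_smul]
      congr 1
      abel
    rw [hprod] at horb'
    obtain ⟨P, hP⟩ := hS.orbit_vec (by omega) hab (fixed_add hab _ _) horb'.isConj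
    rw [pt_eq_cvec hab S.even P] at hP
    have hs : ∑ r, (pair p q + zc) r = 0 := by
      simp only [Pi.add_apply, Finset.sum_add_distrib, pair_sum, hzc, add_zero]
    obtain ⟨e1, e2⟩ := coord_unique hab (c := pair p q + zc) (c' := (1 : Pt a b → ZMod 2) + Pi.single P 1) (δ := δ + δc) (δ' := 1) hs (sum_compl hab S.even P) (by rw [one_smul]; exact hP)
    exact ⟨P, e1, (by decide : ∀ x y : ZMod 2, x + y = 1 → y = x + 1) _ _ e2⟩
  obtain ⟨P, hP, hδc⟩ := hkey p₀ q₀ hpq₀ hmoved₀
  -- the centre is not a point times `vS 0 δ`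
  have hbad : ∀ u, zc = 1 + Pi.single u 1 → False := by
    intro u hu
    have e : c = S.frame.vec (pt u.1) * vS S a b ε 0 δ := by
      rw [hce', hu, hδc, pt_eq_cvec hab S.even u]
      have h' := vS_add (S := S) (ε := ε) ((1 : Pt a b → ZMod 2) + Pi.single u 1) 0 1 δ
      rw [one_smul, add_zero, add_comm (1 : ZMod 2)] at h'
      exact h'.symm
    have horb := (hsw.inOrb_pt hab u).step hB
    have hk : k * S.frame.vec (pt u.1) * k⁻¹ = S.frame.vec (pair r₁ r₃ + oneR a b) := by
      rw [S.frame.vec_add, ← hk0, show S.frame.vec (pair r₁ r₃) = k * c * k⁻¹ by rw [hcdef]; group, e]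
      have hsq : vS S a b ε 0 δ * vS S a b ε 0 δ = 1 := S.frame.blk_sq _ (vS_mem hab 0 δ)
      calc k * S.frame.vec (pt u.1) * k⁻¹
          = k * S.frame.vec (pt u.1) * (vS S a b ε 0 δ * vS S a b ε 0 δ) * k⁻¹ := by rw [hsq, mul_one]
        _ = _ := by group
    rw [hk] at horb
    obtain ⟨P', hP'⟩ := hS.orbit_vec (by omega) hab (by
      rw [Pi.add_apply, Pi.add_apply, oneR_a, oneR_b, pair_apply_of_ne hr1.1.symm hr3.1.symm,
        pair_apply_of_ne hr1.2.symm hr3.2.symm]) horb.isConj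
    have hz : ∀ r, r ≠ a ∧ r ≠ b → pair r₁ r₃ r = 1 → pt P'.1 r = 0 := fun r hr h' => by
      rw [← hP', Pi.add_apply, h', oneR, if_neg (not_or.2 hr)]; rfl
    have h1 := hz r₁ hr1 (pair_apply_left h31.symm)
    have h3 := hz r₃ hr3 (by rw [pair_comm]; exact pair_apply_left h31)
    revert h1 h3
    rcases P'.1 with _ | s
    · intro h1 _; exact one_ne_zero h1
    · intro h1 h3
      have hs : ∀ r, pt (some s) r = 0 → r = s := fun r hr => by
        by_contra hne
        simp only [pt, Pi.add_apply, Pi.one_apply, Pi.single_eq_of_ne hne, add_zero] at hr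
        exact one_ne_zero hr
      exact h31 ((hs r₃ h3).trans (hs r₁ h1).symm)
  have hzc' : zc = pair p₀ q₀ + (1 + Pi.single P 1) := by
    rw [← hP, ← add_assoc, Frame.zmod_add_self, zero_add]
  by_cases hPp : P = p₀
  · refine hbad q₀ (hzc'.trans ?_)
    rw [hPp, pair, add_comm (Pi.single p₀ 1 : Pt a b → ZMod 2), add_comm (1 : Pt a b → ZMod 2),
      add_assoc, ← add_assoc (Pi.single p₀ 1 : Pt a b → ZMod 2), Frame.zmod_add_self, zero_add,
      add_comm]
  by_cases hPq : P = q₀
  · refine hbad p₀ (hzc'.trans ?_)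
    rw [hPq, pair, add_comm (1 : Pt a b → ZMod 2), add_assoc,
      ← add_assoc (Pi.single q₀ 1 : Pt a b → ZMod 2), Frame.zmod_add_self, zero_add, add_comm]
  obtain ⟨l, hl⟩ : ∃ l, l ∉ ({p₀, q₀, P} : Finset (Pt a b)) := by
    by_contra hh
    push Not at hh
    have := Finset.card_le_card (show (Finset.univ : Finset (Pt a b)) ⊆ {p₀, q₀, P} from fun s _ => hh s)
    rw [Finset.card_univ] at this
    have := this.trans Finset.card_le_three
    omega
  simp only [Finset.mem_insert, Finset.mem_singleton, not_or] at hl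
  have bad : ∀ p q, p ≠ q → P ≠ p → P ≠ q → l ≠ p → l ≠ q → pair p q + zc = 1 + Pi.single P 1 →
      Commute h (S.frame.vec (cvec a b (pair p l))) := by
    intro p q hpq hP1 hP2 hl1 hl2 e1
    by_contra hmv
    obtain ⟨P', e2, -⟩ := hkey p l (Ne.symm hl1) hmv
    have a1 := congrFun e1 q
    have a2 := congrFun e1 l
    have b1 := congrFun e2 q
    have b2 := congrFun e2 l
    simp only [Pi.add_apply, Pi.one_apply, pair_apply_of_ne hl1 hl2,
      pair_apply_of_ne hpq.symm hl2.symm, Pi.single_eq_of_ne hl.2.2,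
      Pi.single_eq_of_ne hP2.symm,
      show pair p q q = 1 by rw [pair_comm]; exact pair_apply_left hpq.symm,
      show pair p l l = 1 by rw [pair_comm]; exact pair_apply_left hl1] at a1 a2 b1 b2
    have key : ∀ x y u v : ZMod 2, 1 + x = 1 + 0 → 0 + y = 1 + 0 → 0 + x = 1 + u → 1 + y = 1 + v →
        u = 1 ∧ v = 1 := by decide
    obtain ⟨h5, h6'⟩ := key _ _ _ _ a1 a2 b1 b2
    have h7 : q = P' := by
      by_contra hne
      rw [Pi.single_eq_of_ne hne] at h5
      exact zero_ne_one h5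
    rw [← h7, Pi.single_eq_of_ne hl2] at h6'
    exact zero_ne_one h6'
  apply hmoved₀
  rw [← pair_add p₀ l q₀, cvec_add, S.frame.vec_add]
  refine (bad p₀ q₀ hpq₀ hPp hPq hl.1 hl.2.1 hP).mul_right ?_
  rw [pair_comm]
  exact bad q₀ p₀ hpq₀.symm hPq hPp hl.2.1 hl.1 (by rwa [pair_comm])

/-- A conjugate of `t` outside the base group gives a transvection with centre `vS 0 δ`. -/
theorem exists_centre (hS : S.Std) (h4 : 4 ≤ Fintype.card ι)
    (hB : cj k (S.frame.B a b) = S.frame.B a b) (hv : k * vS S a b ε c₀ δ * k⁻¹ = t)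
    (hc : ∑ p, c₀ p = 0) :
    ∃ h, Commute h (vS S a b ε c₀ δ) ∧ Tv (S.frame.B a b) h (vS S a b ε 0 δ) ∧
      ∀ c ∈ Sides (fun p => c₀ p = 1), Commute h (S.frame.vec (cvec a b c)) := by
  have hθ1 : Equiv.swap a b ≠ 1 := fun e => hab (by
    have := congrFun (congrArg (⇑) e) a
    simpa using this.symm)
  obtain ⟨m, hm⟩ := S.even
  by_cases h : Fintype.card ι = 4
  · exact centre_four hab hsw h hB hv hc hθ1
  obtain ⟨he, hsum, hodd⟩ := count_sides hab hsw hB hv hc
  have h0 : (Finset.univ.filter fun p => c₀ p = 0).card ≠ 2 := fun h2 =>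
    Nat.not_even_iff_odd.2 hodd ⟨1, h2⟩
  by_cases hA : (Finset.univ.filter fun p => c₀ p = 1).card = 2
  · exact (side_two hab hsw hS (by omega) hB hv hc hA).elim
  have hle := sides_pull hab hsw hB hv hA h0
  exact centre_main hab hB hv (main_eq hab hsw h4 hB hv hc hle) hle

/-- Some conjugate of `t` under the normaliser of the block group or a related one has a centre. -/
theorem exists_first (hS : S.Std) (h4 : 4 ≤ Fintype.card ι) :
    ∃ c δ, ∑ p, c p = 0 ∧ ∃ h, Commute h (vS S a b ε c δ) ∧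
      Tv (S.frame.B a b) h (vS S a b ε 0 δ) := by
  haveI : Fact (Nat.Prime 2) := ⟨Nat.prime_two⟩
  obtain ⟨P⟩ := (inferInstance : Nonempty (Sylow 2 (Equiv.Perm ι)))
  obtain ⟨T, hT⟩ := S.exists_sylow P
  have hTI : (T : Subgroup G) ≤ S.frame.Im := hT ▸ S.frame.sylP_le _
  let sg : ℤˣ →* Multiplicative (ZMod 2) :=
    MonoidHom.mk' (fun u => if u = 1 then 1 else Multiplicative.ofAdd 1) fun u v => by
      have hne : (-1 : ℤˣ) ≠ 1 := by decide
      have h11 : (-1 : ℤˣ) * -1 = 1 := by decide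
      have hoo : Multiplicative.ofAdd (1 : ZMod 2) * Multiplicative.ofAdd 1 = 1 :=
        (pow_two _).symm.trans ofAdd_sq
      rcases Int.units_eq_one_or u with rfl | rfl <;> rcases Int.units_eq_one_or v with rfl | rfl <;>
        simp only [mul_one, one_mul, h11, hne, hoo, if_true, if_false]
  let φ : (T : Subgroup G) →* Multiplicative (ZMod 2) :=
    MonoidHom.mk' (fun g => sg (Equiv.Perm.sign (S.frame.permOf (g : G)))) fun g g' => by
      rw [Subgroup.coe_mul, S.frame.permOf_mul (hTI g.2) (hTI g'.2), map_mul, map_mul]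
  have hθ1 : Equiv.swap a b ≠ 1 := fun e => hab (by
    have := congrFun (congrArg (⇑) e) a
    simpa using this.symm)
  set x₀ := S.frame.el 0 (Equiv.swap a b) with hx₀
  have hx₀B : x₀ ∈ S.frame.B a b := Frame.el_mem_blk.2 ⟨fun _ => rfl, InBlk.refl _⟩
  obtain ⟨g, hu, hφ, hR⟩ := exists_extremal T S.noTwo φ (x := x₀)
    (by rw [pow_two]; exact S.frame.blk_sq _ hx₀B) (IsPGroup.of_card (S.frame.card_B hab))
    (fun r hr => S.frame.blk_comm r hr _ hx₀B)
  have hle : cj g⁻¹ (S.frame.B a b) ≤ S.frame.Im := fun z hz => hTI (by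
    have := hR _ (mem_cj.1 hz)
    simpa [mul_assoc] using this)
  obtain ⟨h₁, h₂⟩ := cj_props (S.frame.blk_comm (θ := Equiv.swap a b) (hθ := Equiv.swap_mul_self a b))
    (fun x hx => S.frame.blk_sq _ hx) g⁻¹
  obtain ⟨θ, hθ, hBθ⟩ := Frame.eq_blk hle h₁ h₂
    (by rw [card_cj, S.frame.card_B hab])
  have hθne : θ ≠ 1 := by
    rintro rfl
    rw [Frame.blk_one] at hBθ
    have hBE : cj g S.frame.E = S.frame.B a b := by rw [← hBθ, ← cj_mul, mul_inv_cancel, cj_one]
    have hw := weak_closure S.frame h4 S.even (g := g) (hBE ▸ Frame.blk_le_Im)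
    rw [hBE] at hw
    obtain ⟨v, hv⟩ := hw ▸ hx₀B
    rw [hx₀, ← S.frame.el_vec] at hv
    exact hθ1 (S.frame.el_inj hv).2.symm
  have hv₁mem : g * t * g⁻¹ ∈ S.frame.B a b := by
    have := mem_cj.1 (hBθ ▸ S.frame.t_mem_blk θ hθ)
    simpa using this
  obtain ⟨c₁, δ₁, hc₁, hv₁⟩ := coords hab hv₁mem ε
  have hswap : (∃ x y, x ≠ y ∧ θ = Equiv.swap x y) ∨
      (Fintype.card ι = 4 ∧ g * t * g⁻¹ = vS S a b ε c₁ δ₁) := by
    rcases hv₁ with hv₁ | hv₁
    · left
      obtain ⟨p, hp⟩ := hS.orbit_vec h4 hab (fixed_add hab c₁ δ₁) (hv₁ ▸ isConj_iff.2 ⟨g, rfl⟩)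
      obtain ⟨n, hn, hnt⟩ := hsw.inOrb_pt hab p
      have hcomm : Commute (g⁻¹ * n) t := by
        refine mul_inv_eq_iff_eq_mul.1 ?_
        rw [show g⁻¹ * n * t * (g⁻¹ * n)⁻¹ = g⁻¹ * (n * t * n⁻¹) * g by group, hnt, ← hp, ← hv₁]
        group
      obtain ⟨x, y, rfl, -⟩ := S.frame.conj_mem_swap hcomm (hθ := hθ) (by rw [cj_mul, hn, hBθ]) hθne
      exact ⟨x, y, fun e => hθne (by rw [e, Equiv.swap_self]; rfl), rfl⟩
    · by_cases h : Fintype.card ι = 4
      · exact Or.inr ⟨h, hv₁⟩
      · obtain ⟨m, hm⟩ := S.even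
        exact Or.inl (is_swap hab hsw hBθ (by rw [← hv₁]; group) (by omega) hθne hc₁)
  rcases hswap with ⟨x, y, hxy, rfl⟩ | ⟨h, hv₁⟩
  swap
  · obtain ⟨e, he1, he2, -⟩ := centre_four hab hsw h hBθ (by rw [← hv₁]; group) hc₁ hθne
    exact ⟨c₁, δ₁, hc₁, e, he1, he2⟩
  -- an element of the normaliser moving `x₀` into the base group
  obtain ⟨σ, hσx, hσy⟩ : ∃ σ : Equiv.Perm ι, σ x = a ∧ σ y = b := by
    refine ⟨Equiv.swap (Equiv.swap x a y) b * Equiv.swap x a, ?_, ?_⟩
    · rw [Equiv.Perm.mul_apply, Equiv.swap_apply_left]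
      refine Equiv.swap_apply_of_ne_of_ne (fun e => hxy ((Equiv.swap x a).injective ?_)) hab
      rw [Equiv.swap_apply_left, ← e]
    · rw [Equiv.Perm.mul_apply, Equiv.swap_apply_left]
  set g₁ := S.frame.el 0 σ * g⁻¹ with hg₁def
  have hg₁ : cj g₁ (S.frame.B a b) = S.frame.B a b := by
    rw [hg₁def, cj_mul, hBθ]; exact S.frame.cj_lift σ hσx hσy
  obtain ⟨w, hw⟩ : ∃ w, g₁ * x₀ * g₁⁻¹ = S.frame.vec w := by
    obtain ⟨w, p, hp⟩ := hTI hu
    have hsign : Equiv.Perm.sign p = 1 := by
      have : sg (Equiv.Perm.sign (S.frame.permOf (g⁻¹ * x₀ * g))) = 1 := hφ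
      rw [hp, S.frame.permOf_el] at this
      refine (Int.units_eq_one_or _).resolve_right fun h => ?_
      rw [h] at this
      exact one_ne_ofAdd this.symm
    have e : g₁ * x₀ * g₁⁻¹ = S.frame.el (0 + w ∘ σ.symm + (0 : ι → ZMod 2) ∘ (σ * p * σ⁻¹).symm) (σ * p * σ⁻¹) := by
      rw [← S.frame.conj_el, ← hp, hg₁def]; group
    have hmem : g₁ * x₀ * g₁⁻¹ ∈ S.frame.B a b := hg₁ ▸ conj_mem_cj hx₀B
    rw [e] at hmem
    obtain ⟨-, hq⟩ := Frame.el_mem_blk.1 hmem
    rcases inBlk_swap hq with hq1 | hq1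
    · rw [e, hq1, S.frame.el_vec]; exact ⟨_, rfl⟩
    · have := congrArg Equiv.Perm.sign hq1
      rw [map_mul, map_mul, map_inv, hsign, Equiv.Perm.sign_swap hab, mul_one, mul_inv_cancel] at this
      exact absurd this (by decide)
  obtain ⟨p, hp⟩ : ∃ p : Pt a b, g₁ * S.frame.vec (pt p.1) * g₁⁻¹ ∉ S.frame.E := by
    by_contra hh
    push Not at hh
    have hvec : ∀ u : ι → ZMod 2, u a = u b → g₁ * S.frame.vec u * g₁⁻¹ ∈ S.frame.E := by
      intro u hu
      have hall : ∀ c : Pt a b → ZMod 2, g₁ * S.frame.vec (cvec a b c) * g₁⁻¹ ∈ S.frame.E := by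
        refine pi_induction ?_ (fun c c' h h' => ?_) fun q => ?_
        · rw [cvec_zero, S.frame.vec_zero, mul_one, mul_inv_cancel]; exact one_mem _
        · rw [cvec_add, S.frame.vec_add, ← conj_mul]; exact mul_mem h h'
        · rw [cvec_single]; exact hh q
      obtain ⟨c, -, hc⟩ := exists_cvec hab hu
      rw [hc, ← cvec_one hab S.even]
      rcases zmod2_cases (u a) with e | e <;> rw [e]
      · rw [zero_smul, add_zero]; exact hall c
      · rw [one_smul, ← cvec_add]; exact hall _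
    have hx : ∀ z ∈ S.frame.B a b, g₁ * z * g₁⁻¹ ∈ S.frame.E := by
      rintro _ ⟨u, p, hu, hp, rfl⟩
      rw [show g₁ * S.frame.el u p * g₁⁻¹ = g₁ * S.frame.vec u * g₁⁻¹ * (g₁ * S.frame.el 0 p * g₁⁻¹) by
        rw [S.frame.el_lift]; unfold Frame.el; group]
      refine mul_mem (hvec u (swap_fix_iff.1 hu)) ?_
      rcases inBlk_swap hp with rfl | rfl
      · rw [S.frame.el_one, mul_one, mul_inv_cancel]; exact one_mem _
      · rw [hw]; exact S.frame.vec_mem_E _
    have hxE : x₀ ∈ S.frame.E := by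
      have := hx _ (mem_cj.1 (hg₁.symm ▸ hx₀B))
      simpa [mul_assoc] using this
    obtain ⟨v, hv⟩ := hxE
    rw [hx₀, ← S.frame.el_vec] at hv
    exact hθ1 (S.frame.el_inj hv).2.symm
  have horb := (hsw.inOrb_pt hab p).step hg₁
  obtain ⟨c, δ, hc, hce⟩ := coords hab horb.mem ε
  have hce' := hce.resolve_left fun e => hp (e ▸ S.frame.vec_mem_E _)
  rw [hce'] at horb
  obtain ⟨n, hn, hnt⟩ := horb
  obtain ⟨e, he1, he2, -⟩ := exists_centre (k := n⁻¹) hab hsw hS h4 (cj_inv_of_eq hn)
    (by rw [← hnt]; group) hc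
  exact ⟨c, δ, hc, e, he1, he2⟩

/-- The element `h` with `d ↦ d S'`. -/
theorem exists_flip (hS : S.Std) (h4 : 4 ≤ Fintype.card ι) :
    ∃ h, Tv (S.frame.B a b) h (sel S.frame a b ε) ∧
      h * S.frame.vec (pair a b) * h⁻¹ = S.frame.vec (pair a b) * sel S.frame a b ε ∧
      ∀ w : ι → ZMod 2, w a = 0 → w b = 0 → ∑ i, w i = 0 → Commute h (S.frame.vec w) := by
  obtain ⟨c, δ, -, h, -, hT⟩ := exists_first hab hsw hS h4
  have hcsq : vS S a b ε 0 δ * vS S a b ε 0 δ = 1 := S.frame.blk_sq _ (vS_mem hab 0 δ)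
  -- some point is moved
  obtain ⟨p, hp⟩ : ∃ p : Pt a b, ¬ Commute h (S.frame.vec (pt p.1)) := by
    by_contra hh
    push Not at hh
    have hall : ∀ c : Pt a b → ZMod 2, Commute h (S.frame.vec (cvec a b c)) := by
      refine pi_induction ?_ (fun c c' h h' => ?_) fun q => ?_
      · rw [cvec_zero, S.frame.vec_zero]; exact Commute.one_right _
      · rw [cvec_add, S.frame.vec_add]; exact h.mul_right h'
      · rw [cvec_single]; exact hh q
    obtain ⟨x, hx, hne⟩ := hT.2.2
    obtain ⟨c', δ', -, hx'⟩ := coords hab hx ε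
    have hfix : ∀ c' δ', Commute h (S.frame.vec (cvec a b c' + δ' • pair a b)) := fun c' δ' => by
      rcases zmod2_cases δ' with rfl | rfl
      · rw [zero_smul, add_zero]; exact hall c'
      · rw [one_smul, ← cvec_one hab S.even, ← cvec_add]; exact hall _
    have hsel : Commute h (sel S.frame a b ε) := by
      have h1 := (hfix 0 δ).inv_right.mul_right (hT.fix_centre hcsq)
      rwa [vS, inv_mul_cancel_left] at h1
    refine hne (mul_inv_eq_iff_eq_mul.2 ?_)
    rcases hx' with rfl | rfl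
    exacts [hfix _ _, (hfix _ _).mul_right hsel]
  have hmem : S.frame.vec (pt p.1) ∈ S.frame.B a b := S.frame.vec_mem_B.2 (pt_apply_ab p)
  have horb := (hsw.inOrb_pt hab p).step hT.nrm
  rw [(hT.1 _ hmem).resolve_left fun e => hp (mul_inv_eq_iff_eq_mul.1 e), pt_eq_cvec hab S.even p] at horb
  have hadd := vS_add (S := S) (ε := ε) ((1 : Pt a b → ZMod 2) + Pi.single p 1) 0 1 δ
  rw [one_smul, add_zero] at hadd
  rw [hadd] at horb
  let o : Pt a b := ⟨none, by simp, by simp⟩
  have h0 := (horb.move hab hsw (p := p) (q := o)).toggle' hab 0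
  rw [show ((1 : Pt a b → ZMod 2) + Pi.single p 1) ∘ Equiv.swap p o = 1 + Pi.single o 1 from
    funext fun q => by
      rw [Function.comp_apply, Pi.add_apply, Pi.add_apply]
      congr 1
      by_cases h1 : q = o
      · rw [h1, Equiv.swap_apply_right, Pi.single_eq_same, Pi.single_eq_same]
      · rw [Pi.single_eq_of_ne h1, Pi.single_eq_of_ne fun e => h1 (by
          rw [← Equiv.swap_apply_self p o q, e, Equiv.swap_apply_left])]] at h0
  obtain ⟨n, hn, hnt⟩ := h0
  obtain ⟨f, -, hTf, hfix⟩ := exists_centre (k := n⁻¹) hab hsw hS h4 (cj_inv_of_eq hn)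
    (by rw [← hnt]; group) (sum_compl hab S.even o)
  rw [vS_zero] at hTf
  have heven : ∀ w : ι → ZMod 2, w a = 0 → w b = 0 → ∑ i, w i = 0 → Commute f (S.frame.vec w) := by
    intro w ha hb hsum
    obtain ⟨c', hc', hw⟩ := exists_cvec hab (ha.trans hb.symm)
    rw [ha, zero_smul, add_zero] at hw
    have ho : c' o = 0 := by
      have h1 : rep w = ext a b c' := by rw [hw]; exact rep_comb ((sum_ext c').trans hc')
      rw [← ext_apply c' o, ← h1]; exact hsum
    rw [hw]
    have hone : ∀ q, ((1 : Pt a b → ZMod 2) + Pi.single o 1 : Pt a b → ZMod 2) q = 1 ↔ q ≠ o := fun q => by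
      rw [Pi.add_apply]
      by_cases h1 : q = o
      · rw [h1, Pi.single_eq_same]; simp [CharTwo.add_self_eq_zero]
      · rw [Pi.single_eq_of_ne h1]; simp [h1]
    refine hfix c' ⟨?_, ?_⟩
    · refine (Finset.sum_filter_of_ne fun q _ hne => ?_).trans hc'
      exact (hone q).2 fun h1 => hne (h1 ▸ ho)
    · refine Finset.sum_eq_zero fun q hq => ?_
      have h1 := (Finset.mem_filter.1 hq).2
      simp only [hone, not_not] at h1
      rw [h1, ho]
  refine ⟨f, hTf, ?_, heven⟩
  rcases hTf.1 _ (S.frame.vec_mem_B.2 (pair_ab hab)) with e | e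
  · exfalso
    have ht : Commute f t := by
      have h2 := (show Commute f (S.frame.vec (pair a b)) from mul_inv_eq_iff_eq_mul.1 e).mul_right
        (heven (oneR a b) (oneR_a a b) (oneR_b a b) (oneR_sum hab S.even))
      rwa [← S.frame.vec_add, oneR_eq hab, add_comm (1 : ι → ZMod 2), ← add_assoc, Frame.zmod_add_self,
        zero_add, S.frame.vec_one] at h2
    obtain ⟨w, -, hw⟩ := S.frame.isC_of_ctr (show Ctr _ t _ from ⟨f, ht, hTf⟩)
    exact S.frame.vec_ne_vec_mul_sel hab (w := w) (w' := 0)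
      (by rw [S.frame.vec_zero, one_mul]; exact hw.symm)
  · exact e

end Setup

end CfsgLib.AltCentralizer
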