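import Cfsg.Agent.AltCentralizer.Centres

/-!
The standing hypotheses and the Sylow 2-subgroups of the model.
-/

set_option autoImplicit false

open scoped Pointwise

namespace CfsgLib.AltCentralizer

/-- The standing hypotheses. -/
structure Setup (G : Type*) [Group G] (ι : Type*) [Fintype ι] [DecidableEq ι] (t : G) where
  frame : Frame G ι t
  even : Even (Fintype.card ι)
  noTwo : ∀ M : Subgroup G, M.Normal → M.index ≠ 2
  oddIndex : ¬ 2 ∣ (Subgroup.centralizer ({t} : Set G)).index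

namespace Frame

variable {G : Type*} [Group G] {ι : Type*} [Fintype ι] [DecidableEq ι] {t : G} (F : Frame G ι t)

/-- The vector part of an element of the model. -/
noncomputable def vecOf (g : G) : ι → ZMod 2 :=
  (Function.invFun (fun x : (ι → ZMod 2) × Equiv.Perm ι => F.el x.1 x.2) g).1

/-- The permutation part of an element of the model. -/
noncomputable def permOf (g : G) : Equiv.Perm ι :=
  (Function.invFun (fun x : (ι → ZMod 2) × Equiv.Perm ι => F.el x.1 x.2) g).2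

theorem invFun_el (v : ι → ZMod 2) (σ : Equiv.Perm ι) :
    Function.invFun (fun x : (ι → ZMod 2) × Equiv.Perm ι => F.el x.1 x.2) (F.el v σ) = (v, σ) :=
  Function.leftInverse_invFun (f := fun x : (ι → ZMod 2) × Equiv.Perm ι => F.el x.1 x.2)
    (fun x y h => Prod.ext (F.el_inj h).1 (F.el_inj h).2) (v, σ)

theorem vecOf_el (v : ι → ZMod 2) (σ : Equiv.Perm ι) : F.vecOf (F.el v σ) = v := by
  rw [vecOf, F.invFun_el]

theorem permOf_el (v : ι → ZMod 2) (σ : Equiv.Perm ι) : F.permOf (F.el v σ) = σ := by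
  rw [permOf, F.invFun_el]

theorem vecOf_vec (v : ι → ZMod 2) : F.vecOf (F.vec v) = v := by rw [← F.el_vec, F.vecOf_el]

theorem permOf_mul {a b : G} (ha : a ∈ F.Im) (hb : b ∈ F.Im) :
    F.permOf (a * b) = F.permOf a * F.permOf b := by
  obtain ⟨v, σ, rfl⟩ := ha
  obtain ⟨w, τ, rfl⟩ := hb
  rw [F.el_mul, F.permOf_el, F.permOf_el, F.permOf_el]

/-- The elements with permutation part in `P`. -/
def sylP (P : Subgroup (Equiv.Perm ι)) : Subgroup G where
  carrier := {g | ∃ v p, p ∈ P ∧ g = F.el v p}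
  one_mem' := ⟨0, 1, one_mem P, F.el_one.symm⟩
  mul_mem' := by
    rintro _ _ ⟨v, p, hp, rfl⟩ ⟨w, q, hq, rfl⟩
    exact ⟨_, _, mul_mem hp hq, F.el_mul v w p q⟩
  inv_mem' := by
    rintro _ ⟨v, p, hp, rfl⟩
    exact ⟨_, _, inv_mem hp, F.el_inv v p⟩

theorem sylP_le (P : Subgroup (Equiv.Perm ι)) : F.sylP P ≤ F.Im := by
  rintro _ ⟨v, p, -, rfl⟩; exact F.el_mem_Im v p

theorem el_mem_sylP {P : Subgroup (Equiv.Perm ι)} {v : ι → ZMod 2} {p : Equiv.Perm ι} :
    F.el v p ∈ F.sylP P ↔ p ∈ P := by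
  refine ⟨?_, fun h => ⟨v, p, h, rfl⟩⟩
  rintro ⟨w, q, hq, h⟩
  rwa [(F.el_inj h).2]

theorem card_sylP (P : Subgroup (Equiv.Perm ι)) :
    Nat.card (F.sylP P) = 2 ^ Fintype.card ι * Nat.card P := by
  have h : Nat.card ((ι → ZMod 2) × P) = Nat.card (F.sylP P) :=
    Nat.card_congr (Equiv.ofBijective
      (fun x : (ι → ZMod 2) × P => (⟨F.el x.1 x.2, F.el_mem_sylP.2 x.2.2⟩ : F.sylP P))
      ⟨fun x y e => by
        have := F.el_inj (congrArg Subtype.val e)
        exact Prod.ext this.1 (Subtype.ext this.2), fun g => by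
        obtain ⟨v, p, hp, hg⟩ := g.2
        exact ⟨(v, ⟨p, hp⟩), Subtype.ext hg.symm⟩⟩)
  rw [← h, Nat.card_prod, Nat.card_fun, Nat.card_zmod, Nat.card_eq_fintype_card (α := ι)]

theorem card_centralizer :
    Nat.card (Subgroup.centralizer ({t} : Set G)) =
      Nat.card F.O * (2 ^ Fintype.card ι * Nat.card (Equiv.Perm ι)) := by
  have hmem : ∀ o ∈ F.O, ∀ v σ, o * F.el v σ ∈ Subgroup.centralizer ({t} : Set G) := fun o ho v σ =>
    Subgroup.mem_centralizer_singleton_iff.2 ((F.commO o ho).mul_left (F.el_commute_t v σ)).eq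
  have h : Nat.card (F.O × ((ι → ZMod 2) × Equiv.Perm ι)) =
      Nat.card (Subgroup.centralizer ({t} : Set G)) :=
    Nat.card_congr (Equiv.ofBijective
      (fun x : F.O × ((ι → ZMod 2) × Equiv.Perm ι) =>
        (⟨(x.1 : G) * F.el x.2.1 x.2.2, hmem _ x.1.2 _ _⟩ : Subgroup.centralizer ({t} : Set G)))
      ⟨fun x y e => by
        have e' : (x.1 : G) * F.el x.2.1 x.2.2 = y.1 * F.el y.2.1 y.2.2 := congrArg Subtype.val e
        have h1 : (y.1 : G)⁻¹ * x.1 = 1 := F.eq_one_of_mem (mul_mem (inv_mem y.1.2) x.1.2) (by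
          rw [show (y.1 : G)⁻¹ * x.1 = F.el y.2.1 y.2.2 * (F.el x.2.1 x.2.2)⁻¹ by
            rw [eq_mul_inv_iff_mul_eq, mul_assoc, e', inv_mul_cancel_left]]
          exact mul_mem (F.el_mem_Im _ _) (inv_mem (F.el_mem_Im _ _)))
        have h2 : (x.1 : G) = y.1 := (inv_mul_eq_one.1 h1).symm
        rw [h2] at e'
        have := F.el_inj (mul_left_cancel e')
        exact Prod.ext (Subtype.ext h2) (Prod.ext this.1 this.2), fun g => by
        obtain ⟨o, ho, v, σ, hg⟩ := F.cent_eq g.1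
          (Subgroup.mem_centralizer_singleton_iff.1 g.2)
        exact ⟨(⟨o, ho⟩, (v, σ)), Subtype.ext hg.symm⟩⟩)
  rw [← h, Nat.card_prod, Nat.card_prod, Nat.card_fun, Nat.card_zmod,
    Nat.card_eq_fintype_card (α := ι)]

end Frame

namespace Setup

variable {G : Type*} [Group G] [Finite G] {ι : Type*} [Fintype ι] [DecidableEq ι] {t : G}
  (S : Setup G ι t)

theorem exists_sylow (P : Sylow 2 (Equiv.Perm ι)) :
    ∃ T : Sylow 2 G, (T : Subgroup G) = S.frame.sylP (P : Subgroup (Equiv.Perm ι)) := by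
  haveI : Fact (Nat.Prime 2) := ⟨Nat.prime_two⟩
  obtain ⟨a, ha⟩ := IsPGroup.iff_card.1 P.isPGroup'
  have hc := S.frame.card_sylP (P : Subgroup (Equiv.Perm ι))
  rw [ha, ← pow_add] at hc
  refine ⟨(IsPGroup.of_card hc).toSylow ?_, rfl⟩
  intro hdvd
  have h1 := (S.frame.sylP (P : Subgroup (Equiv.Perm ι))).card_mul_index
  have h2 := (Subgroup.centralizer ({t} : Set G)).card_mul_index
  rw [S.frame.card_centralizer, ← (P : Subgroup (Equiv.Perm ι)).card_mul_index, ha] at h2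
  rw [hc, ← h2, pow_add] at h1
  have h3 : (S.frame.sylP (P : Subgroup (Equiv.Perm ι))).index =
      Nat.card S.frame.O * (P : Subgroup (Equiv.Perm ι)).index *
        (Subgroup.centralizer ({t} : Set G)).index := by
    apply Nat.eq_of_mul_eq_mul_left (show 0 < 2 ^ Fintype.card ι * 2 ^ a by positivity)
    rw [h1]; ring
  rw [h3] at hdvd
  rcases Nat.prime_two.dvd_mul.1 hdvd with h | h
  · rcases Nat.prime_two.dvd_mul.1 h with h | h
    · exact Nat.not_even_iff_odd.2 S.frame.oddO (even_iff_two_dvd.2 h)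
    · exact P.not_dvd_index h
  · exact S.oddIndex h

/-- Every 2-subgroup of `G` has a conjugate in the model. -/
theorem exists_conj_le {R : Subgroup G} (hR : IsPGroup 2 R) : ∃ k : G, cj k R ≤ S.frame.Im := by
  haveI : Fact (Nat.Prime 2) := ⟨Nat.prime_two⟩
  obtain ⟨P⟩ := (inferInstance : Nonempty (Sylow 2 (Equiv.Perm ι)))
  obtain ⟨T, hT⟩ := S.exists_sylow P
  obtain ⟨Q, hQ⟩ := hR.exists_le_sylow
  obtain ⟨k, hk⟩ := MulAction.exists_smul_eq G Q T
  refine ⟨k, fun x hx => S.frame.sylP_le (P : Subgroup (Equiv.Perm ι)) ?_⟩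
  rw [← hT, ← hk]
  change x ∈ MulAut.conj k • (Q : Subgroup G)
  rw [Subgroup.mem_pointwise_smul_iff_inv_smul_mem, ← map_inv]
  show (MulAut.conj k⁻¹) x ∈ (Q : Subgroup G)
  have := hQ (mem_cj.1 hx)
  simpa [MulAut.conj_apply] using this

end Setup

end CfsgLib.AltCentralizer
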