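import Cfsg.Agent.AltCentralizer.Reduce
import Cfsg.Agent.AltCentralizer.Model

/-!
The degree two case and the identification of the model with a centraliser in an alternating group.
-/

set_option autoImplicit false

namespace CfsgLib.AltCentralizer

open Model

/-- With two blocks there is one class of involutions. -/
theorem Setup.count_two {G : Type*} [Group G] [Finite G] {ι : Type*} [Fintype ι] [DecidableEq ι] {t : G}
    (S : Setup G ι t) (h2 : Fintype.card ι = 2) (ht : orderOf t = 2) :
    Nat.card {c : ConjClasses G // ∃ x ∈ c.carrier, orderOf x = 2} = 1 := by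
  haveI : Fact (Nat.Prime 2) := ⟨Nat.prime_two⟩
  classical
  obtain ⟨P⟩ := (inferInstance : Nonempty (Sylow 2 (Equiv.Perm ι)))
  obtain ⟨T, hT⟩ := S.exists_sylow P
  have hTI : (T : Subgroup G) ≤ S.frame.Im := hT ▸ S.frame.sylP_le _
  let sg : ℤˣ →* Multiplicative (ZMod 2) :=
    MonoidHom.mk' (fun u => if u = 1 then 1 else Multiplicative.ofAdd 1) fun u v => by
      have hne : (-1 : ℤˣ) ≠ 1 := by decide
      have h11 : (-1 : ℤˣ) * -1 = 1 := by decide
      have hoo : Multiplicative.ofAdd (1 : ZMod 2) * Multiplicative.ofAdd 1 = 1 :=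
        (pow_two _).symm.trans ofAdd_sq
      rcases Int.units_eq_one_or u with rfl | rfl <;> rcases Int.units_eq_one_or v with rfl | rfl <;>
        simp only [mul_one, one_mul, h11, hne, hoo, if_true, if_false]
  let φ₁ : (T : Subgroup G) →* Multiplicative (ZMod 2) :=
    MonoidHom.mk' (fun g => sg (Equiv.Perm.sign (S.frame.permOf (g : G)))) fun g g' => by
      rw [Subgroup.coe_mul, S.frame.permOf_mul (hTI g.2) (hTI g'.2), map_mul, map_mul]
  let φ : (T : Subgroup G) →* Multiplicative (ZMod 2) := S.parity hTI * φ₁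
  have huniq : ∀ x : G, orderOf x = 2 → IsConj t x := by
    intro x hx
    have hxx : x ^ 2 = 1 := hx ▸ pow_orderOf_eq_one x
    obtain ⟨g, hu, hφ, -⟩ := exists_extremal T S.noTwo φ hxx (R := ⊥) IsPGroup.of_bot
      (fun r hr => by rw [Subgroup.mem_bot.1 hr]; exact Commute.one_left _)
    obtain ⟨w, σ, e⟩ := hTI hu
    have hsq : S.frame.el w σ * S.frame.el w σ = 1 := by
      rw [← e, show g⁻¹ * x * g * (g⁻¹ * x * g) = g⁻¹ * x ^ 2 * g by rw [pow_two]; group, hxx, mul_one,
        inv_mul_cancel]
    rw [S.frame.el_mul] at hsq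
    obtain ⟨hw, -⟩ := S.frame.el_eq_one hsq
    have hval : Multiplicative.ofAdd (∑ i, w i) * sg (Equiv.Perm.sign σ) = 1 := by
      have : Multiplicative.ofAdd (∑ i, S.frame.vecOf (g⁻¹ * x * g) i) *
          sg (Equiv.Perm.sign (S.frame.permOf (g⁻¹ * x * g))) = 1 := hφ
      rwa [e, S.frame.vecOf_el, S.frame.permOf_el] at this
    obtain ⟨a, b, hab, huniv⟩ := Finset.card_eq_two.1 (show (Finset.univ : Finset ι).card = 2 from h2)
    have hmem : ∀ i : ι, i = a ∨ i = b := fun i => by
      have := huniv ▸ Finset.mem_univ i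
      simpa using this
    obtain rfl : σ = 1 := by
      by_contra hne
      have hσ : σ = Equiv.swap a b := by
        refine Equiv.ext fun i => ?_
        have hmv : σ a ≠ a := fun h => hne (Equiv.ext fun j => by
          rcases hmem j with rfl | rfl
          · exact h
          · exact (hmem (σ j)).resolve_left fun h' => hab (σ.injective (h.trans h'.symm)))
        have ha : σ a = b := (hmem _).resolve_left hmv
        rcases hmem i with rfl | rfl
        · rw [Equiv.swap_apply_left, ha]
        · rw [Equiv.swap_apply_right]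
          exact (hmem _).resolve_right fun h' => hab (σ.injective (ha.trans h'.symm))
      subst hσ
      rw [huniv, Finset.sum_pair hab, Equiv.Perm.sign_swap hab] at hval
      have hw' := congrFun hw a
      rw [Pi.add_apply, Function.comp_apply, Equiv.symm_swap, Equiv.swap_apply_left, Pi.zero_apply] at hw'
      rw [hw'] at hval
      have : sg (-1) = Multiplicative.ofAdd 1 := by
        show (if (-1 : ℤˣ) = 1 then (1 : Multiplicative (ZMod 2)) else Multiplicative.ofAdd 1) = _
        exact if_neg fun h => by simpa using congrArg Units.val h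
      rw [this, ofAdd_zero, one_mul] at hval
      exact one_ne_ofAdd hval.symm
    rw [Equiv.Perm.sign_one, map_one, mul_one] at hval
    have hsum : w a + w b = 0 := by
      rw [← Finset.sum_pair hab, ← huniv]
      exact Multiplicative.ofAdd.injective (hval.trans ofAdd_zero.symm)
    have hwt : S.frame.el w 1 = t := by
      have hw1 : w = 0 ∨ w = 1 := by
        rcases zmod2_cases (w a) with ha | ha
        · refine Or.inl (funext fun i => ?_)
          rw [ha, zero_add] at hsum
          rcases hmem i with rfl | rfl <;> simp [ha, hsum]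
        · refine Or.inr (funext fun i => ?_)
          rw [ha] at hsum
          have hb : w b = 1 := (CharTwo.add_eq_zero.1 hsum).symm
          rcases hmem i with rfl | rfl <;> simp [ha, hb]
      rcases hw1 with rfl | rfl
      · exfalso
        rw [S.frame.el_one] at e
        have : x = 1 := by
          calc x = g * (g⁻¹ * x * g) * g⁻¹ := by group
            _ = 1 := by rw [e]; group
        rw [this, orderOf_one] at hx
        omega
      · rw [S.frame.el_vec, S.frame.vec_one]
    refine isConj_iff.2 ⟨g, ?_⟩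
    rw [show g * t * g⁻¹ = g * (g⁻¹ * x * g) * g⁻¹ by rw [e, hwt]]
    group
  rw [Nat.card_eq_one_iff_exists]
  refine ⟨⟨ConjClasses.mk t, t, ConjClasses.mem_carrier_mk, ht⟩, ?_⟩
  rintro ⟨c, x, hxc, hx⟩
  exact Subtype.ext ((ConjClasses.mem_carrier_iff_mk_eq.1 hxc).symm.trans
    (ConjClasses.mk_eq_mk_iff_isConj.2 (huniq x hx).symm))

/-- Coordinates adapted to a permutation of order two. -/
theorem exists_coord {Ω : Type*} [Fintype Ω] [DecidableEq Ω] [LinearOrder Ω] {m k : ℕ}
    (π : Equiv.Perm Ω) (hπ : π * π = 1) (hsupp : π.support.card = 2 * m) (hcard : Fintype.card Ω = 2 * m + k)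
    (τ : Equiv.Perm (Fin k)) (hm : Even m) :
    ∃ e : (Fin m × ZMod 2) ⊕ Fin k ≃ Ω, e.permCongr (mv τ 1) = π := by
  classical
  have hinv : ∀ i, π (π i) = i := fun i => sq_apply hπ i
  let low := Finset.univ.filter fun i => i < π i
  let high := Finset.univ.filter fun i => π i < i
  have hhl : high = low.image π := by
    ext i
    simp only [high, low, Finset.mem_filter, Finset.mem_univ, true_and, Finset.mem_image]
    exact ⟨fun h => ⟨π i, by rwa [hinv], hinv i⟩, fun ⟨j, hj, hji⟩ => by rw [← hji, hinv]; exact hj⟩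
  have hsplit : π.support = low ∪ high := by
    ext i
    simp only [high, low, Finset.mem_filter, Finset.mem_univ, true_and, Finset.mem_union,
      Equiv.Perm.mem_support]
    exact ⟨fun h => (lt_or_gt_of_ne h).symm, fun h e => h.elim (fun h => lt_irrefl i (by rwa [e] at h))
      fun h => lt_irrefl i (by rwa [e] at h)⟩
  have hdis : Disjoint low high := Finset.disjoint_left.2 fun i hi hi' => by
    simp only [high, low, Finset.mem_filter] at hi hi'
    exact lt_asymm hi.2 hi'.2
  have hlow : low.card = m := by
    have := congrArg Finset.card hsplit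
    rw [Finset.card_union_of_disjoint hdis, hsupp, hhl, Finset.card_image_of_injective _ π.injective] at this
    omega
  have hfix : (Finset.univ \ π.support).card = k := by
    rw [Finset.card_sdiff_of_subset (Finset.subset_univ _), Finset.card_univ, hsupp, hcard]
    omega
  let el := (low.equivFinOfCardEq hlow).symm
  let ef := ((Finset.univ \ π.support).equivFinOfCardEq hfix).symm
  have hlt : ∀ i, (el i : Ω) < π (el i) := fun i => (Finset.mem_filter.1 (el i).2).2
  have hffix : ∀ j, π (ef j) = ef j := fun j => by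
    have h := (Finset.mem_sdiff.1 (ef j).2).2
    rwa [Equiv.Perm.mem_support, not_not] at h
  let f : (Fin m × ZMod 2) ⊕ Fin k → Ω :=
    Sum.elim (fun z => if z.2 = 0 then (el z.1 : Ω) else π (el z.1)) fun j => (ef j : Ω)
  have hbij : Function.Bijective f := by
    refine (Fintype.bijective_iff_injective_and_card f).2 ⟨?_, ?_⟩
    · have hne : ∀ i j, π (el i) ≠ el j := fun i j h => by
        have := hlt j
        rw [← h, hinv] at this
        exact lt_asymm this (hlt i)
      have hmf : ∀ i j, (el i : Ω) ≠ ef j ∧ π (el i) ≠ ef j := fun i j => by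
        refine ⟨fun h => (hlt i).ne (by rw [h, hffix]), fun h => (hlt i).ne ?_⟩
        rw [h, ← hffix j, ← h, hinv]
      rintro (⟨i, x⟩ | i) (⟨j, y⟩ | j) h <;> simp only [f, Sum.elim_inl, Sum.elim_inr] at h
      · rcases zmod2_cases x with rfl | rfl <;> rcases zmod2_cases y with rfl | rfl <;>
          simp only [one_ne_zero, if_true, if_false] at h
        · rw [el.injective (Subtype.ext h)]
        · exact absurd h.symm (hne j i)
        · exact absurd h (hne i j)
        · rw [el.injective (Subtype.ext (π.injective h))]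
      · exfalso
        split_ifs at h
        exacts [(hmf i j).1 h, (hmf i j).2 h]
      · exfalso
        split_ifs at h
        exacts [(hmf j i).1 h.symm, (hmf j i).2 h.symm]
      · rw [ef.injective (Subtype.ext h)]
    · rw [Fintype.card_sum, Fintype.card_prod, Fintype.card_fin, Fintype.card_fin, ZMod.card, hcard]
      ring
  refine ⟨Equiv.ofBijective f hbij, Equiv.ext fun i => ?_⟩
  obtain ⟨z, rfl⟩ := (Equiv.ofBijective f hbij).surjective i
  rw [Equiv.permCongr_apply, Equiv.symm_apply_apply]
  show f (mv τ 1 z) = π (f z)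
  rcases z with ⟨i, x⟩ | j
  · rw [mv_inl, Pi.one_apply]
    simp only [f, Sum.elim_inl]
    rcases zmod2_cases x with rfl | rfl
    · rw [zero_add, if_neg one_ne_zero, if_pos rfl]
    · rw [show (1 : ZMod 2) + 1 = 0 from rfl, if_neg one_ne_zero, if_pos rfl, hinv]
  · have hsum : ∑ i : Fin m, (1 : Fin m → ZMod 2) i = 0 := by
      simp only [Pi.one_apply, Finset.sum_const, Finset.card_univ, Fintype.card_fin, nsmul_eq_mul, mul_one]
      exact ZMod.natCast_eq_zero_iff_even.2 hm
    rw [mv_inr, hsum, tp, if_pos rfl]
    simp only [Equiv.Perm.one_apply, f, Sum.elim_inr, hffix]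

/-- The model is the centraliser of a permutation conjugate to `mv τ 1` in the alternating group. -/
theorem exists_cen_equiv {ι κ Ω : Type*} [Fintype ι] [DecidableEq ι] [Fintype κ] [DecidableEq κ] [Fintype Ω]
    [DecidableEq Ω] {τ : Equiv.Perm κ} (α : ↥(alternatingGroup Ω)) (e : (ι × ZMod 2) ⊕ κ ≃ Ω)
    (he : e.permCongr (mv τ 1) = (α : Equiv.Perm Ω)) :
    Nonempty (cen (ι := ι) τ ≃* ↥(Subgroup.centralizer ({α} : Set ↥(alternatingGroup Ω)))) := by
  have hmul : ∀ p q, e.permCongr (p * q) = e.permCongr p * e.permCongr q := fun p q =>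
    Equiv.ext fun x => by simp
  have hmem : ∀ p : cen (ι := ι) τ, e.permCongr (p : Equiv.Perm ((ι × ZMod 2) ⊕ κ)) ∈ alternatingGroup Ω :=
    fun p => Equiv.Perm.mem_alternatingGroup.2 (by rw [Equiv.Perm.sign_permCongr, (mem_cen.1 p.2).2])
  have hcen : ∀ p : cen (ι := ι) τ,
      (⟨_, hmem p⟩ : ↥(alternatingGroup Ω)) ∈ Subgroup.centralizer ({α} : Set ↥(alternatingGroup Ω)) := fun p => by
    rw [Subgroup.mem_centralizer_singleton_iff]
    refine Subtype.ext ?_
    show e.permCongr _ * (α : Equiv.Perm Ω) = (α : Equiv.Perm Ω) * e.permCongr _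
    rw [← he, ← hmul, ← hmul, (mem_cen.1 p.2).1.eq]
  refine ⟨MulEquiv.ofBijective (MonoidHom.mk' (fun p => (⟨⟨_, hmem p⟩, hcen p⟩ :
    Subgroup.centralizer ({α} : Set ↥(alternatingGroup Ω)))) fun p q => Subtype.ext (Subtype.ext (hmul _ _)))
    ⟨fun p q h => ?_, fun q => ?_⟩⟩
  · exact Subtype.ext (e.permCongr.injective (congrArg Subtype.val (congrArg Subtype.val h) :))
  · have hq : e.permCongr.symm ((q : ↥(alternatingGroup Ω)) : Equiv.Perm Ω) ∈ cen (ι := ι) τ := by
      refine mem_cen.2 ⟨e.permCongr.injective ?_, ?_⟩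
      · rw [hmul, hmul, Equiv.apply_symm_apply, he]
        exact congrArg Subtype.val (Subgroup.mem_centralizer_singleton_iff.1 q.2)
      · rw [← Equiv.Perm.sign_permCongr e, Equiv.apply_symm_apply]
        exact Equiv.Perm.mem_alternatingGroup.1 (q : ↥(alternatingGroup Ω)).2
    exact ⟨⟨_, hq⟩, Subtype.ext (Subtype.ext (e.permCongr.apply_symm_apply _))⟩

end CfsgLib.AltCentralizer
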