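import Cfsg.Agent.AltCentralizer.Setup

/-!
The base group is weakly closed, and its normaliser controls fusion in it.
-/

set_option autoImplicit false

open scoped Pointwise

namespace CfsgLib.AltCentralizer

variable {G : Type*} [Group G] [Finite G] {ι : Type*} [Fintype ι] [DecidableEq ι] {t : G}

namespace Frame

variable (F : Frame G ι t)

theorem isPGroup_E : IsPGroup 2 F.E :=
  haveI : Fact (Nat.Prime 2) := ⟨Nat.prime_two⟩
  IsPGroup.of_card F.card_E

theorem cj_E_props (g : G) : (∀ a ∈ cj g F.E, ∀ b ∈ cj g F.E, a * b = b * a) ∧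
    (∀ a ∈ cj g F.E, a * a = 1) ∧ Nat.card (cj g F.E) = 2 ^ Fintype.card ι := by
  refine ⟨?_, ?_, (card_cj g F.E).trans F.card_E⟩
  · rintro _ ⟨a, ha, rfl⟩ _ ⟨b, hb, rfl⟩
    rw [← map_mul, F.E_comm a ha b hb, map_mul]
  · rintro _ ⟨a, ha, rfl⟩
    rw [← map_mul, F.E_sq a ha, map_one]

end Frame

/-- The number of fixed points of a non-trivial involution is small, so the base group is not
conjugate to another group of the same kind. -/
theorem weak_closure (F : Frame G ι t) (h4 : 4 ≤ Fintype.card ι) (heven : Even (Fintype.card ι)) {g : G}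
    (hg : cj g F.E ≤ F.Im) : cj g F.E = F.E := by
  classical
  obtain ⟨h1, h2, h3⟩ := F.cj_E_props g
  obtain ⟨θ, hθ, hE⟩ := Frame.eq_blk hg h1 h2 h3
  rw [hE]
  by_cases h : θ = 1
  · subst h; exact Frame.blk_one
  exfalso
  let Φ : (ι → ZMod 2) →+ Additive G := AddMonoidHom.mk'
    (fun u => Additive.ofMul (g * F.vec u * g⁻¹)) fun u v => by
      rw [F.vec_add, show g * (F.vec u * F.vec v) * g⁻¹ = g * F.vec u * g⁻¹ * (g * F.vec v * g⁻¹) by
        group]
      rfl
  have hinj : Function.Injective Φ := fun u v e =>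
    F.vec_inj (mul_left_cancel (mul_right_cancel (Additive.ofMul.injective e)))
  -- the preimage of `t`
  have ht : g⁻¹ * t * g ∈ F.E := mem_cj.1 (hE ▸ F.t_mem_blk θ hθ)
  obtain ⟨v₀, hv₀⟩ := ht
  have hΦv : Φ v₀ = Additive.ofMul t := by
    show Additive.ofMul (g * F.vec v₀ * g⁻¹) = _
    rw [hv₀]; congr 1; group
  let A : ι → Prop := fun i => v₀ i = 1
  have hC : ∀ p q, (A p ↔ A q) → p ≠ q → ∃ w, IsC θ w ∧ Φ (pair p q) = Additive.ofMul (F.vec w) := by
    intro p q hpq hne
    have hT : Tv F.E (F.lift (Equiv.swap p q)) (F.vec (pair p q)) := by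
      have := F.swap_tv (θ := 1) (hθ := one_mul 1) hne rfl rfl
      rwa [Frame.blk_one] at this
    have hsw : v₀ ∘ (Equiv.swap p q).symm = v₀ := by
      have hval : v₀ q = v₀ p := by
        by_cases hp : v₀ p = 1
        · rw [hp, hpq.1 hp]
        · by_cases hq : v₀ q = 1
          · exact absurd (hpq.2 hq) hp
          · rw [show v₀ p = 0 from (fun x : ZMod 2 => by revert x; decide : ∀ x : ZMod 2, x ≠ 1 → x = 0) _ hp,
              (fun x : ZMod 2 => by revert x; decide : ∀ x : ZMod 2, x ≠ 1 → x = 0) _ hq]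
      funext i
      rw [Function.comp_apply, Equiv.symm_swap]
      by_cases h1 : i = p
      · rw [h1, Equiv.swap_apply_left, hval]
      by_cases h2 : i = q
      · rw [h2, Equiv.swap_apply_right, hval]
      rw [Equiv.swap_apply_of_ne_of_ne h1 h2]
    have hcm : Commute (F.lift (Equiv.swap p q)) (F.vec v₀) := by
      have := F.lift_vec (Equiv.swap p q) v₀
      rwa [hsw] at this
    have hctr : Ctr F.E (F.vec v₀) (F.vec (pair p q)) := ⟨_, hcm, hT⟩
    have h' := hctr.conj g
    rw [hE, show g * F.vec v₀ * g⁻¹ = t from Additive.ofMul.injective hΦv] at h'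
    obtain ⟨w, hw, e⟩ := F.isC_of_ctr h'
    exact ⟨w, hw, congrArg Additive.ofMul e⟩
  have hfix := fixed_card_le hθ h
  have hone : (1 : ι → ZMod 2) ∉ Target θ := fun hm => by
    obtain ⟨i, hi⟩ : ∃ i, θ i ≠ i := by
      by_contra hh; push Not at hh; exact h (Equiv.ext hh)
    exact one_ne_zero (hm.1 i hi)
  have hv0 : v₀ ≠ 0 := fun e => by
    rw [e, map_zero] at hΦv
    have h1 : (1 : G) = t := Additive.ofMul.injective hΦv
    obtain ⟨i⟩ : Nonempty ι := Fintype.card_pos_iff.1 (by omega)
    rw [← F.vec_one, ← F.vec_zero] at h1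
    exact zero_ne_one (congrFun (F.vec_inj h1) i)
  set sA := Finset.univ.filter A with hsA
  set sB := Finset.univ.filter fun i => ¬ A i with hsB
  have hsum : sA.card + sB.card = Fintype.card ι := by
    rw [hsA, hsB, Finset.card_filter_add_card_filter_not]; rfl
  have hthird : ∀ {s : Finset ι}, 3 ≤ s.card → ∀ p q, ∃ r ∈ s, p ≠ r ∧ q ≠ r := fun {s} hs p q => by
    by_contra hh
    push Not at hh
    have : s ⊆ {p, q} := fun r hr => by
      simp only [Finset.mem_insert, Finset.mem_singleton]
      by_contra hn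
      push Not at hn
      exact hn.2 (hh r hr (Ne.symm hn.1)).symm
    have := Finset.card_le_card this
    have := Finset.card_le_two (a := p) (b := q)
    omega
  have hTA : 3 ≤ sA.card → ∀ p q, A p → A q → p ≠ q → pair p q ∈ pullT F θ Φ := by
    intro hs p q hp hq hne
    obtain ⟨r, hr, hpr, hqr⟩ := hthird hs p q
    exact pair_mem_pullT hθ (A := A) (fun p q hp hq => hC p q (iff_of_true hp hq)) hp hq
      (Finset.mem_filter.1 hr).2 hne hpr hqr
  have hTB : 3 ≤ sB.card → ∀ p q, ¬ A p → ¬ A q → p ≠ q → pair p q ∈ pullT F θ Φ := by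
    intro hs p q hp hq hne
    obtain ⟨r, hr, hpr, hqr⟩ := hthird hs p q
    exact pair_mem_pullT hθ (A := fun i => ¬ A i) (fun p q hp hq => hC p q (iff_of_false hp hq)) hp hq
      (Finset.mem_filter.1 hr).2 hne hpr hqr
  have hvsum : ∑ i ∈ sA, v₀ i = (sA.card : ZMod 2) := by
    rw [Finset.sum_congr rfl (g := fun _ => (1 : ZMod 2)) fun i hi => (Finset.mem_filter.1 hi).2,
      Finset.sum_const, nsmul_eq_mul, mul_one]
  have hzero : ∀ i, ¬ A i → v₀ i = 0 := fun i hi =>
    (fun x : ZMod 2 => by revert x; decide : ∀ x : ZMod 2, x ≠ 1 → x = 0) _ hi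
  rcases Nat.even_or_odd sA.card with he | ho
  · by_cases h3 : 3 ≤ sA.card
    · obtain ⟨w, hw, e⟩ := mem_of_pairs (pullT F θ Φ) sA
        (fun p hp q hq => hTA h3 p q (Finset.mem_filter.1 hp).2 (Finset.mem_filter.1 hq).2)
        (c := v₀) (fun i hi => hzero i fun hA => hi (Finset.mem_filter.2 ⟨Finset.mem_univ _, hA⟩))
        (by rw [hvsum, ZMod.natCast_eq_zero_iff_even.2 he])
      replace e : Additive.ofMul (F.vec 1) = Additive.ofMul (F.vec w) := by rw [F.vec_one, ← hΦv, e]
      exact hone ((F.vec_inj (Additive.ofMul.injective e)) ▸ hw)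
    · obtain ⟨k, hk⟩ := he
      have hk0 : sA.card ≠ 0 := fun e => hv0 (funext fun i => hzero i fun hA => by
        rw [Finset.card_eq_zero] at e
        exact Finset.notMem_empty i (e ▸ Finset.mem_filter.2 ⟨Finset.mem_univ _, hA⟩))
      obtain ⟨a, b, hab, hs⟩ := Finset.card_eq_two.1 (show sA.card = 2 by omega)
      have hmem : ∀ i, A i ↔ i = a ∨ i = b := fun i => by
        have : i ∈ sA ↔ i ∈ ({a, b} : Finset ι) := by rw [hs]
        simpa [hsA] using this
      have hv : v₀ = pair a b := funext fun i => by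
        by_cases h1 : i = a
        · rw [h1, pair_apply_left hab]; exact (hmem a).2 (Or.inl rfl)
        by_cases h2 : i = b
        · rw [h2, pair_comm, pair_apply_left hab.symm]; exact (hmem b).2 (Or.inr rfl)
        rw [pair_apply_of_ne h1 h2, hzero i fun hA => ((hmem i).1 hA).elim h1 h2]
      obtain ⟨w, hw, e⟩ := hC a b (iff_of_true ((hmem a).2 (Or.inl rfl)) ((hmem b).2 (Or.inr rfl))) hab
      replace e : Additive.ofMul (F.vec 1) = Additive.ofMul (F.vec w) := by rw [F.vec_one, ← hΦv, hv, e]
      obtain ⟨x, y, hxy, -, rfl⟩ := hw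
      have e1 := F.vec_inj (Additive.ofMul.injective e)
      obtain ⟨z, hz⟩ : ∃ z, z ∉ ({x, y} : Finset ι) := by
        by_contra hh
        push Not at hh
        have := Finset.card_le_card (show (Finset.univ : Finset ι) ⊆ {x, y} from fun i _ => hh i)
        rw [Finset.card_univ, Finset.card_pair hxy] at this
        omega
      simp only [Finset.mem_insert, Finset.mem_singleton, not_or] at hz
      have := congrFun e1 z
      rw [Pi.one_apply, pair_apply_of_ne hz.1 hz.2] at this
      exact one_ne_zero this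
  · have hBodd : Odd sB.card := by
      rcases Nat.even_or_odd sB.card with he | hb
      · exact absurd (hsum ▸ heven) (Nat.not_even_iff_odd.2 (ho.add_even he))
      · exact hb
    obtain ⟨i, hi⟩ := hBodd
    obtain ⟨j, hj⟩ := ho
    have hsides : Sides A ≤ pullT F θ Φ := sides_le A _
      (fun p q hp hq hne => by
        refine hTA ?_ p q hp hq hne
        have : ({p, q} : Finset ι) ⊆ sA := by
          intro x hx
          simp only [Finset.mem_insert, Finset.mem_singleton] at hx
          rcases hx with rfl | rfl <;> exact Finset.mem_filter.2 ⟨Finset.mem_univ _, by assumption⟩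
        have := Finset.card_le_card this
        rw [Finset.card_pair hne] at this
        omega)
      (fun p q hp hq hne => by
        refine hTB ?_ p q hp hq hne
        have : ({p, q} : Finset ι) ⊆ sB := by
          intro x hx
          simp only [Finset.mem_insert, Finset.mem_singleton] at hx
          rcases hx with rfl | rfl <;> exact Finset.mem_filter.2 ⟨Finset.mem_univ _, by assumption⟩
        have := Finset.card_le_card this
        rw [Finset.card_pair hne] at this
        omega)
    haveI : Nonempty ι := Fintype.card_pos_iff.1 (by omega)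
    have h5 := (card_sides A).1
    have h6 := card_le_target hinj hsides
    by_cases hR : ∃ r, θ r = r
    · have h7 := card_target θ hR
      have h8 : 2 ^ Fintype.card ι * 2 ≤ 2 ^ Nat.card {i // θ i = i} * 4 := by
        calc 2 ^ Fintype.card ι * 2 ≤ Nat.card (Sides A) * 4 * 2 := by omega
          _ ≤ Nat.card (Target θ) * 4 * 2 := by omega
          _ ≤ _ := by omega
      have h9 : 2 ^ (Nat.card {i // θ i = i} + 2) * 2 ≤ 2 ^ Fintype.card ι * 2 :=
        Nat.mul_le_mul_right 2 (Nat.pow_le_pow_right (by omega) hfix)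
      rw [pow_add] at h9
      have := Nat.two_pow_pos (Nat.card {i // θ i = i})
      omega
    · push Not at hR
      have h7 : Nat.card (Target θ) ≤ 1 := by
        rw [Finite.card_le_one_iff_subsingleton]
        exact ⟨fun u v => Subtype.ext (funext fun i => (u.2.1 i (hR i)).trans (v.2.1 i (hR i)).symm)⟩
      have : 2 ^ 4 ≤ 2 ^ Fintype.card ι := Nat.pow_le_pow_right (by omega) h4
      omega

namespace Setup

variable (S : Setup G ι t)

/-- Fusion of elements of the base group is controlled by its normaliser. -/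
theorem control (h4 : 4 ≤ Fintype.card ι) {x y g : G} (hx : x ∈ S.frame.E) (hy : y ∈ S.frame.E)
    (hg : g * x * g⁻¹ = y) : ∃ n, cj n S.frame.E = S.frame.E ∧ n * x * n⁻¹ = y := by
  haveI : Fact (Nat.Prime 2) := ⟨Nat.prime_two⟩
  set E := S.frame.E
  set C := Subgroup.centralizer ({y} : Set G)
  have hEC : E ≤ C := fun e he => Subgroup.mem_centralizer_singleton_iff.2 (S.frame.E_comm e he y hy)
  have hFC : cj g E ≤ C := fun e he => Subgroup.mem_centralizer_singleton_iff.2
    ((S.frame.cj_E_props g).1 e he y (mem_cj.2 (by rw [← hg]; simpa [mul_assoc] using hx)))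
  obtain ⟨R, hR⟩ := (S.frame.isPGroup_E.of_equiv (Subgroup.subgroupOfEquivOfLe hEC).symm).exists_le_sylow
  have hp : IsPGroup 2 ((cj g E).subgroupOf C) :=
    ((IsPGroup.of_card ((S.frame.cj_E_props g).2.2)).of_equiv (Subgroup.subgroupOfEquivOfLe hFC).symm)
  obtain ⟨Q, hQ⟩ := hp.exists_le_sylow
  obtain ⟨c, hc⟩ := MulAction.exists_smul_eq C Q R
  set RG : Subgroup G := (R : Subgroup C).map C.subtype
  have h1 : cj ((c : G) * g) E ≤ RG := by
    intro z hz
    rw [cj_mul, mem_cj] at hz
    refine ⟨c * ⟨_, hFC hz⟩ * c⁻¹, ?_, ?_⟩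
    · rw [SetLike.mem_coe, ← hc]
      change c * _ * c⁻¹ ∈ MulAut.conj c • (Q : Subgroup C)
      exact Subgroup.smul_mem_pointwise_smul (a := MulAut.conj c) _ _ (hQ (Subgroup.mem_subgroupOf.2 hz))
    · simp [mul_assoc]
  have h2 : E ≤ RG := fun e he => ⟨⟨e, hEC he⟩, hR (Subgroup.mem_subgroupOf.2 he), rfl⟩
  obtain ⟨k, hk⟩ := S.exists_conj_le (R := RG) ((R.isPGroup').map C.subtype)
  have hle : ∀ a : G, cj a E ≤ RG → cj (k * a) E = E := fun a ha => by
    refine weak_closure S.frame h4 S.even ?_
    rw [cj_mul]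
    exact (Subgroup.map_mono ha).trans hk
  have hkE : cj k E = E := by
    have := hle 1 (by rwa [cj_one])
    rwa [mul_one] at this
  refine ⟨(c : G) * g, ?_, ?_⟩
  · have h := hle _ h1
    conv_rhs at h => rw [← hkE]
    rw [cj_mul] at h
    exact Subgroup.map_injective (MulAut.conj k).injective h
  · rw [show (c : G) * g * x * ((c : G) * g)⁻¹ = c * (g * x * g⁻¹) * (c : G)⁻¹ by group, hg]
    exact mul_inv_eq_iff_eq_mul.2 (Subgroup.mem_centralizer_singleton_iff.1 c.2)

end Setup

end CfsgLib.AltCentralizer
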